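/-
Doubly transitive groups of degree `p ^ 2 + 1`: block systems at all points.
-/
import Mathlib

set_option autoImplicit false
set_option linter.unusedSectionVars false
set_option linter.style.haveILetI false
set_option linter.unusedVariables false

namespace Cfsg.Agent.Lib.Deg2p.Basic

open MulAction Finset
open scoped Classical Pointwise

/-- A `G`-invariant family of block systems, one at each point. -/
structure Sys (G Ω : Type*) [Group G] [MulAction G Ω] [Fintype Ω] (p : ℕ) where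
  R : Ω → Ω → Ω → Prop
  inv : ∀ (g : G) {x y z : Ω}, R x y z → R (g • x) (g • y) (g • z)
  ne : ∀ {x y z : Ω}, R x y z → y ≠ x
  refl : ∀ {x y : Ω}, y ≠ x → R x y y
  symm : ∀ {x y z : Ω}, R x y z → R x z y
  trans : ∀ {x y z w : Ω}, R x y z → R x z w → R x y w
  card : ∀ {x y : Ω}, y ≠ x → (Finset.univ.filter (fun z => R x y z)).card = p

variable {G Ω : Type*} [Group G] [MulAction G Ω] [Fintype Ω] {p : ℕ}

/-- An abstract count: there is no linear space on `p ^ 2 + 1` points whose lines have `p + 1` points. -/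
theorem no_linear_space {Ω : Type*} [Fintype Ω] (hp : 2 ≤ p) (hΩ : Fintype.card Ω = p ^ 2 + 1)
    (ℓ : Ω → Ω → Finset Ω) (h1 : ∀ x y, x ≠ y → x ∈ ℓ x y ∧ y ∈ ℓ x y)
    (h2 : ∀ x y, x ≠ y → (ℓ x y).card = p + 1)
    (h3 : ∀ x y c d, x ≠ y → c ∈ ℓ x y → d ∈ ℓ x y → c ≠ d → ℓ c d = ℓ x y) : False := by
  have h1c : 1 < Fintype.card Ω := by rw [hΩ]; nlinarith
  obtain ⟨a, b, hab⟩ := Fintype.exists_pair_of_one_lt_card h1c
  have h4 : (ℓ a b).card < Fintype.card Ω := by
    rw [h2 a b hab, hΩ]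
    nlinarith
  obtain ⟨c, hc⟩ : ∃ c, c ∉ ℓ a b := by
    by_contra hcon
    push_neg at hcon
    have : ℓ a b = Finset.univ := Finset.eq_univ_iff_forall.mpr hcon
    rw [this, Finset.card_univ] at h4
    omega
  have hcd : ∀ d ∈ ℓ a b, c ≠ d := fun d hd h => hc (h ▸ hd)
  let A : Ω → Finset Ω := fun d => (ℓ c d).erase c
  have hA : ∀ d ∈ ℓ a b, (A d).card = p := by
    intro d hd
    rw [Finset.card_erase_of_mem (h1 c d (hcd d hd)).1, h2 c d (hcd d hd)]
    simp
  have hdisj : ∀ d ∈ ℓ a b, ∀ d' ∈ ℓ a b, d ≠ d' → Disjoint (A d) (A d') := by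
    intro d hd d' hd' hne
    rw [Finset.disjoint_left]
    intro e he he'
    have he1 := Finset.mem_erase.mp he
    have he2 := Finset.mem_erase.mp he'
    have e1 : ℓ c e = ℓ c d := h3 c d c e (hcd d hd) (h1 c d (hcd d hd)).1 he1.2 (Ne.symm he1.1)
    have e2 : ℓ c e = ℓ c d' := h3 c d' c e (hcd d' hd') (h1 c d' (hcd d' hd')).1 he2.2 (Ne.symm he2.1)
    have e3 : d' ∈ ℓ c d := by
      rw [← e1, e2]
      exact (h1 c d' (hcd d' hd')).2
    have e4 : ℓ d d' = ℓ c d := h3 c d d d' (hcd d hd) (h1 c d (hcd d hd)).2 e3 hne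
    have e5 : ℓ d d' = ℓ a b := h3 a b d d' hab hd hd' hne
    apply hc
    rw [← e5, e4]
    exact (h1 c d (hcd d hd)).1
  have hsub : (ℓ a b).biUnion A ⊆ Finset.univ.erase c := by
    intro e he
    obtain ⟨d, _, hd⟩ := Finset.mem_biUnion.mp he
    exact Finset.mem_erase.mpr ⟨(Finset.mem_erase.mp hd).1, Finset.mem_univ _⟩
  have hcard := Finset.card_le_card hsub
  rw [Finset.card_biUnion hdisj, Finset.sum_congr rfl hA, Finset.sum_const, h2 a b hab, smul_eq_mul,
    Finset.card_erase_of_mem (Finset.mem_univ _), Finset.card_univ, hΩ] at hcard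
  have : (p + 1) * p = p ^ 2 + p := by ring
  omega

namespace Sys

variable (S : Sys G Ω p)

/-- The class of `y` at `x`. -/
noncomputable def cls (x y : Ω) : Finset Ω := Finset.univ.filter (fun z => S.R x y z)

/-- The "line" from `x` to `y`. -/
noncomputable def line (x y : Ω) : Finset Ω := insert x (S.cls x y)

theorem mem_cls {x y z : Ω} : z ∈ S.cls x y ↔ S.R x y z := by simp [cls]

theorem ne' {x y z : Ω} (h : S.R x y z) : z ≠ x := S.ne (S.symm h)

theorem cls_eq {x y z : Ω} (h : S.R x y z) : S.cls x z = S.cls x y := by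
  ext w
  rw [mem_cls, mem_cls]
  exact ⟨fun h' => S.trans h h', fun h' => S.trans (S.symm h) h'⟩

theorem card_line {x y : Ω} (h : y ≠ x) : (S.line x y).card = p + 1 := by
  have hx : x ∉ S.cls x y := fun hx => S.ne' (S.mem_cls.mp hx) rfl
  rw [line, Finset.card_insert_of_notMem hx, cls, S.card h]

theorem inv' (g : G) {x y z : Ω} : S.R (g • x) (g • y) (g • z) ↔ S.R x y z := by
  refine ⟨fun h => ?_, S.inv g⟩
  have := S.inv g⁻¹ h
  simpa using this

/-- No linear space. -/
theorem no_symm (hp : 2 ≤ p) (hΩ : Fintype.card Ω = p ^ 2 + 1)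
    (h : ∀ x y, x ≠ y → S.line x y = S.line y x) : False := by
  refine no_linear_space hp hΩ S.line ?_ ?_ ?_
  · intro x y hxy
    refine ⟨Finset.mem_insert_self _ _, Finset.mem_insert_of_mem ?_⟩
    exact S.mem_cls.mpr (S.refl (Ne.symm hxy))
  · intro x y hxy
    exact S.card_line (Ne.symm hxy)
  · intro x y c d hxy hc hd hcd
    have key : ∀ u v w, u ≠ v → w ∈ S.line u v → w ≠ u → S.line u w = S.line u v := by
      intro u v w huv hw hwu
      have : S.R u v w := by
        rcases Finset.mem_insert.mp hw with h' | h'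
        · exact absurd h' hwu
        · exact S.mem_cls.mp h'
      rw [line, line, S.cls_eq this]
    by_cases hcx : c = x
    · subst hcx
      exact key c y d hxy hd (Ne.symm hcd)
    · have e1 : S.line x c = S.line x y := key x y c hxy hc hcx
      have e2 : S.line c x = S.line x y := by
        rw [← h x c (Ne.symm hcx), e1]
      have hd' : d ∈ S.line c x := by
        rw [e2]
        exact hd
      rw [key c x d hcx hd' (Ne.symm hcd), e2]

/-- Lines are never symmetric, in the form used below: from a single pair. -/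
theorem no_pair (hp : 2 ≤ p) (hΩ : Fintype.card Ω = p ^ 2 + 1)
    (h2 : ∀ {a b c d : Ω}, a ≠ b → c ≠ d → ∃ g : G, g • a = c ∧ g • b = d) {a b : Ω} (hab : a ≠ b)
    (h : ∀ c, S.R b a c → c ≠ a → S.R a b c) : False := by
  -- equality of lines at `a, b`
  have hsub : (S.cls b a).erase a ⊆ (S.cls a b).erase b := by
    intro c hc
    have h1 := Finset.mem_erase.mp hc
    have h3 := S.mem_cls.mp h1.2
    refine Finset.mem_erase.mpr ⟨?_, S.mem_cls.mpr (h c h3 h1.1)⟩
    exact S.ne' h3
  have hb : b ∈ S.cls a b := S.mem_cls.mpr (S.refl (Ne.symm hab))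
  have ha : a ∈ S.cls b a := S.mem_cls.mpr (S.refl hab)
  have hcard : ((S.cls a b).erase b).card ≤ ((S.cls b a).erase a).card := by
    rw [Finset.card_erase_of_mem hb, Finset.card_erase_of_mem ha, cls, cls, S.card (Ne.symm hab), S.card hab]
  have heq := Finset.eq_of_subset_of_card_le hsub hcard
  have hline : S.line a b = S.line b a := by
    ext c
    by_cases hca : c = a
    · subst hca
      simp [line, ha]
    by_cases hcb : c = b
    · subst hcb
      simp [line, hb]
    have e : c ∈ S.cls a b ↔ c ∈ S.cls b a := by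
      have e1 : c ∈ (S.cls a b).erase b ↔ c ∈ (S.cls b a).erase a := by rw [heq]
      simpa [hca, hcb] using e1
    simp [line, hca, hcb, e]
  apply S.no_symm hp hΩ
  intro x y hxy
  obtain ⟨g, hg1, hg2⟩ := h2 hab hxy
  have hl : ∀ u v, S.line (g • u) (g • v) = (S.line u v).image (fun w => g • w) := by
    intro u v
    ext w
    simp only [line, Finset.mem_insert, Finset.mem_image, mem_cls]
    constructor
    · rintro (h' | h')
      · exact ⟨u, Or.inl rfl, h'.symm⟩
      · refine ⟨g⁻¹ • w, Or.inr ?_, by simp⟩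
        have := S.inv g⁻¹ h'
        simpa using this
    · rintro ⟨w', (h' | h'), rfl⟩
      · left
        rw [h']
      · right
        exact S.inv g h'
  rw [← hg1, ← hg2, hl, hl, hline]

/-- Symmetry of the relation at one point is impossible. -/
theorem no_sym_at (hp : 2 ≤ p) (hΩ : Fintype.card Ω = p ^ 2 + 1)
    (h2 : ∀ {a b c d : Ω}, a ≠ b → c ≠ d → ∃ g : G, g • a = c ∧ g • b = d) (a : Ω)
    (h : ∀ c d, S.R c a d → d ≠ a → S.R d a c) : False := by
  have h1c : 1 < Fintype.card Ω := by rw [hΩ]; nlinarith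
  obtain ⟨e, he⟩ : ∃ e, a ≠ e := by
    obtain ⟨u, v, huv⟩ := Fintype.exists_pair_of_one_lt_card h1c
    by_cases hu : a = u
    · exact ⟨v, hu ▸ huv⟩
    · exact ⟨u, hu⟩
  have hglob : ∀ x y z, S.R x y z → z ≠ y → S.R z y x := by
    intro x y z hR hzy
    have hyx : y ≠ x := S.ne hR
    obtain ⟨g, hg1, hg2⟩ := h2 hyx he
    have h3 : S.R (g • x) a (g • z) := by
      have := S.inv g hR
      rwa [hg1] at this
    have h4 : g • z ≠ a := by
      intro h5
      apply hzy
      rw [← hg1] at h5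
      exact smul_left_cancel g h5
    have h5 := h _ _ h3 h4
    rw [← hg1] at h5
    exact S.inv' g |>.mp h5
  apply S.no_symm hp hΩ
  have hone : ∀ x y w, x ≠ y → w ∈ S.line x y → w ∈ S.line y x := by
    intro x y w hxy hw
    by_cases hwy : w = y
    · subst hwy
      exact Finset.mem_insert_self _ _
    rcases Finset.mem_insert.mp hw with h' | h'
    · subst h'
      exact Finset.mem_insert_of_mem (S.mem_cls.mpr (S.refl hxy))
    · have h3 := S.mem_cls.mp h'
      have h4 := hglob x w y (S.symm h3) (Ne.symm hwy)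
      exact Finset.mem_insert_of_mem (S.mem_cls.mpr (S.symm h4))
  intro x y hxy
  ext w
  exact ⟨hone x y w hxy, hone y x w (Ne.symm hxy)⟩

end Sys

/-- A non-trivial block at one point gives a system of blocks. -/
theorem exists_sys [FaithfulSMul G Ω] (hp : p.Prime) (hΩ : Fintype.card Ω = p ^ 2 + 1)
    (h2 : ∀ {a b c d : Ω}, a ≠ b → c ≠ d → ∃ g : G, g • a = c ∧ g • b = d) (a : Ω)
    (hnp : ¬ IsPreprimitive ↥(stabilizer G a) ↥(SubMulAction.ofStabilizer G a)) :
    Nonempty (Sys G Ω p) := by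
  have htr : IsPretransitive ↥(stabilizer G a) ↥(SubMulAction.ofStabilizer G a) := by
    refine ⟨fun x y => ?_⟩
    have hx : (x : Ω) ≠ a := x.2
    have hy : (y : Ω) ≠ a := y.2
    obtain ⟨g, hg1, hg2⟩ := h2 (Ne.symm hx) (Ne.symm hy)
    refine ⟨⟨g, hg1⟩, ?_⟩
    apply Subtype.ext
    exact hg2
  obtain ⟨B, hB, hBt⟩ : ∃ B : Set ↥(SubMulAction.ofStabilizer G a),
      IsBlock ↥(stabilizer G a) B ∧ ¬ IsTrivialBlock B := by
    by_contra hcon
    push_neg at hcon
    exact hnp { htr with isTrivialBlock_of_isBlock := fun {B} hB => hcon B hB }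
  have hBne : B.Nonempty := by
    rcases Set.eq_empty_or_nonempty B with rfl | h
    · exact absurd (Or.inl Set.subsingleton_empty) hBt
    · exact h
  have hcardΔ : Nat.card ↥(SubMulAction.ofStabilizer G a) = p ^ 2 := by
    rw [SubMulAction.nat_card_ofStabilizer_eq, Nat.card_eq_fintype_card, hΩ]
    simp
  have hdvd := hB.ncard_dvd_card hBne
  rw [hcardΔ] at hdvd
  haveI : Finite ↥(SubMulAction.ofStabilizer G a) := inferInstance
  have hB1 : B.ncard ≠ 1 := by
    intro h
    apply hBt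
    left
    rw [← Set.ncard_le_one_iff_subsingleton]
    omega
  have hB2 : B.ncard ≠ p ^ 2 := by
    intro h
    apply hBt
    right
    rw [Set.eq_univ_iff_ncard, h, hcardΔ]
  have hBp : B.ncard = p := by
    obtain ⟨k, hk, hk2⟩ := (Nat.dvd_prime_pow hp).mp hdvd
    interval_cases k
    · exact absurd (by simpa using hk2) hB1
    · simpa using hk2
    · exact absurd hk2 hB2
  -- the block as a set in `Ω`
  let B' : Set Ω := Subtype.val '' B
  have hB'a : a ∉ B' := by
    rintro ⟨x, _, hx⟩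
    exact x.2 hx
  have hBpres : ∀ h : G, h • a = a → ∀ c ∈ B', h • c ∈ B' → ∀ d ∈ B', h • d ∈ B' := by
    rintro h hh c ⟨c', hc', rfl⟩ hc2 d ⟨d', hd', rfl⟩
    obtain ⟨c'', hc'', hc3⟩ := hc2
    let h' : ↥(stabilizer G a) := ⟨h, hh⟩
    have e1 : c'' = h' • c' := by
      apply Subtype.ext
      exact hc3
    have e2 : h' • B = B := by
      by_contra hne
      have hd := hB (g₁ := h') (g₂ := 1) (by simpa using hne)
      rw [Set.disjoint_left] at hd
      apply hd (a := c'') ⟨c', hc', e1.symm⟩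
      simpa using hc''
    have e3 : h' • d' ∈ B := by
      rw [← e2]
      exact Set.smul_mem_smul_set hd'
    exact ⟨h' • d', e3, rfl⟩
  obtain ⟨b₀, hb₀⟩ : ∃ b₀, b₀ ∈ B' := by
    obtain ⟨x, hx⟩ := hBne
    exact ⟨x, x, hx, rfl⟩
  have hb₀a : b₀ ≠ a := fun h => hB'a (h ▸ hb₀)
  have hcardB' : B'.ncard = p := by
    rw [Set.ncard_image_of_injective _ Subtype.val_injective, hBp]
  have huniq : ∀ {g g' : G} {y w : Ω}, g • a = g' • a → g⁻¹ • y ∈ B' → g'⁻¹ • y ∈ B' → g'⁻¹ • w ∈ B' →
      g⁻¹ • w ∈ B' := by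
    intro g g' y w hgg hy hy' hw
    have hh : (g⁻¹ * g') • a = a := by
      rw [mul_smul, ← hgg]
      simp
    have e1 : (g⁻¹ * g') • (g'⁻¹ • y) ∈ B' := by
      simpa [mul_smul] using hy
    have e2 := hBpres _ hh _ hy' e1 _ hw
    simpa [mul_smul] using e2
  refine ⟨{
    R := fun x y z => ∃ g : G, g • a = x ∧ g⁻¹ • y ∈ B' ∧ g⁻¹ • z ∈ B'
    inv := ?_
    ne := ?_
    refl := ?_
    symm := ?_
    trans := ?_
    card := ?_ }⟩
  · rintro g x y z ⟨g', h1, h3, h4⟩
    refine ⟨g * g', by rw [mul_smul, h1], ?_, ?_⟩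
    · simpa [mul_smul] using h3
    · simpa [mul_smul] using h4
  · rintro x y z ⟨g, h1, h3, h4⟩ h5
    apply hB'a
    rw [h5, ← h1] at h3
    simpa using h3
  · intro x y hyx
    obtain ⟨g₀, hg₀, _⟩ := h2 (Ne.symm hb₀a) (Ne.symm hyx)
    have h3 : g₀⁻¹ • y ≠ a := by
      intro h
      apply hyx
      rw [inv_smul_eq_iff] at h
      rw [h, hg₀]
    obtain ⟨h, hh1, hh2⟩ := h2 (Ne.symm hb₀a) (Ne.symm h3)
    refine ⟨g₀ * h, by rw [mul_smul, hh1, hg₀], ?_, ?_⟩ <;>
    · have : (g₀ * h)⁻¹ • y = b₀ := by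
        rw [mul_inv_rev, mul_smul, ← hh2]
        simp
      rw [this]
      exact hb₀
  · rintro x y z ⟨g, h1, h3, h4⟩
    exact ⟨g, h1, h4, h3⟩
  · rintro x y z w ⟨g, h1, h3, h4⟩ ⟨g', h5, h6, h7⟩
    exact ⟨g, h1, h3, huniq (h5 ▸ h1 : g • a = g' • a) h4 h6 h7⟩
  · intro x y hyx
    obtain ⟨g₀, hg₀, _⟩ := h2 (Ne.symm hb₀a) (Ne.symm hyx)
    have h3 : g₀⁻¹ • y ≠ a := by
      intro h
      apply hyx
      rw [inv_smul_eq_iff] at h
      rw [h, hg₀]
    obtain ⟨h, hh1, hh2⟩ := h2 (Ne.symm hb₀a) (Ne.symm h3)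
    let g := g₀ * h
    have hga : g • a = x := by
      simp only [g]
      rw [mul_smul, hh1, hg₀]
    have hgy : g⁻¹ • y ∈ B' := by
      have : g⁻¹ • y = b₀ := by
        simp only [g]
        rw [mul_inv_rev, mul_smul, ← hh2]
        simp
      rw [this]
      exact hb₀
    have hset : (Finset.univ.filter (fun z => ∃ g : G, g • a = x ∧ g⁻¹ • y ∈ B' ∧ g⁻¹ • z ∈ B')) =
        (B'.toFinite.toFinset).image (fun w => g • w) := by
      ext z
      simp only [Finset.mem_filter, Finset.mem_univ, true_and, Finset.mem_image, Set.Finite.mem_toFinset]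
      constructor
      · rintro ⟨g', h5, h6, h7⟩
        exact ⟨g⁻¹ • z, huniq (hga.trans h5.symm) hgy h6 h7, by simp⟩
      · rintro ⟨w, hw, rfl⟩
        exact ⟨g, hga, hgy, by simpa using hw⟩
    rw [hset, Finset.card_image_of_injective _ (MulAction.injective g)]
    rw [← hcardB', Set.ncard_eq_toFinset_card B' B'.toFinite]

end Cfsg.Agent.Lib.Deg2p.Basic
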