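/-
Doubly transitive groups of degree `p ^ 2 + 1` with an imprimitive point stabiliser:
a Sylow `p`-subgroup of a point stabiliser is regular on the remaining points.
-/
import Cfsg.Agent.Lib.Deg2p.Basic

set_option autoImplicit false
set_option linter.unusedSectionVars false
set_option linter.style.haveILetI false
set_option linter.unusedVariables false

namespace Cfsg.Agent.Lib.Deg2p.Reg

open MulAction Finset Cfsg.Agent.Lib.Deg2p.Basic
open scoped Classical Pointwise

variable {G Ω : Type*} [Group G] [MulAction G Ω] [Fintype Ω] {p : ℕ}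

/-- Orbit–stabiliser in a subgroup, with the stabiliser inside the ambient group. -/
theorem card_eq_orbit_mul [Finite G] (P : Subgroup G) (x : Ω) :
    Nat.card P = (orbit P x).ncard * Nat.card ↥(P ⊓ stabilizer G x) := by
  have h1 := Subgroup.card_mul_index (stabilizer P x)
  rw [index_stabilizer] at h1
  have e : Nat.card ↥(stabilizer P x) = Nat.card ↥(P ⊓ stabilizer G x) := by
    refine Nat.card_congr ⟨fun y => ⟨y.1.1, y.1.2, y.2⟩, fun y => ⟨⟨y.1, y.2.1⟩, y.2.2⟩, ?_, ?_⟩
    · intro y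
      rfl
    · intro y
      rfl
  rw [← h1, e, mul_comm]

theorem mem_orbit_sub {P : Subgroup G} {x y : Ω} : y ∈ orbit P x ↔ ∃ g ∈ P, g • x = y := by
  constructor
  · rintro ⟨g, rfl⟩
    exact ⟨g.1, g.2, rfl⟩
  · rintro ⟨g, hg, rfl⟩
    exact ⟨⟨g, hg⟩, rfl⟩

variable (S : Sys G Ω p)

theorem ncard_class {a b : Ω} (hba : b ≠ a) : {c | S.R a b c}.ncard = p := by
  have h3 := S.card hba
  have e : {c | S.R a b c} = ↑(Finset.univ.filter (fun z => S.R a b z)) := by
    ext z
    simp
  rw [e, Set.ncard_coe_finset]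
  exact h3

/-- Main characterisation of the fixed points of `P ⊓ stabilizer b`. -/
theorem fix_char [Finite G] [FaithfulSMul G Ω] (hp : p.Prime) (hΩ : Fintype.card Ω = p ^ 2 + 1) {a b : Ω}
    (hab : a ≠ b) (P : Subgroup G) (hPa : ∀ x ∈ P, x • a = a) (hPg : IsPGroup p P)
    (htr : ∀ c, c ≠ a → ∃ x ∈ P, x • b = c) (hQ : P ⊓ stabilizer G b ≠ ⊥) (c : Ω) (hca : c ≠ a) :
    (∀ q ∈ P ⊓ stabilizer G b, q • c = c) ↔ S.R a b c := by
  haveI : Fact p.Prime := ⟨hp⟩
  set Q := P ⊓ stabilizer G b with hQdef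
  have hba : b ≠ a := Ne.symm hab
  -- the stabiliser of the block of `b`
  let P₀ : Subgroup G :=
    { carrier := {x | x ∈ P ∧ S.R a b (x • b)}
      mul_mem' := by
        rintro x y ⟨hx, hx2⟩ ⟨hy, hy2⟩
        refine ⟨P.mul_mem hx hy, ?_⟩
        have h3 := S.inv x hy2
        rw [hPa x hx] at h3
        rw [mul_smul]
        exact S.trans hx2 h3
      one_mem' := ⟨P.one_mem, by simpa using S.refl hba⟩
      inv_mem' := by
        rintro x ⟨hx, hx2⟩
        refine ⟨P.inv_mem hx, ?_⟩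
        have hxa : x⁻¹ • a = a := by
          rw [inv_smul_eq_iff]
          exact (hPa x hx).symm
        have h3 := S.inv x⁻¹ hx2
        rw [hxa] at h3
        simp only [inv_smul_smul] at h3
        exact S.symm h3 }
  have hQP₀ : Q ≤ P₀ := by
    rintro q ⟨hq1, hq2⟩
    refine ⟨hq1, ?_⟩
    rw [mem_stabilizer_iff.mp hq2]
    exact S.refl hba
  have horb : orbit P₀ b = {c | S.R a b c} := by
    ext d
    rw [mem_orbit_sub]
    constructor
    · rintro ⟨g, hg, rfl⟩
      exact hg.2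
    · intro hd
      obtain ⟨x, hx, hxb⟩ := htr d (S.ne' hd)
      exact ⟨x, ⟨hx, by rw [hxb]; exact hd⟩, hxb⟩
  have hP₀inf : P₀ ⊓ stabilizer G b = Q := by
    apply le_antisymm
    · rintro x ⟨hx, hx2⟩
      exact ⟨hx.1, hx2⟩
    · intro x hx
      exact ⟨hQP₀ hx, hx.2⟩
  have hP₀card : Nat.card P₀ = p * Nat.card Q := by
    have h1 := card_eq_orbit_mul P₀ b
    rw [horb, hP₀inf] at h1
    rw [h1]
    rw [ncard_class S hba]
  have hP₀g : IsPGroup p P₀ := by
    have hle : P₀ ≤ P := fun x hx => hx.1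
    exact hPg.to_le hle
  have hindex : (Q.subgroupOf P₀).index = p := by
    have h1 := Subgroup.card_mul_index (Q.subgroupOf P₀)
    have h3 : Nat.card ↥(Q.subgroupOf P₀) = Nat.card Q :=
      Nat.card_congr (Subgroup.subgroupOfEquivOfLe hQP₀).toEquiv
    rw [h3, hP₀card] at h1
    have hQpos : 0 < Nat.card Q := Nat.card_pos
    have h4 : Nat.card Q * (Q.subgroupOf P₀).index = Nat.card Q * p := by rw [h1]; ring
    exact Nat.eq_of_mul_eq_mul_left hQpos h4
  have hnorm : (Q.subgroupOf P₀).Normal := by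
    apply Subgroup.normal_of_index_eq_minFac_card
    rw [hindex]
    obtain ⟨k, hk⟩ := (IsPGroup.iff_card.mp hP₀g)
    rw [hk]
    have hk0 : k ≠ 0 := by
      rintro rfl
      rw [hP₀card] at hk
      have hQpos : 0 < Nat.card Q := Nat.card_pos
      have := hp.two_le
      simp at hk
      omega
    rw [Nat.Prime.pow_minFac hp hk0]
  constructor
  · -- fixed points of `Q` are in the class of `b`
    intro hfix
    by_contra hnR
    -- the set of fixed points different from `a`
    let N : Subgroup G := P ⊓ Subgroup.normalizer (Q : Set G)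
    have hfixx : ∀ d, d ≠ a → (∀ q ∈ Q, q • d = d) → ∃ x ∈ N, x • b = d := by
      intro d hda hd
      obtain ⟨x, hx, hxb⟩ := htr d hda
      refine ⟨x, ⟨hx, ?_⟩, hxb⟩
      -- `x⁻¹ Q x ≤ Q`
      have hle : Q.map (MulAut.conj x⁻¹).toMonoidHom ≤ Q := by
        rintro _ ⟨q, hq, rfl⟩
        simp only [MulEquiv.coe_toMonoidHom, MulAut.conj_apply, inv_inv]
        refine ⟨P.mul_mem (P.mul_mem (P.inv_mem hx) hq.1) hx, ?_⟩
        show x⁻¹ * q * x ∈ stabilizer G b
        rw [mem_stabilizer_iff, mul_smul, mul_smul, hxb, hd q hq, ← hxb, inv_smul_smul]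
      have heq : Q.map (MulAut.conj x⁻¹).toMonoidHom = Q := by
        apply Subgroup.eq_of_le_of_card_ge hle
        rw [Subgroup.card_map_of_injective (MulAut.conj x⁻¹).injective]
      show x ∈ Subgroup.normalizer (Q : Set G)
      rw [Subgroup.mem_normalizer_iff]
      intro q
      constructor
      · intro hq
        have h3 : q ∈ Q.map (MulAut.conj x⁻¹).toMonoidHom := by rw [heq]; exact hq
        obtain ⟨q', hq', e⟩ := h3
        have : x * q * x⁻¹ = q' := by
          rw [← e]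
          simp [mul_assoc]
        rw [this]
        exact hq'
      · intro hq
        have h3 : (MulAut.conj x⁻¹).toMonoidHom (x * q * x⁻¹) ∈ Q.map (MulAut.conj x⁻¹).toMonoidHom :=
          ⟨_, hq, rfl⟩
        rw [heq] at h3
        simpa [mul_assoc] using h3
    have hfixN : ∀ x ∈ N, ∀ q ∈ Q, q • (x • b) = x • b := by
      intro x hx q hq
      have h3 : x⁻¹ * q * x ∈ Q := by
        have := (Subgroup.mem_normalizer_iff.mp (Subgroup.inv_mem _ hx.2) q).mp hq
        simpa using this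
      have h4 : (x⁻¹ * q * x) • b = b := mem_stabilizer_iff.mp h3.2
      rw [mul_smul, mul_smul, inv_smul_eq_iff] at h4
      exact h4
    have hNP : N ≤ P := inf_le_left
    have hNg : IsPGroup p N := hPg.to_le hNP
    -- the orbit of `b` under `N`
    have hdvd : (orbit N b).ncard ∣ Nat.card N := by
      rw [card_eq_orbit_mul N b]
      exact dvd_mul_right _ _
    obtain ⟨k, hk⟩ := IsPGroup.iff_card.mp hNg
    rw [hk] at hdvd
    obtain ⟨j, _, hj⟩ := (Nat.dvd_prime_pow hp).mp hdvd
    have hsub1 : {c | S.R a b c} ⊆ orbit N b := by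
      intro d hd
      have hd' : S.R a b d := hd
      rw [mem_orbit_sub]
      obtain ⟨x, hx, hxb⟩ := hfixx d (S.ne' hd') (by
        intro q hq
        obtain ⟨y, hy, hyb⟩ := htr d (S.ne' hd')
        have hy0 : y ∈ P₀ := ⟨hy, by rw [hyb]; exact hd'⟩
        have hqq : (⟨q, hQP₀ hq⟩ : ↥P₀) ∈ Q.subgroupOf P₀ := hq
        have h3 := hnorm.conj_mem _ hqq (⟨y, hy0⟩ : ↥P₀)⁻¹
        have h4 : (y⁻¹ * q * y) • b = b := by
          have h5 : y⁻¹ * q * y ∈ Q := by
            simpa [Subgroup.mem_subgroupOf] using h3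
          exact mem_stabilizer_iff.mp h5.2
        rw [mul_smul, mul_smul, inv_smul_eq_iff, hyb] at h4
        exact h4)
      exact ⟨x, hx, hxb⟩
    have hcsub : c ∈ orbit N b := by
      rw [mem_orbit_sub]
      exact hfixx c hca hfix
    have hsub2 : orbit N b ⊆ {d | d ≠ a} := by
      intro d hd
      rw [mem_orbit_sub] at hd
      obtain ⟨x, hx, rfl⟩ := hd
      intro h
      apply hba
      have := hPa x hx.1
      rw [← this] at h
      exact smul_left_cancel x h
    -- cardinalities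
    have hcA : {c | S.R a b c}.ncard = p := by
      exact ncard_class S hba
    have hcD : {d : Ω | d ≠ a}.ncard = p ^ 2 := by
      have : {d : Ω | d ≠ a} = ({a} : Set Ω)ᶜ := by
        ext d
        simp
      rw [this, Set.ncard_compl, Set.ncard_singleton, Nat.card_eq_fintype_card, hΩ]
      simp
    have h5 : p ≤ (orbit N b).ncard := by
      rw [← hcA]
      exact Set.ncard_le_ncard hsub1 (Set.toFinite _)
    have h6 : (orbit N b).ncard ≤ p ^ 2 := by
      rw [← hcD]
      exact Set.ncard_le_ncard hsub2 (Set.toFinite _)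
    -- the orbit is strictly bigger than the class
    have h7 : p < (orbit N b).ncard := by
      rw [← hcA]
      refine Set.ncard_lt_ncard ?_ (Set.toFinite _)
      refine ⟨hsub1, fun h => hnR (h hcsub)⟩
    have h8 : (orbit N b).ncard = p ^ 2 := by
      rw [hj] at h5 h6 h7 ⊢
      have hj2 : j = 2 := by
        have h9 : j ≤ 2 := (Nat.pow_le_pow_iff_right hp.one_lt).mp h6
        have h10 : 1 < j := by
          by_contra hcon
          have : j ≤ 1 := by omega
          have h11 := Nat.pow_le_pow_right hp.pos this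
          rw [pow_one] at h11
          omega
        omega
      rw [hj2]
    have h9 : orbit N b = {d | d ≠ a} := by
      apply Set.eq_of_subset_of_ncard_le hsub2
      rw [h8, hcD]
    -- `Q` is trivial
    apply hQ
    rw [Subgroup.eq_bot_iff_forall]
    intro q hq
    apply FaithfulSMul.eq_of_smul_eq_smul (α := Ω)
    intro d
    rw [one_smul]
    by_cases hd : d = a
    · rw [hd]
      exact hPa q hq.1
    · have : d ∈ orbit N b := by
        rw [h9]
        exact hd
      rw [mem_orbit_sub] at this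
      obtain ⟨x, hx, rfl⟩ := this
      exact hfixN x hx q hq
  · -- the class of `b` is fixed by `Q`
    intro hR q hq
    obtain ⟨y, hy, hyb⟩ := htr c hca
    have hy0 : y ∈ P₀ := ⟨hy, by rw [hyb]; exact hR⟩
    have hqq : (⟨q, hQP₀ hq⟩ : ↥P₀) ∈ Q.subgroupOf P₀ := hq
    have h3 := hnorm.conj_mem _ hqq (⟨y, hy0⟩ : ↥P₀)⁻¹
    have h4 : (y⁻¹ * q * y) • b = b := by
      have h5 : y⁻¹ * q * y ∈ Q := by
        simpa [Subgroup.mem_subgroupOf] using h3
      exact mem_stabilizer_iff.mp h5.2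
    rw [mul_smul, mul_smul, inv_smul_eq_iff, hyb] at h4
    exact h4

/-- The numerical facts about a Sylow `p`-subgroup of a point stabiliser. -/
theorem sylow_facts [Finite G] (hp : p.Prime) (hΩ : Fintype.card Ω = p ^ 2 + 1)
    (h2 : ∀ {a b c d : Ω}, a ≠ b → c ≠ d → ∃ g : G, g • a = c ∧ g • b = d) {a b : Ω} (hab : a ≠ b)
    (T : Sylow p ↥(stabilizer G a)) :
    let P := T.1.map (stabilizer G a).subtype
    (∀ x ∈ P, x • a = a) ∧ IsPGroup p P ∧ (∀ c, c ≠ a → ∃ x ∈ P, x • b = c) ∧
      Nat.card P = p ^ 2 * Nat.card ↥(P ⊓ stabilizer G b) ∧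
      ∃ m, Nat.card ↥(stabilizer G a ⊓ stabilizer G b) = Nat.card ↥(P ⊓ stabilizer G b) * m ∧ ¬ p ∣ m := by
  intro P
  haveI : Fact p.Prime := ⟨hp⟩
  have hPa : ∀ x ∈ P, x • a = a := by
    rintro _ ⟨y, _, rfl⟩
    exact y.2
  have hPg : IsPGroup p P := T.2.map _
  have hcT0 : Nat.card T.1 = Nat.card P :=
    Nat.card_congr (Subgroup.equivMapOfInjective T.1 (stabilizer G a).subtype (Subgroup.subtype_injective _)).toEquiv
  set Q := P ⊓ stabilizer G b with hQ
  have hba : b ≠ a := Ne.symm hab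
  have horbA : orbit (stabilizer G a) b = {d | d ≠ a} := by
    ext d
    rw [mem_orbit_sub]
    constructor
    · rintro ⟨g, hg, rfl⟩ h
      apply hba
      have h3 : g • a = a := hg
      rw [← h3] at h
      exact smul_left_cancel g h
    · intro hd
      obtain ⟨g, hg1, hg2⟩ := h2 hab (show a ≠ d from Ne.symm hd)
      exact ⟨g, hg1, hg2⟩
  have hcD : {d : Ω | d ≠ a}.ncard = p ^ 2 := by
    have : {d : Ω | d ≠ a} = ({a} : Set Ω)ᶜ := by
      ext d
      simp
    rw [this, Set.ncard_compl, Set.ncard_singleton, Nat.card_eq_fintype_card, hΩ]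
    simp
  have hAcard : Nat.card (stabilizer G a) = p ^ 2 * Nat.card ↥(stabilizer G a ⊓ stabilizer G b) := by
    have := card_eq_orbit_mul (stabilizer G a) b
    rw [horbA, hcD] at this
    exact this
  have hPcard := card_eq_orbit_mul P b
  obtain ⟨k, hk⟩ := IsPGroup.iff_card.mp hPg
  have hQg : IsPGroup p Q := hPg.to_le inf_le_left
  obtain ⟨j, hj⟩ := IsPGroup.iff_card.mp hQg
  have hindex := Subgroup.card_mul_index T.1
  have hnd : ¬ p ∣ T.1.index := T.not_dvd_index
  rw [hcT0, hk] at hindex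
  set m := T.1.index with hm
  have hQH : Q ≤ stabilizer G a ⊓ stabilizer G b := by
    intro x hx
    exact ⟨hPa x hx.1, hx.2⟩
  obtain ⟨t, ht⟩ := Subgroup.card_dvd_of_le hQH
  rw [hj] at ht
  have hE : p ^ k * m = p ^ (j + 2) * t := by
    rw [hindex, hAcard, ht]
    ring
  have hcop : Nat.Coprime (p ^ (j + 2)) m := Nat.Coprime.pow_left _ ((Nat.Prime.coprime_iff_not_dvd hp).mpr hnd)
  have hd1 : p ^ (j + 2) ∣ p ^ k := by
    apply hcop.dvd_of_dvd_mul_right
    rw [hE]
    exact dvd_mul_right _ _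
  have hjk : j + 2 ≤ k := (Nat.pow_dvd_pow_iff_le_right hp.one_lt).mp hd1
  have horbsub : orbit P b ⊆ {d | d ≠ a} := by
    intro d hd
    rw [mem_orbit_sub] at hd
    obtain ⟨x, hx, rfl⟩ := hd
    intro h
    apply hba
    rw [← hPa x hx] at h
    exact smul_left_cancel x h
  have horble : (orbit P b).ncard ≤ p ^ 2 := by
    rw [← hcD]
    exact Set.ncard_le_ncard horbsub (Set.toFinite _)
  rw [hk, hj] at hPcard
  have hpos : 0 < p ^ j := pow_pos hp.pos _
  have ho : (orbit P b).ncard = p ^ (k - j) := by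
    have e : p ^ k = p ^ (k - j) * p ^ j := by
      rw [← pow_add]
      congr 1
      omega
    rw [e] at hPcard
    exact (Nat.eq_of_mul_eq_mul_right hpos hPcard).symm
  have hkj : k = j + 2 := by
    rw [ho] at horble
    have := (Nat.pow_le_pow_iff_right hp.one_lt).mp horble
    omega
  have ho2 : (orbit P b).ncard = p ^ 2 := by
    rw [ho, hkj]
    simp
  have horbeq : orbit P b = {d | d ≠ a} := by
    apply Set.eq_of_subset_of_ncard_le horbsub
    rw [hcD, ho2]
  refine ⟨hPa, hPg, ?_, ?_, m, ?_, hnd⟩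
  · intro c hc
    have : c ∈ orbit P b := by
      rw [horbeq]
      exact hc
    rw [mem_orbit_sub] at this
    exact this
  · rw [hk, hj, hkj]
    ring
  · rw [ht, hj]
    congr 1
    have : p ^ (j + 2) * t = p ^ (j + 2) * m := by
      rw [← hE, hkj]
    exact Nat.eq_of_mul_eq_mul_left (pow_pos hp.pos _) this

/-- The regular Sylow subgroup. -/
structure Rg (S : Sys G Ω p) (a b : Ω) where
  hab : a ≠ b
  P : Subgroup G
  Pa : ∀ x ∈ P, x • a = a
  card : Nat.card P = p ^ 2
  tr : ∀ c, c ≠ a → ∃ x ∈ P, x • b = c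
  free : ∀ x ∈ P, ∀ c, c ≠ a → x • c = c → x = 1
  comm : ∀ x ∈ P, ∀ y ∈ P, x * y = y * x
  cop : ∀ h : G, h • a = a → h • b = b → Nat.Coprime (orderOf h) p

/-- Existence of the regular Sylow subgroup. -/
theorem exists_reg [Finite G] [FaithfulSMul G Ω] (hp : p.Prime) (hΩ : Fintype.card Ω = p ^ 2 + 1)
    (h2 : ∀ {a b c d : Ω}, a ≠ b → c ≠ d → ∃ g : G, g • a = c ∧ g • b = d) {a b : Ω} (hab : a ≠ b) :
    Nonempty (Rg S a b) := by
  haveI : Fact p.Prime := ⟨hp⟩
  have hp2 := hp.two_le
  obtain ⟨T⟩ : Nonempty (Sylow p ↥(stabilizer G a)) := inferInstance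
  obtain ⟨hPa, hPg, htr, hcardP, m, hm, hnd⟩ := sylow_facts hp hΩ h2 hab T
  set P := T.1.map (stabilizer G a).subtype with hP
  set Q := P ⊓ stabilizer G b with hQ
  have hQbot : Q = ⊥ := by
    by_contra hQne
    exfalso
    obtain ⟨g, hg1, hg2⟩ := h2 hab (Ne.symm hab)
    have hga : g⁻¹ • a = b := by rw [inv_smul_eq_iff, hg2]
    have hgb : g⁻¹ • b = a := by rw [inv_smul_eq_iff, hg1]
    let Q' : Subgroup G := Q.map (MulAut.conj g).toMonoidHom
    have hQ'elt : ∀ x ∈ Q', ∃ q ∈ Q, x = g * q * g⁻¹ := by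
      rintro _ ⟨q, hq, rfl⟩
      exact ⟨q, hq, rfl⟩
    have hQ'a : ∀ x ∈ Q', x • a = a := by
      intro x hx
      obtain ⟨q, hq, rfl⟩ := hQ'elt x hx
      have hqb : q • b = b := hq.2
      rw [mul_smul, mul_smul, hga, hqb, hg2]
    have hQ'b : ∀ x ∈ Q', x • b = b := by
      intro x hx
      obtain ⟨q, hq, rfl⟩ := hQ'elt x hx
      have hqa : q • a = a := hPa q hq.1
      rw [mul_smul, mul_smul, hgb, hqa, hg1]
    have hQg : IsPGroup p Q := hPg.to_le inf_le_left
    have hQ'g : IsPGroup p ↥(Q'.subgroupOf (stabilizer G a)) := by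
      rintro ⟨⟨x, hxA⟩, hx⟩
      have hx' : x ∈ Q' := hx
      obtain ⟨q, hq, rfl⟩ := hQ'elt x hx'
      obtain ⟨k, hk⟩ := hQg ⟨q, hq⟩
      refine ⟨k, ?_⟩
      apply Subtype.ext
      apply Subtype.ext
      have hk' : q ^ p ^ k = 1 := by
        have := congrArg Subtype.val hk
        simpa using this
      simp only [Subgroup.coe_pow, Subgroup.coe_one]
      rw [show g * q * g⁻¹ = (MulAut.conj g) q from rfl, ← map_pow, hk', map_one]
    obtain ⟨T', hT'⟩ := hQ'g.exists_le_sylow
    obtain ⟨hPa', hPg', htr', hcardP', m', hm', hnd'⟩ := sylow_facts hp hΩ h2 hab T'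
    set P' := T'.1.map (stabilizer G a).subtype with hP'
    have hQ'le : Q' ≤ P' ⊓ stabilizer G b := by
      intro x hx
      refine ⟨⟨⟨x, hQ'a x hx⟩, hT' hx, rfl⟩, hQ'b x hx⟩
    have hcardT : Nat.card P = Nat.card P' := by
      have e1 : Nat.card P = Nat.card T := Nat.card_congr
        (Subgroup.equivMapOfInjective _ _ (Subgroup.subtype_injective _)).toEquiv.symm
      have e2 : Nat.card P' = Nat.card T' := Nat.card_congr
        (Subgroup.equivMapOfInjective _ _ (Subgroup.subtype_injective _)).toEquiv.symm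
      rw [e1, e2, T.card_eq_multiplicity, T'.card_eq_multiplicity]
    have hcardQ : Nat.card Q = Nat.card ↥(P' ⊓ stabilizer G b) := by
      have hpos : 0 < p ^ 2 := pow_pos hp.pos 2
      apply Nat.eq_of_mul_eq_mul_left hpos
      rw [← hcardP, ← hcardP', hcardT]
    have hQ'card : Nat.card Q' = Nat.card Q :=
      Subgroup.card_map_of_injective (MulAut.conj g).injective
    have hQ'eq : Q' = P' ⊓ stabilizer G b := by
      apply Subgroup.eq_of_le_of_card_ge hQ'le
      rw [hQ'card, hcardQ]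
    have hQ'ne : P' ⊓ stabilizer G b ≠ ⊥ := by
      rw [← hQ'eq]
      intro h
      apply hQne
      rw [Subgroup.eq_bot_iff_forall]
      intro q hq
      have h3 : g * q * g⁻¹ ∈ Q' := ⟨q, hq, rfl⟩
      rw [h, Subgroup.mem_bot] at h3
      have : q = g⁻¹ * (g * q * g⁻¹) * g := by group
      rw [this, h3]
      group
    apply S.no_pair hp2 hΩ h2 hab
    intro c hR hca
    rw [← fix_char S hp hΩ hab P' hPa' hPg' htr' hQ'ne c hca]
    intro x hx
    rw [← hQ'eq] at hx
    obtain ⟨q, hq, rfl⟩ := hQ'elt x hx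
    have hR2 : S.R a b (g⁻¹ • c) := by
      have := S.inv g⁻¹ hR
      rwa [hgb, hga] at this
    have hq2 := (fix_char S hp hΩ hab P hPa hPg htr hQne (g⁻¹ • c) (S.ne' hR2)).mpr hR2 q hq
    rw [mul_smul, mul_smul, hq2, smul_inv_smul]
  have hQcard : Nat.card Q = 1 := by
    rw [hQbot]
    simp
  rw [hQcard, mul_one] at hcardP
  have hfree : ∀ x ∈ P, ∀ c, c ≠ a → x • c = c → x = 1 := by
    intro x hx c hc hxc
    obtain ⟨y, hy, hyb⟩ := htr c hc
    have h3 : y⁻¹ * x * y ∈ Q := by
      refine ⟨P.mul_mem (P.mul_mem (P.inv_mem hy) hx) hy, ?_⟩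
      show y⁻¹ * x * y ∈ stabilizer G b
      rw [mem_stabilizer_iff, mul_smul, mul_smul, hyb, hxc, ← hyb, inv_smul_smul]
    rw [hQbot, Subgroup.mem_bot] at h3
    have : x = y * (y⁻¹ * x * y) * y⁻¹ := by group
    rw [this, h3]
    group
  haveI : IsMulCommutative P := IsPGroup.isMulCommutative_of_card_eq_prime_sq hcardP
  refine ⟨⟨hab, P, hPa, hcardP, htr, hfree, ?_, ?_⟩⟩
  · intro x hx y hy
    have := IsMulCommutative.is_comm.comm (⟨x, hx⟩ : P) ⟨y, hy⟩
    exact congrArg Subtype.val this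
  · intro h hha hhb
    rw [hQcard, one_mul] at hm
    have hmem : h ∈ stabilizer G a ⊓ stabilizer G b := ⟨hha, hhb⟩
    have hdvd : orderOf h ∣ m := by
      rw [← hm]
      have := Subgroup.orderOf_dvd_natCard (stabilizer G a ⊓ stabilizer G b) hmem
      exact this
    exact Nat.Coprime.coprime_dvd_left hdvd ((Nat.coprime_comm.mp ((Nat.Prime.coprime_iff_not_dvd hp).mpr hnd)))

end Cfsg.Agent.Lib.Deg2p.Reg
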