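/-
A fixed-point lemma for doubly transitive groups of degree `2 mod 4`.
-/
import Cfsg.Agent.Lib.Deg2p.Reg

set_option autoImplicit false
set_option linter.unusedSectionVars false
set_option linter.style.haveILetI false
set_option linter.unusedVariables false

namespace Cfsg.Agent.Lib.Deg2p.Wit

open MulAction Finset Cfsg.Agent.Lib.Deg2p.Basic Cfsg.Agent.Lib.Deg2p.Reg
open scoped Classical Pointwise

/-- The sign of a fixed-point-free involution. -/
theorem sign_of_fpf {F : Type*} [Fintype F] (t : Equiv.Perm F) (ht : orderOf t = 2)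
    (hfix : ∀ x, t x ≠ x) (hF : ¬ 4 ∣ Fintype.card F) : Equiv.Perm.sign t = -1 := by
  have hsupp : t.support = Finset.univ := by
    ext x
    simpa using hfix x
  have hsum : t.cycleType.sum = Fintype.card F := by
    rw [Equiv.Perm.sum_cycleType, hsupp, Finset.card_univ]
  have hall : ∀ n ∈ t.cycleType, n = 2 := by
    intro n hn
    have h1 := Equiv.Perm.dvd_of_mem_cycleType hn
    rw [ht] at h1
    have h3 := Equiv.Perm.two_le_of_mem_cycleType hn
    have h4 := Nat.le_of_dvd (by norm_num) h1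
    omega
  have hrep := Multiset.eq_replicate_card.mpr hall
  have hsum2 : t.cycleType.sum = t.cycleType.card * 2 := by
    conv_lhs => rw [hrep]
    rw [Multiset.sum_replicate]
    rfl
  set m := t.cycleType.card with hm
  have hF2 : Fintype.card F = m * 2 := by rw [← hsum, hsum2]
  have hmodd : Odd m := by
    rcases Nat.even_or_odd m with hev | hod
    · exfalso
      apply hF
      obtain ⟨r, hr⟩ := hev
      exact ⟨r, by rw [hF2, hr]; ring⟩
    · exact hod
  rw [Equiv.Perm.sign_of_cycleType, hsum2, ← hm]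
  have : Odd (m * 2 + m) := by
    obtain ⟨r, hr⟩ := hmodd
    exact ⟨m + r, by omega⟩
  exact this.neg_one_pow

/-- The abstract contradiction. -/
theorem no_two_trans_even {F : Type*} [Fintype F] (N : Subgroup (Equiv.Perm F))
    (h2 : ∀ {x y x' y' : F}, x ≠ y → x' ≠ y' → ∃ n ∈ N, n x = x' ∧ n y = y')
    (hF : 2 < Fintype.card F) (he : Even (Fintype.card F)) (hc : ¬ 4 ∣ Nat.card N) : False := by
  haveI : Nontrivial F := by
    apply Fintype.one_lt_card_iff_nontrivial.mp
    omega
  have hother : ∀ x : F, ∃ y, x ≠ y := fun x => exists_ne x |>.imp (fun _ h => Ne.symm h)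
  have htrans : ∀ x x' : F, ∃ n ∈ N, n x = x' := by
    intro x x'
    obtain ⟨y, hy⟩ := hother x
    obtain ⟨y', hy'⟩ := hother x'
    obtain ⟨n, hn, h3, _⟩ := h2 hy hy'
    exact ⟨n, hn, h3⟩
  have horb : ∀ x : F, orbit N x = Set.univ := by
    intro x
    ext y
    simp only [Set.mem_univ, iff_true]
    obtain ⟨n, hn, h3⟩ := htrans x y
    exact ⟨⟨n, hn⟩, h3⟩
  have hcardN : ∀ x : F, Nat.card N = Fintype.card F * Nat.card (stabilizer N x) := by
    intro x
    have h1 := Subgroup.card_mul_index (stabilizer N x)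
    rw [index_stabilizer, horb x, Set.ncard_univ] at h1
    rw [← h1, Nat.card_eq_fintype_card (α := F), mul_comm]
  obtain ⟨x₀⟩ : Nonempty F := inferInstance
  have hFdvd : Fintype.card F ∣ Nat.card N := ⟨_, hcardN x₀⟩
  have h2dvd : 2 ∣ Fintype.card F := he.two_dvd
  have h4F : ¬ 4 ∣ Fintype.card F := fun h => hc (h.trans hFdvd)
  haveI : Fact (Nat.Prime 2) := ⟨Nat.prime_two⟩
  obtain ⟨t, ht⟩ := exists_prime_orderOf_dvd_card' (G := N) 2 (h2dvd.trans hFdvd)
  have ht' : orderOf (t : Equiv.Perm F) = 2 := by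
    rw [Subgroup.orderOf_coe]
    exact ht
  have hfpf : ∀ x, (t : Equiv.Perm F) x ≠ x := by
    intro x hx
    have hts : t ∈ stabilizer N x := hx
    have h1 : orderOf t ∣ Nat.card (stabilizer N x) := Subgroup.orderOf_dvd_natCard _ hts
    rw [ht] at h1
    apply hc
    rw [hcardN x]
    obtain ⟨q, hq⟩ := h2dvd
    obtain ⟨r, hr⟩ := h1
    exact ⟨q * r, by rw [hq, hr]; ring⟩
  have hsign := sign_of_fpf (t : Equiv.Perm F) ht' hfpf h4F
  -- the kernel of the sign
  let sg : N →* ℤˣ := Equiv.Perm.sign.comp N.subtype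
  let M : Subgroup N := sg.ker
  have hsgt : sg t = -1 := hsign
  have hrange : sg.range = ⊤ := by
    rw [eq_top_iff]
    intro u _
    rcases Int.units_eq_one_or u with rfl | rfl
    · exact Subgroup.one_mem _
    · exact ⟨t, hsgt⟩
  have hMindex : M.index = 2 := by
    have h1 : M.index = Nat.card sg.range := Subgroup.index_ker sg
    rw [h1, hrange]
    simp
  have hMcard : Nat.card N = Nat.card M * 2 := by
    rw [← hMindex]
    exact (Subgroup.card_mul_index M).symm
  have hModd : ¬ 2 ∣ Nat.card M := by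
    rintro ⟨q, hq⟩
    exact hc ⟨q, by rw [hMcard, hq]; ring⟩
  by_cases hMbot : M = ⊥
  · -- then `|N| = 2`
    have h1 : Nat.card M = 1 := by
      rw [hMbot]
      simp
    rw [h1] at hMcard
    have h3 := Nat.le_of_dvd (by rw [hMcard]; norm_num) hFdvd
    omega
  · -- `M` is transitive
    obtain ⟨⟨m₀, hm₀⟩, hm₀1'⟩ := (Subgroup.ne_bot_iff_exists_ne_one (H := M)).mp hMbot
    have hm₀1 : m₀ ≠ 1 := fun h => hm₀1' (Subtype.ext h)
    obtain ⟨x, hx⟩ : ∃ x, (m₀ : Equiv.Perm F) x ≠ x := by
      by_contra hcon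
      push_neg at hcon
      apply hm₀1
      apply Subtype.ext
      apply Equiv.ext
      exact hcon
    have hMn : M.Normal := MonoidHom.normal_ker sg
    have hMtr : ∀ y, ∃ m ∈ M, (m : Equiv.Perm F) x = y := by
      intro y
      by_cases hyx : y = x
      · exact ⟨1, M.one_mem, by simp [hyx]⟩
      obtain ⟨n, hn, h3, h4⟩ := h2 (Ne.symm hx) (Ne.symm hyx)
      refine ⟨(⟨n, hn⟩ : N) * m₀ * (⟨n, hn⟩ : N)⁻¹, hMn.conj_mem _ hm₀ _, ?_⟩
      have h5 : n⁻¹ x = x := by
        rw [Equiv.Perm.inv_eq_iff_eq]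
        exact h3.symm
      simp only [Subgroup.coe_mul, Subgroup.coe_inv, Equiv.Perm.mul_apply, h5]
      exact h4
    -- the orbit of `M` on `x`
    have horbM : orbit M x = Set.univ := by
      ext y
      simp only [Set.mem_univ, iff_true]
      obtain ⟨m, hm, h3⟩ := hMtr y
      exact ⟨⟨m, hm⟩, h3⟩
    have h1 := Subgroup.card_mul_index (stabilizer M x)
    rw [index_stabilizer, horbM, Set.ncard_univ, Nat.card_eq_fintype_card (α := F)] at h1
    apply hModd
    rw [← h1]
    exact h2dvd.trans (dvd_mul_left _ _)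

variable {G Ω : Type*} [Group G] [Finite G] [Fintype Ω] [MulAction G Ω]

/-- Transitivity from double transitivity. -/
theorem tr1 (h2 : ∀ {a b c d : Ω}, a ≠ b → c ≠ d → ∃ g : G, g • a = c ∧ g • b = d) {a b : Ω}
    (hab : a ≠ b) (x y : Ω) : ∃ g : G, g • x = y := by
  by_cases hxy : x = y
  · exact ⟨1, by simp [hxy]⟩
  · obtain ⟨g, hg, _⟩ := h2 hxy (Ne.symm hxy)
    exact ⟨g, hg⟩

/-- The order of a doubly transitive group. -/
theorem card_G_eq (h2 : ∀ {a b c d : Ω}, a ≠ b → c ≠ d → ∃ g : G, g • a = c ∧ g • b = d) {a b : Ω}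
    (hab : a ≠ b) :
    Nat.card G = Fintype.card Ω * ((Fintype.card Ω - 1) * Nat.card ↥(stabilizer G a ⊓ stabilizer G b)) := by
  have horb1 : orbit (⊤ : Subgroup G) a = Set.univ := by
    ext d
    simp only [Set.mem_univ, iff_true]
    obtain ⟨g, hg⟩ := tr1 h2 hab a d
    exact ⟨⟨g, trivial⟩, hg⟩
  have h3 := card_eq_orbit_mul (⊤ : Subgroup G) a
  rw [horb1, Set.ncard_univ, Nat.card_eq_fintype_card (α := Ω), top_inf_eq, Subgroup.card_top] at h3
  have horb2 : orbit (stabilizer G a) b = {d | d ≠ a} := by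
    ext d
    rw [mem_orbit_sub]
    constructor
    · rintro ⟨g, hg, rfl⟩ h
      apply hab.symm
      have h3 : g • a = a := hg
      rw [← h3] at h
      exact smul_left_cancel g h
    · intro hd
      obtain ⟨g, hg1, hg2⟩ := h2 hab (show a ≠ d from Ne.symm hd)
      exact ⟨g, hg1, hg2⟩
  have hcD : {d : Ω | d ≠ a}.ncard = Fintype.card Ω - 1 := by
    have : {d : Ω | d ≠ a} = ({a} : Set Ω)ᶜ := by
      ext d
      simp
    rw [this, Set.ncard_compl, Set.ncard_singleton, Nat.card_eq_fintype_card]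
  have h4 := card_eq_orbit_mul (stabilizer G a) b
  rw [horb2, hcD] at h4
  rw [h3, h4]

/-- Two subgroups of the same maximal `2`-power order of `L` are conjugate in `L`. -/
theorem conj_in {L A B : Subgroup G} (hA : A ≤ L) (hB : B ≤ L) (hAg : IsPGroup 2 A) (hBg : IsPGroup 2 B)
    (hcard : Nat.card A = Nat.card B) (hnd : ¬ 2 ∣ Nat.card L / Nat.card A) :
    ∃ r ∈ L, ∀ x ∈ B, r * x * r⁻¹ ∈ A := by
  haveI : Fact (Nat.Prime 2) := ⟨Nat.prime_two⟩
  have hA' : IsPGroup 2 ↥(A.subgroupOf L) :=
    hAg.of_equiv (Subgroup.subgroupOfEquivOfLe hA).symm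
  have hB' : IsPGroup 2 ↥(B.subgroupOf L) :=
    hBg.of_equiv (Subgroup.subgroupOfEquivOfLe hB).symm
  obtain ⟨SA, hSA⟩ := hA'.exists_le_sylow
  obtain ⟨SB, hSB⟩ := hB'.exists_le_sylow
  have hcA : Nat.card ↥(A.subgroupOf L) = Nat.card A :=
    Nat.card_congr (Subgroup.subgroupOfEquivOfLe hA).toEquiv
  have hcB : Nat.card ↥(B.subgroupOf L) = Nat.card B :=
    Nat.card_congr (Subgroup.subgroupOfEquivOfLe hB).toEquiv
  have hdvdA : Nat.card A ∣ Nat.card L := by
    exact Subgroup.card_dvd_of_le hA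
  -- `A` is the Sylow subgroup
  have key : ∀ (X : Subgroup G) (hX : X ≤ L) (SX : Sylow 2 L), X.subgroupOf L ≤ SX.1 → Nat.card X = Nat.card A →
      X.subgroupOf L = SX.1 := by
    intro X hX SX hle hc
    apply Subgroup.eq_of_le_of_card_ge hle
    have h1 : Nat.card ↥(X.subgroupOf L) = Nat.card A := by
      rw [← hc]
      exact Nat.card_congr (Subgroup.subgroupOfEquivOfLe hX).toEquiv
    rw [h1]
    obtain ⟨m, hm⟩ := hdvdA
    have hApos : 0 < Nat.card A := Nat.card_pos
    have hdiv : Nat.card L / Nat.card A = m := by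
      rw [hm]
      exact Nat.mul_div_cancel_left m hApos
    rw [hdiv] at hnd
    have h3 : Nat.card SX.1 ∣ Nat.card L := Subgroup.card_subgroup_dvd_card _
    obtain ⟨n, hn⟩ := IsPGroup.iff_card.mp SX.2
    have h4 : Nat.card A ∣ Nat.card SX.1 := by
      rw [← h1]
      exact Subgroup.card_dvd_of_le hle
    obtain ⟨j, hj⟩ := IsPGroup.iff_card.mp hAg
    obtain ⟨i, hi⟩ := h4
    have h5 : Nat.card A * i ∣ Nat.card A * m := by
      rw [← hi, ← hm]
      exact h3
    have h6 : i ∣ m := Nat.dvd_of_mul_dvd_mul_left hApos h5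
    have h7 : IsPGroup 2 SX.1 := SX.2
    have hi2 : ∃ t, i = 2 ^ t := by
      have : i ∣ 2 ^ n := by
        rw [← hn, hi]
        exact dvd_mul_left _ _
      obtain ⟨t, _, ht⟩ := (Nat.dvd_prime_pow Nat.prime_two).mp this
      exact ⟨t, ht⟩
    obtain ⟨t, ht⟩ := hi2
    have ht0 : t = 0 := by
      by_contra hne
      apply hnd
      rw [ht] at h6
      exact (dvd_pow_self 2 hne).trans h6
    rw [hi, ht, ht0]
    simp
  have e1 := key A hA SA hSA rfl
  have e2 := key B hB SB hSB hcard.symm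
  obtain ⟨r, hr⟩ := MulAction.exists_smul_eq L SB SA
  refine ⟨r.1, r.2, ?_⟩
  intro x hx
  have hxL : x ∈ L := hB hx
  have h3 : (⟨x, hxL⟩ : L) ∈ SB.1 := by
    rw [← e2]
    exact hx
  have h4 : r * (⟨x, hxL⟩ : L) * r⁻¹ ∈ (r • SB).1 := by
    rw [Sylow.coe_subgroup_smul]
    exact Subgroup.mem_map_of_mem _ h3
  rw [hr, ← e1] at h4
  exact h4

/-- Normaliser membership from one inclusion. -/
theorem mem_normalizer_of_conj_le {T : Subgroup G} {n : G} (h : ∀ t ∈ T, n * t * n⁻¹ ∈ T) :
    n ∈ Subgroup.normalizer (T : Set G) := by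
  have hle : T.map (MulAut.conj n).toMonoidHom ≤ T := by
    rintro _ ⟨t, ht, rfl⟩
    exact h t ht
  have heq : T.map (MulAut.conj n).toMonoidHom = T := by
    apply Subgroup.eq_of_le_of_card_ge hle
    rw [Subgroup.card_map_of_injective (MulAut.conj n).injective]
  rw [Subgroup.mem_normalizer_iff]
  intro t
  refine ⟨h t, fun ht => ?_⟩
  have h3 : n * t * n⁻¹ ∈ T.map (MulAut.conj n).toMonoidHom := by
    rw [heq]
    exact ht
  obtain ⟨t', ht', e⟩ := h3
  have : t' = t := by
    have e' : n * t' * n⁻¹ = n * t * n⁻¹ := e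
    simpa using e'
  rw [← this]
  exact ht'

/-- The fixed points of a Sylow `2`-subgroup of a two-point stabiliser. -/
theorem exists_fix_two (hΩ : Fintype.card Ω % 4 = 2) (hΩ2 : 2 < Fintype.card Ω)
    (h2 : ∀ {a b c d : Ω}, a ≠ b → c ≠ d → ∃ g : G, g • a = c ∧ g • b = d) {a b : Ω} (hab : a ≠ b) :
    ∃ T : Subgroup G, IsPGroup 2 T ∧ (∀ t ∈ T, t • a = a ∧ t • b = b) ∧
      (∀ x, (∀ t ∈ T, t • x = x) → x = a ∨ x = b) := by
  haveI : Fact (Nat.Prime 2) := ⟨Nat.prime_two⟩
  let H : Subgroup G := stabilizer G a ⊓ stabilizer G b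
  obtain ⟨T₀⟩ : Nonempty (Sylow 2 H) := inferInstance
  let T : Subgroup G := T₀.1.map H.subtype
  have hTg : IsPGroup 2 T := T₀.2.map _
  have hTH : T ≤ H := by
    rintro _ ⟨y, _, rfl⟩
    exact y.2
  have hcT0 : Nat.card T₀.1 = Nat.card T :=
    Nat.card_congr (Subgroup.equivMapOfInjective _ _ (Subgroup.subtype_injective _)).toEquiv
  have hindex := T₀.1.card_mul_index
  have hnd := T₀.not_dvd_index
  rw [hcT0] at hindex
  have hTpos : 0 < Nat.card T := Nat.card_pos
  refine ⟨T, hTg, fun t ht => ⟨(hTH ht).1, (hTH ht).2⟩, ?_⟩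
  intro x₃ hx₃
  by_contra hne
  push_neg at hne
  -- the fixed points
  let F := {x : Ω // ∀ t ∈ T, t • x = x}
  let N : Subgroup G := Subgroup.normalizer (T : Set G)
  have hact : ∀ n ∈ N, ∀ x : Ω, (∀ t ∈ T, t • x = x) → ∀ t ∈ T, t • (n • x) = n • x := by
    intro n hn x hx t ht
    have h3 : n⁻¹ * t * n ∈ T := by
      have := (Subgroup.mem_normalizer_iff.mp (N.inv_mem hn) t).mp ht
      simpa using this
    have h4 := hx _ h3
    rw [mul_smul, mul_smul, inv_smul_eq_iff] at h4
    exact h4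
  let φ : N →* Equiv.Perm F :=
    { toFun := fun n =>
        { toFun := fun x => ⟨n.1 • x.1, hact n.1 n.2 x.1 x.2⟩
          invFun := fun x => ⟨n.1⁻¹ • x.1, hact n.1⁻¹ (N.inv_mem n.2) x.1 x.2⟩
          left_inv := by
            intro x
            apply Subtype.ext
            simp
          right_inv := by
            intro x
            apply Subtype.ext
            simp }
      map_one' := by
        ext x
        simp
      map_mul' := by
        intro m n
        ext x
        simp [mul_smul] }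
  have hφ : ∀ (n : N) (x : F), ((φ n x : F) : Ω) = n.1 • x.1 := fun _ _ => rfl
  -- double transitivity
  have hcardL : ∀ {x y : Ω}, x ≠ y → Nat.card ↥(stabilizer G x ⊓ stabilizer G y) = Nat.card H := by
    intro x y hxy
    have h3 := card_G_eq (G := G) h2 hab
    have h4 := card_G_eq (G := G) h2 hxy
    rw [h3] at h4
    have h5 : 0 < Fintype.card Ω * (Fintype.card Ω - 1) := by
      apply Nat.mul_pos <;> omega
    rw [← mul_assoc, ← mul_assoc] at h4
    exact (Nat.eq_of_mul_eq_mul_left h5 h4).symm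
  have h2N : ∀ {x y x' y' : F}, x ≠ y → x' ≠ y' → ∃ n ∈ φ.range, n x = x' ∧ n y = y' := by
    intro x y x' y' hxy hxy'
    have hxy₁ : x.1 ≠ y.1 := fun h => hxy (Subtype.ext h)
    have hxy₂ : x'.1 ≠ y'.1 := fun h => hxy' (Subtype.ext h)
    obtain ⟨g, hg1, hg2⟩ := h2 hxy₁ hxy₂
    let L : Subgroup G := stabilizer G x'.1 ⊓ stabilizer G y'.1
    let B : Subgroup G := T.map (MulAut.conj g).toMonoidHom
    have hAL : T ≤ L := fun t ht => ⟨x'.2 t ht, y'.2 t ht⟩
    have hBL : B ≤ L := by
      rintro _ ⟨t, ht, rfl⟩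
      constructor
      · show g * t * g⁻¹ ∈ stabilizer G x'.1
        rw [mem_stabilizer_iff, mul_smul, mul_smul, ← hg1, inv_smul_smul, x.2 t ht]
      · show g * t * g⁻¹ ∈ stabilizer G y'.1
        rw [mem_stabilizer_iff, mul_smul, mul_smul, ← hg2, inv_smul_smul, y.2 t ht]
    have hBg : IsPGroup 2 B := hTg.map _
    have hBc : Nat.card T = Nat.card B :=
      (Subgroup.card_map_of_injective (MulAut.conj g).injective).symm
    have hnd' : ¬ 2 ∣ Nat.card L / Nat.card T := by
      rw [hcardL hxy₂, ← hindex, Nat.mul_div_cancel_left _ hTpos]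
      exact hnd
    obtain ⟨r, hrL, hr⟩ := conj_in hAL hBL hTg hBg hBc hnd'
    have hrg : r * g ∈ N := by
      apply mem_normalizer_of_conj_le
      intro t ht
      have := hr (g * t * g⁻¹) ⟨t, ht, rfl⟩
      simpa [mul_assoc] using this
    refine ⟨φ ⟨r * g, hrg⟩, ⟨_, rfl⟩, ?_, ?_⟩
    · apply Subtype.ext
      rw [hφ]
      show (r * g) • x.1 = x'.1
      rw [mul_smul, hg1]
      exact hrL.1
    · apply Subtype.ext
      rw [hφ]
      show (r * g) • y.1 = y'.1
      rw [mul_smul, hg2]
      exact hrL.2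
  -- parity of the set of fixed points
  have hFa : ∀ t ∈ T, t • a = a := fun t ht => (hTH ht).1
  have hFb : ∀ t ∈ T, t • b = b := fun t ht => (hTH ht).2
  have hF3 : 2 < Fintype.card F := by
    let e : Fin 3 → F := ![⟨a, hFa⟩, ⟨b, hFb⟩, ⟨x₃, hx₃⟩]
    have hinj : Function.Injective e := by
      intro i j hij
      have hne1 := hne.1
      have hne2 := hne.2
      fin_cases i <;> fin_cases j <;> first
        | rfl
        | (exfalso
           have h5 := congrArg Subtype.val hij
           simp [e] at h5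
           first
             | exact hab h5
             | exact hab h5.symm
             | exact hne1 h5
             | exact hne1 h5.symm
             | exact hne2 h5
             | exact hne2 h5.symm)
    have := Fintype.card_le_of_injective e hinj
    simp only [Fintype.card_fin] at this
    omega
  have hev : Even (Fintype.card F) := by
    have h3 := IsPGroup.card_modEq_card_fixedPoints (α := Ω) hTg
    have h4 : Nat.card (fixedPoints T Ω) = Fintype.card F := by
      rw [← Nat.card_eq_fintype_card]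
      apply Nat.card_congr
      exact
        { toFun := fun x => ⟨x.1, fun t ht => x.2 ⟨t, ht⟩⟩
          invFun := fun x => ⟨x.1, fun t => x.2 t.1 t.2⟩
          left_inv := fun x => rfl
          right_inv := fun x => rfl }
    rw [h4, Nat.card_eq_fintype_card (α := Ω)] at h3
    rw [Nat.even_iff]
    have h5 : Fintype.card Ω % 2 = 0 := by omega
    have h6 : Fintype.card Ω % 2 = Fintype.card F % 2 := h3
    omega
  -- the order
  have h4range : ¬ 4 ∣ Nat.card φ.range := by
    intro h4
    have h5 : Nat.card φ.ker * Nat.card φ.range = Nat.card N := by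
      rw [← Subgroup.index_ker φ]
      exact Subgroup.card_mul_index _
    let T' : Subgroup N := T.subgroupOf N
    have hT'c : Nat.card T' = Nat.card T :=
      Nat.card_congr (Subgroup.subgroupOfEquivOfLe (Subgroup.le_normalizer)).toEquiv
    have hT'k : T' ≤ φ.ker := by
      intro t ht
      rw [MonoidHom.mem_ker]
      ext x
      rw [hφ]
      exact x.2 t.1 ht
    have h6 : Nat.card T ∣ Nat.card φ.ker := by
      rw [← hT'c]
      exact Subgroup.card_dvd_of_le hT'k
    have h7 : Nat.card N ∣ Nat.card G := Subgroup.card_subgroup_dvd_card N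
    have h8 : Nat.card T * Nat.card φ.range ∣ Nat.card G := by
      refine dvd_trans ?_ h7
      rw [← h5]
      exact mul_dvd_mul_right h6 _
    rw [card_G_eq (G := G) h2 hab] at h8
    change Nat.card T * Nat.card φ.range ∣ Fintype.card Ω * ((Fintype.card Ω - 1) * Nat.card H) at h8
    rw [← hindex] at h8
    have h9 : Nat.card φ.range ∣ Fintype.card Ω * ((Fintype.card Ω - 1) * T₀.1.index) := by
      have e : Fintype.card Ω * ((Fintype.card Ω - 1) * (Nat.card T * T₀.1.index)) =
          Nat.card T * (Fintype.card Ω * ((Fintype.card Ω - 1) * T₀.1.index)) := by ring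
      rw [e] at h8
      exact Nat.dvd_of_mul_dvd_mul_left hTpos h8
    obtain ⟨q, hq⟩ : ∃ q, Fintype.card Ω = 2 * (2 * q + 1) := ⟨Fintype.card Ω / 4, by omega⟩
    have h10 : 2 * 2 ∣ 2 * ((2 * q + 1) * ((Fintype.card Ω - 1) * T₀.1.index)) := by
      have := h4.trans h9
      rw [hq] at this
      have e : 2 * (2 * q + 1) * ((2 * (2 * q + 1) - 1) * T₀.1.index) =
          2 * ((2 * q + 1) * ((2 * (2 * q + 1) - 1) * T₀.1.index)) := by ring
      rw [e] at this
      rw [hq]
      exact this
    have h11 := Nat.dvd_of_mul_dvd_mul_left (by norm_num) h10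
    rcases (Nat.Prime.dvd_mul Nat.prime_two).mp h11 with h12 | h12
    · omega
    rcases (Nat.Prime.dvd_mul Nat.prime_two).mp h12 with h13 | h13
    · omega
    · exact hnd h13
  exact no_two_trans_even φ.range h2N hF3 hev h4range

/-- A `2`-group acting on an invariant set of odd size has a fixed point there. -/
theorem exists_fix_odd {T : Subgroup G} (hT : IsPGroup 2 T) (C : Finset Ω) (hinv : ∀ t ∈ T, ∀ c ∈ C, t • c ∈ C)
    (hodd : Odd C.card) : ∃ c ∈ C, ∀ t ∈ T, t • c = c := by
  haveI : Fact (Nat.Prime 2) := ⟨Nat.prime_two⟩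
  let C' : SubMulAction T Ω :=
    { carrier := (C : Set Ω)
      smul_mem' := fun t c hc => hinv t.1 t.2 c hc }
  have h3 := IsPGroup.card_modEq_card_fixedPoints (α := C') hT
  have h4 : Nat.card C' = C.card := by
    have : Nat.card C' = Nat.card (C : Set Ω) := rfl
    rw [this]
    simp
  rw [h4] at h3
  have h5 : Nat.card (fixedPoints T C') % 2 = 1 := by
    have h6 : C.card % 2 = Nat.card (fixedPoints T C') % 2 := h3
    rw [← h6]
    exact Nat.odd_iff.mp hodd
  have h7 : 0 < Nat.card (fixedPoints T C') := by omega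
  haveI : Nonempty (fixedPoints T C') := (Nat.card_pos_iff.mp h7).1
  obtain ⟨⟨c, hc⟩⟩ := this
  refine ⟨c.1, c.2, fun t ht => ?_⟩
  have := hc ⟨t, ht⟩
  exact congrArg Subtype.val this

end Cfsg.Agent.Lib.Deg2p.Wit
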