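/-
Invariant incidence relations between two orbits of a doubly transitive action.
-/
import Cfsg.Agent.Lib.Deg2p.Wit

set_option autoImplicit false
set_option linter.unusedSectionVars false
set_option linter.style.haveILetI false
set_option linter.unusedVariables false

namespace Cfsg.Agent.Lib.Deg2p.Uniq

open MulAction Finset
open scoped Classical Pointwise

/-- The triple sum. -/
theorem u_core {α : Type*} (C D : Finset α) (a a' : α → α → ℤ) (c₀ lam sig tau : ℤ)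
    (hcol : ∀ e ∈ D, ∑ r ∈ C, a r e = c₀)
    (hrow' : ∀ r ∈ C, ∑ e ∈ D, a' r e = c₀)
    (hm1 : ∀ e ∈ D, ∀ e' ∈ D, e' ≠ e → ∑ r ∈ C, a r e' * a r e = lam)
    (hm1' : ∀ e ∈ D, ∑ r ∈ C, a r e * a r e = c₀)
    (hm2 : ∀ r ∈ C, ∀ r' ∈ C, r' ≠ r → ∑ e ∈ D, a' r e * a r' e = tau)
    (hm2' : ∀ r ∈ C, ∑ e ∈ D, a' r e * a r e = sig)
    {r e : α} (hr : r ∈ C) (he : e ∈ D) :
    (c₀ - lam) * a' r e = (sig - tau) * a r e + (tau - lam) * c₀ := by
  have h1 : ∑ r' ∈ C, ∑ e' ∈ D, a' r e' * a r' e' * a r' e = lam * c₀ + (c₀ - lam) * a' r e := by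
    rw [Finset.sum_comm]
    have h3 : ∀ e' ∈ D, ∑ r' ∈ C, a' r e' * a r' e' * a r' e =
        a' r e' * (lam + (c₀ - lam) * (if e' = e then 1 else 0)) := by
      intro e' he'
      have h4 : ∑ r' ∈ C, a' r e' * a r' e' * a r' e = a' r e' * ∑ r' ∈ C, a r' e' * a r' e := by
        rw [Finset.mul_sum]
        exact Finset.sum_congr rfl (fun x _ => by ring)
      rw [h4]
      by_cases hee : e' = e
      · subst hee
        rw [hm1' e' he']
        simp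
      · rw [hm1 e he e' he' hee]
        simp [hee]
    rw [Finset.sum_congr rfl h3]
    have h5 : ∀ e' ∈ D, a' r e' * (lam + (c₀ - lam) * (if e' = e then 1 else 0)) =
        lam * a' r e' + (c₀ - lam) * (if e' = e then a' r e' else 0) := by
      intro e' _
      split_ifs <;> ring
    rw [Finset.sum_congr rfl h5, Finset.sum_add_distrib, ← Finset.mul_sum, ← Finset.mul_sum,
      hrow' r hr, Finset.sum_ite_eq' D e]
    simp [he]
  have h2 : ∑ r' ∈ C, ∑ e' ∈ D, a' r e' * a r' e' * a r' e = tau * c₀ + (sig - tau) * a r e := by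
    have h3 : ∀ r' ∈ C, ∑ e' ∈ D, a' r e' * a r' e' * a r' e =
        a r' e * (tau + (sig - tau) * (if r' = r then 1 else 0)) := by
      intro r' hr'
      have h4 : ∑ e' ∈ D, a' r e' * a r' e' * a r' e = a r' e * ∑ e' ∈ D, a' r e' * a r' e' := by
        rw [Finset.mul_sum]
        exact Finset.sum_congr rfl (fun x _ => by ring)
      rw [h4]
      by_cases hrr : r' = r
      · subst hrr
        rw [hm2' r' hr']
        simp
      · rw [hm2 r hr r' hr' hrr]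
        simp [hrr]
    rw [Finset.sum_congr rfl h3]
    have h5 : ∀ r' ∈ C, a r' e * (tau + (sig - tau) * (if r' = r then 1 else 0)) =
        tau * a r' e + (sig - tau) * (if r' = r then a r' e else 0) := by
      intro r' _
      split_ifs <;> ring
    rw [Finset.sum_congr rfl h5, Finset.sum_add_distrib, ← Finset.mul_sum, ← Finset.mul_sum,
      hcol e he, Finset.sum_ite_eq' C r]
    simp [hr]
  have h3 := h1.symm.trans h2
  linarith

variable {G Ω : Type*} [Group G] [MulAction G Ω]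

/-- Reindexing by a group element preserving the set. -/
theorem sum_smul_eq (C : Finset Ω) {k : G} (h1 : ∀ c ∈ C, k • c ∈ C) (h2 : ∀ c ∈ C, k⁻¹ • c ∈ C)
    (f : Ω → ℤ) : ∑ r ∈ C, f (k • r) = ∑ r ∈ C, f r := by
  refine Finset.sum_nbij' (fun r => k • r) (fun r => k⁻¹ • r) h1 h2 ?_ ?_ ?_
  · intro r _
    simp
  · intro r _
    simp
  · intro r _
    rfl

/-- The U-lemma. -/
theorem u_lemma (K : Subgroup G) (C D : Finset Ω)
    (hC : ∀ k ∈ K, ∀ c ∈ C, k • c ∈ C) (hD : ∀ k ∈ K, ∀ e ∈ D, k • e ∈ D)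
    (h2C : ∀ c ∈ C, ∀ d ∈ C, ∀ c' ∈ C, ∀ d' ∈ C, c ≠ d → c' ≠ d' → ∃ k ∈ K, k • c = c' ∧ k • d = d')
    (h2D : ∀ c ∈ D, ∀ d ∈ D, ∀ c' ∈ D, ∀ d' ∈ D, c ≠ d → c' ≠ d' → ∃ k ∈ K, k • c = c' ∧ k • d = d')
    {p : ℕ} (hodd : Odd p) (hcC : C.card = p) (hcD : D.card = p)
    (A A' : Ω → Ω → Prop)
    (hA : ∀ k ∈ K, ∀ r e, A r e → A (k • r) (k • e)) (hA' : ∀ k ∈ K, ∀ r e, A' r e → A' (k • r) (k • e))
    {c₀ : ℕ} (hrow : ∀ r ∈ C, (D.filter (A r)).card = c₀) (hrow' : ∀ r ∈ C, (D.filter (A' r)).card = c₀)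
    (h0 : 0 < c₀) (h1 : c₀ < p) {r e : Ω} (hr : r ∈ C) (he : e ∈ D) : A r e ↔ A' r e := by
  -- the indicators
  let a : Ω → Ω → ℤ := fun r e => if A r e then 1 else 0
  let a' : Ω → Ω → ℤ := fun r e => if A' r e then 1 else 0
  have hiff : ∀ k ∈ K, ∀ r e, A (k • r) (k • e) ↔ A r e := by
    intro k hk r e
    refine ⟨fun h => ?_, hA k hk r e⟩
    have := hA k⁻¹ (K.inv_mem hk) _ _ h
    simpa using this
  have hiff' : ∀ k ∈ K, ∀ r e, A' (k • r) (k • e) ↔ A' r e := by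
    intro k hk r e
    refine ⟨fun h => ?_, hA' k hk r e⟩
    have := hA' k⁻¹ (K.inv_mem hk) _ _ h
    simpa using this
  have ha : ∀ k ∈ K, ∀ r e, a (k • r) (k • e) = a r e := by
    intro k hk r e
    simp only [a, hiff k hk]
  have ha' : ∀ k ∈ K, ∀ r e, a' (k • r) (k • e) = a' r e := by
    intro k hk r e
    simp only [a', hiff' k hk]
  have hrowa : ∀ r ∈ C, ∑ e ∈ D, a r e = c₀ := by
    intro r hr
    rw [← hrow r hr, Finset.natCast_card_filter]
  have hrowa' : ∀ r ∈ C, ∑ e ∈ D, a' r e = c₀ := by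
    intro r hr
    rw [← hrow' r hr, Finset.natCast_card_filter]
  have hsq : ∀ r e, a r e * a r e = a r e := by
    intro r e
    simp only [a]
    split_ifs <;> norm_num
  have hCinv : ∀ k ∈ K, ∀ c ∈ C, k⁻¹ • c ∈ C := fun k hk => hC k⁻¹ (K.inv_mem hk)
  have hDinv : ∀ k ∈ K, ∀ c ∈ D, k⁻¹ • c ∈ D := fun k hk => hD k⁻¹ (K.inv_mem hk)
  have hp2 : 2 ≤ p := by omega
  -- transitivity
  have h1D : ∀ c ∈ D, ∀ c' ∈ D, ∃ k ∈ K, k • c = c' := by
    intro c hc c' hc'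
    obtain ⟨d, hd, hdc⟩ := Finset.exists_mem_ne (by omega : 1 < D.card) c
    obtain ⟨d', hd', hdc'⟩ := Finset.exists_mem_ne (by omega : 1 < D.card) c'
    obtain ⟨k, hk, h3, _⟩ := h2D c hc d hd c' hc' d' hd' (Ne.symm hdc) (Ne.symm hdc')
    exact ⟨k, hk, h3⟩
  have h1C : ∀ c ∈ C, ∀ c' ∈ C, ∃ k ∈ K, k • c = c' := by
    intro c hc c' hc'
    obtain ⟨d, hd, hdc⟩ := Finset.exists_mem_ne (by omega : 1 < C.card) c
    obtain ⟨d', hd', hdc'⟩ := Finset.exists_mem_ne (by omega : 1 < C.card) c'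
    obtain ⟨k, hk, h3, _⟩ := h2C c hc d hd c' hc' d' hd' (Ne.symm hdc) (Ne.symm hdc')
    exact ⟨k, hk, h3⟩
  obtain ⟨r₀, hr₀⟩ : C.Nonempty := Finset.card_pos.mp (by omega)
  obtain ⟨e₀, he₀⟩ : D.Nonempty := Finset.card_pos.mp (by omega)
  -- column sums
  have hcol1 : ∀ e ∈ D, ∑ r ∈ C, a r e = ∑ r ∈ C, a r e₀ := by
    intro e he
    obtain ⟨k, hk, hke⟩ := h1D e₀ he₀ e he
    rw [← hke, ← sum_smul_eq C (hC k hk) (hCinv k hk) (fun r => a r (k • e₀))]
    exact Finset.sum_congr rfl (fun r _ => ha k hk r e₀)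
  have hcol : ∀ e ∈ D, ∑ r ∈ C, a r e = c₀ := by
    have htot : ∑ e ∈ D, ∑ r ∈ C, a r e = ∑ r ∈ C, ∑ e ∈ D, a r e := Finset.sum_comm
    rw [Finset.sum_congr rfl hcol1, Finset.sum_const, Finset.sum_congr rfl hrowa, Finset.sum_const, hcD,
      hcC] at htot
    simp only [nsmul_eq_mul] at htot
    have hp0 : (p : ℤ) ≠ 0 := by
      have : 0 < p := by omega
      positivity
    have h3 := mul_left_cancel₀ hp0 htot
    intro e he
    rw [hcol1 e he, h3]
  -- the constants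
  obtain ⟨e₁, he₁, he₁0⟩ := Finset.exists_mem_ne (by omega : 1 < D.card) e₀
  obtain ⟨r₁, hr₁, hr₁0⟩ := Finset.exists_mem_ne (by omega : 1 < C.card) r₀
  have hm1 : ∀ e ∈ D, ∀ e' ∈ D, e' ≠ e → ∑ r ∈ C, a r e' * a r e = ∑ r ∈ C, a r e₁ * a r e₀ := by
    intro e he e' he' hne
    obtain ⟨k, hk, h3, h4⟩ := h2D e₁ he₁ e₀ he₀ e' he' e he he₁0 hne
    rw [← h3, ← h4, ← sum_smul_eq C (hC k hk) (hCinv k hk) (fun r => a r (k • e₁) * a r (k • e₀))]
    refine Finset.sum_congr rfl (fun r _ => ?_)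
    rw [ha k hk, ha k hk]
  have hm1' : ∀ e ∈ D, ∑ r ∈ C, a r e * a r e = c₀ := by
    intro e he
    rw [← hcol e he]
    exact Finset.sum_congr rfl (fun r _ => hsq r e)
  have hm2 : ∀ r ∈ C, ∀ r' ∈ C, r' ≠ r → ∑ e ∈ D, a' r e * a r' e = ∑ e ∈ D, a' r₀ e * a r₁ e := by
    intro r hr r' hr' hne
    obtain ⟨k, hk, h3, h4⟩ := h2C r₀ hr₀ r₁ hr₁ r hr r' hr' (Ne.symm hr₁0) (Ne.symm hne)
    rw [← h3, ← h4, ← sum_smul_eq D (hD k hk) (hDinv k hk) (fun e => a' (k • r₀) e * a (k • r₁) e)]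
    refine Finset.sum_congr rfl (fun e _ => ?_)
    rw [ha k hk, ha' k hk]
  have hm2' : ∀ r ∈ C, ∑ e ∈ D, a' r e * a r e = ∑ e ∈ D, a' r₀ e * a r₀ e := by
    intro r hr
    obtain ⟨k, hk, h3⟩ := h1C r₀ hr₀ r hr
    rw [← h3, ← sum_smul_eq D (hD k hk) (hDinv k hk) (fun e => a' (k • r₀) e * a (k • r₀) e)]
    refine Finset.sum_congr rfl (fun e _ => ?_)
    rw [ha k hk, ha' k hk]
  set lam := ∑ r ∈ C, a r e₁ * a r e₀ with hlam
  set tau := ∑ e ∈ D, a' r₀ e * a r₁ e with htau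
  set sig := ∑ e ∈ D, a' r₀ e * a r₀ e with hsig
  have hcore : ∀ {r e : Ω}, r ∈ C → e ∈ D → ((c₀ : ℤ) - lam) * a' r e = (sig - tau) * a r e + (tau - lam) * c₀ :=
    fun {r e} hr he => u_core C D a a' c₀ lam sig tau hcol hrowa' hm1 hm1' hm2 hm2' hr he
  -- a non-trivial row
  have hone : ∃ e ∈ D, A r₀ e := by
    have : (D.filter (A r₀)).Nonempty := by
      apply Finset.card_pos.mp
      rw [hrow r₀ hr₀]
      exact h0
    obtain ⟨x, hx⟩ := this
    exact ⟨x, (Finset.mem_filter.mp hx).1, (Finset.mem_filter.mp hx).2⟩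
  have hzero : ∃ e ∈ D, ¬ A r₀ e := by
    by_contra hcon
    push_neg at hcon
    have h3 : D.filter (A r₀) = D := Finset.filter_true_of_mem hcon
    have h4 := hrow r₀ hr₀
    rw [h3, hcD] at h4
    omega
  obtain ⟨e₃, he₃, hAe₃⟩ := hone
  obtain ⟨e₄, he₄, hAe₄⟩ := hzero
  -- `ρ ≠ 0`
  have hρ : (c₀ : ℤ) - lam ≠ 0 := by
    intro hρ
    have hlamc : lam = c₀ := by linarith
    apply hAe₄
    have hne : e₃ ≠ e₄ := fun h => hAe₄ (h ▸ hAe₃)
    have h3 := hm1 e₄ he₄ e₃ he₃ hne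
    rw [hlamc, ← hcol e₃ he₃] at h3
    have h4 : ∑ r ∈ C, a r e₃ * (1 - a r e₄) = 0 := by
      have : ∀ r ∈ C, a r e₃ * (1 - a r e₄) = a r e₃ - a r e₃ * a r e₄ := fun r _ => by ring
      rw [Finset.sum_congr rfl this, Finset.sum_sub_distrib, h3]
      ring
    have hnn : ∀ r ∈ C, 0 ≤ a r e₃ * (1 - a r e₄) := by
      intro r _
      simp only [a]
      split_ifs <;> norm_num
    have h5 := (Finset.sum_eq_zero_iff_of_nonneg hnn).mp h4 r₀ hr₀
    by_contra hcon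
    simp [a, hAe₃, hcon] at h5
  -- the function
  have ha01 : ∀ r e, a r e = 0 ∨ a r e = 1 := by
    intro r e
    simp only [a]
    split_ifs <;> simp
  have hfn : ∀ r ∈ C, ∀ e ∈ D, a' r e = a' r₀ e₄ + (a' r₀ e₃ - a' r₀ e₄) * a r e := by
    intro r hr e he
    have h3 : a r₀ e₃ = 1 := by simp [a, hAe₃]
    have h4 : a r₀ e₄ = 0 := by simp [a, hAe₄]
    have h5 := hcore hr he
    have h6 := hcore hr₀ he₃
    have h7 := hcore hr₀ he₄
    rw [h3] at h6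
    rw [h4] at h7
    apply mul_left_cancel₀ hρ
    rcases ha01 r e with h8 | h8
    · rw [h8] at h5 ⊢
      linarith
    · rw [h8] at h5 ⊢
      linarith
  have hsum : (p : ℤ) * a' r₀ e₄ + (a' r₀ e₃ - a' r₀ e₄) * c₀ = c₀ := by
    have h3 := hrowa' r₀ hr₀
    rw [Finset.sum_congr rfl (fun e he => hfn r₀ hr₀ e he), Finset.sum_add_distrib, ← Finset.mul_sum,
      hrowa r₀ hr₀, Finset.sum_const, hcD] at h3
    simpa using h3
  have hcases : a' r₀ e₄ = 0 ∧ a' r₀ e₃ = 1 := by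
    have h3 : ∀ r e, a' r e = 0 ∨ a' r e = 1 := by
      intro r e
      simp only [a']
      split_ifs <;> simp
    have hc0 : (0 : ℤ) < c₀ := by exact_mod_cast h0
    have hc1 : (c₀ : ℤ) < p := by exact_mod_cast h1
    rcases h3 r₀ e₄ with h5 | h5 <;> rcases h3 r₀ e₃ with h6 | h6 <;> rw [h5, h6] at hsum
    · exfalso
      simp at hsum
      omega
    · exact ⟨h5, h6⟩
    · exfalso
      have hp' : (p : ℤ) = 2 * c₀ := by linarith
      have hp'' : p = 2 * c₀ := by exact_mod_cast hp'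
      obtain ⟨q, hq⟩ := hodd
      omega
    · exfalso
      have hp' : (p : ℤ) = c₀ := by linarith
      omega
  have hfinal := hfn r hr e he
  rw [hcases.1, hcases.2] at hfinal
  simp only [sub_zero, one_mul, zero_add] at hfinal
  simp only [a, a'] at hfinal
  by_cases h5 : A r e <;> by_cases h6 : A' r e <;> simp [h5, h6] at hfinal ⊢

end Cfsg.Agent.Lib.Deg2p.Uniq
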