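/-
The context of the proof for degree `p ^ 2 + 1`: the kernel on blocks, the block stabiliser in the
regular subgroup, the permutation groups on the blocks.
-/
import Cfsg.Agent.Lib.Deg2p.Uniq
import Cfsg.Agent.Lib.PermMod.PrimeDegree
import Cfsg.Agent.Lib.PermMod.PrimeNormal
import Cfsg.Agent.Lib.PermMod.SylowPD

set_option autoImplicit false
set_option linter.unusedSectionVars false
set_option linter.style.haveILetI false
set_option linter.unusedVariables false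

namespace Cfsg.Agent.Lib.Deg2p.Setup

open MulAction Finset Cfsg.Agent.Lib.Deg2p.Basic Cfsg.Agent.Lib.Deg2p.Reg Cfsg.Agent.Lib.Deg2p.Wit
open scoped Classical Pointwise

/-- The dichotomy for a transitive group of prime degree containing a transitive `p`-subgroup. -/
theorem dichotomy {α L : Type*} [Fintype α] [Group L] [Finite L] {p : ℕ} [hp : Fact p.Prime]
    (hα : Fintype.card α = p) (φ : L →* Equiv.Perm α) (Q : Subgroup L) (hQ : IsPGroup p Q)
    (hQt : ∀ x y, ∃ q ∈ Q, φ q x = y) :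
    (∀ x y x' y' : α, x ≠ y → x' ≠ y' → ∃ l, φ l x = x' ∧ φ l y = y') ∨
      (∀ l, ∀ q ∈ Q, ∃ q' ∈ Q, φ (l * q * l⁻¹) = φ q') := by
  let R : Subgroup (Equiv.Perm α) := φ.range
  haveI : IsPretransitive R α := by
    refine ⟨fun x y => ?_⟩
    obtain ⟨q, _, hq⟩ := hQt x y
    exact ⟨⟨φ q, ⟨q, rfl⟩⟩, hq⟩
  rcases Cfsg.Agent.Lib.PermMod.PrimeDegree.burnside (by rw [hα]; exact hp.out) R with hs | h2
  · right
    obtain ⟨M, hMn, _, hMc⟩ := Cfsg.Agent.Lib.PermMod.PrimeNormal.exists_normal_order_p hα R hs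
    let Q' : Subgroup R := Q.map φ.rangeRestrict
    have hQ'g : IsPGroup p Q' := hQ.map _
    have hMg : IsPGroup p M := by
      apply IsPGroup.of_card (n := 1)
      rw [hMc, pow_one]
    obtain ⟨S₁, hS₁⟩ := hQ'g.exists_le_sylow
    obtain ⟨S₂, hS₂⟩ := hMg.exists_le_sylow
    have hc₁ : Nat.card S₁.1 = p := Cfsg.Agent.Lib.PermMod.SylowPD.card_sylow hα R S₁
    have hc₂ : Nat.card S₂.1 = p := Cfsg.Agent.Lib.PermMod.SylowPD.card_sylow hα R S₂
    have hMS : M = S₂.1 := by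
      apply Subgroup.eq_of_le_of_card_ge hS₂
      rw [hc₂, hMc]
    have hQ'card : p ∣ Nat.card Q' := by
      -- `Q'` is transitive
      haveI : IsPretransitive Q' α := by
        refine ⟨fun x y => ?_⟩
        obtain ⟨q, hq, hq2⟩ := hQt x y
        exact ⟨⟨φ.rangeRestrict q, ⟨q, hq, rfl⟩⟩, hq2⟩
      exact Cfsg.Agent.Lib.PermMod.PrimeNormal.dvd_card_of_transitive (M := Q') hα
    have hQS : Q' = S₁.1 := by
      apply Subgroup.eq_of_le_of_card_ge hS₁
      rw [hc₁]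
      exact Nat.le_of_dvd Nat.card_pos hQ'card
    have hQn : Q' = M := by
      obtain ⟨r, hr⟩ := MulAction.exists_smul_eq R S₂ S₁
      rw [hQS, ← hr, Sylow.coe_subgroup_smul, ← hMS]
      exact Subgroup.Normal.conj_smul_eq_self r M
    intro l q hq
    have h3 : φ.rangeRestrict q ∈ Q' := ⟨q, hq, rfl⟩
    rw [hQn] at h3
    have h4 := hMn.conj_mem _ h3 (φ.rangeRestrict l)
    rw [← hQn] at h4
    obtain ⟨q', hq', e⟩ := h4
    refine ⟨q', hq', ?_⟩
    have e' : φ q' = φ l * φ q * (φ l)⁻¹ := congrArg Subtype.val e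
    rw [e', map_mul, map_mul, map_inv]
  · left
    have h3 : ∀ {a b c d : α}, a ≠ b → c ≠ d → ∃ g : R, g • a = c ∧ g • b = d :=
      is_two_pretransitive_iff.mp h2
    intro x y x' y' hxy hxy'
    obtain ⟨⟨_, l, rfl⟩, h5, h6⟩ := h3 hxy hxy'
    exact ⟨l, h5, h6⟩

/-- The context. -/
structure Ctx (G Ω : Type*) [Group G] [Finite G] [Fintype Ω] [MulAction G Ω] [FaithfulSMul G Ω] (p : ℕ) where
  S : Sys G Ω p
  a : Ω
  b : Ω
  D : Rg S a b
  hp : p.Prime
  hΩ : Fintype.card Ω = p ^ 2 + 1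
  h2 : ∀ {a b c d : Ω}, a ≠ b → c ≠ d → ∃ g : G, g • a = c ∧ g • b = d

namespace Ctx

variable {G Ω : Type*} [Group G] [Finite G] [Fintype Ω] [MulAction G Ω] [FaithfulSMul G Ω] {p : ℕ}
variable (C : Ctx G Ω p)

/-- Same block at `a`. -/
def B (c d : Ω) : Prop := C.S.R C.a c d

theorem hab : C.a ≠ C.b := C.D.hab
theorem hba : C.b ≠ C.a := C.D.hab.symm
theorem p2 (C : Ctx G Ω p) : 2 ≤ p := C.hp.two_le
theorem B_ne {c d : Ω} (h : C.B c d) : c ≠ C.a := C.S.ne h
theorem B_ne' {c d : Ω} (h : C.B c d) : d ≠ C.a := C.S.ne' h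
theorem B_refl {c : Ω} (h : c ≠ C.a) : C.B c c := C.S.refl h
theorem B_symm {c d : Ω} (h : C.B c d) : C.B d c := C.S.symm h
theorem B_trans {c d e : Ω} (h : C.B c d) (h' : C.B d e) : C.B c e := C.S.trans h h'

theorem B_act {g : G} (hg : g • C.a = C.a) {c d : Ω} (h : C.B c d) : C.B (g • c) (g • d) := by
  have := C.S.inv g h
  rwa [hg] at this

theorem ne_a {g : G} (hg : g • C.a = C.a) {c : Ω} (h : c ≠ C.a) : g • c ≠ C.a := by
  intro h'
  apply h
  rw [← hg] at h'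
  exact smul_left_cancel g h'

theorem inv_fix {g : G} (hg : g • C.a = C.a) : g⁻¹ • C.a = C.a := by
  rw [inv_smul_eq_iff]
  exact hg.symm

/-- Kernel on the blocks at `a`. -/
def K : Subgroup G where
  carrier := {g | g • C.a = C.a ∧ ∀ c, c ≠ C.a → C.B c (g • c)}
  mul_mem' := by
    rintro g h ⟨hg1, hg2⟩ ⟨hh1, hh2⟩
    refine ⟨by rw [mul_smul, hh1, hg1], fun c hc => ?_⟩
    rw [mul_smul]
    exact C.B_trans (hh2 c hc) (hg2 _ (C.ne_a hh1 hc))
  one_mem' := ⟨by simp, fun c hc => by simpa using C.B_refl hc⟩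
  inv_mem' := by
    rintro g ⟨hg1, hg2⟩
    refine ⟨C.inv_fix hg1, fun c hc => ?_⟩
    have h3 := hg2 _ (C.ne_a (C.inv_fix hg1) hc)
    rw [smul_inv_smul] at h3
    exact C.B_symm h3

theorem K_fix {k : G} (hk : k ∈ C.K) : k • C.a = C.a := hk.1
theorem K_B {k : G} (hk : k ∈ C.K) {c : Ω} (hc : c ≠ C.a) : C.B c (k • c) := hk.2 c hc
theorem mem_K {k : G} (h1 : k • C.a = C.a) (h2 : ∀ c, c ≠ C.a → C.B c (k • c)) : k ∈ C.K := ⟨h1, h2⟩

theorem K_conj {g k : G} (hg : g • C.a = C.a) (hk : k ∈ C.K) : g * k * g⁻¹ ∈ C.K := by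
  refine ⟨by rw [mul_smul, mul_smul, C.inv_fix hg, C.K_fix hk, hg], fun c hc => ?_⟩
  have h3 := C.K_B hk (C.ne_a (C.inv_fix hg) hc)
  have h4 := C.B_act hg h3
  rw [smul_inv_smul] at h4
  simpa [mul_smul] using h4

/-- The regular subgroup. -/
def P : Subgroup G := C.D.P

theorem P_fix {x : G} (hx : x ∈ C.P) : x • C.a = C.a := C.D.Pa x hx
theorem P_card : Nat.card C.P = p ^ 2 := C.D.card
theorem P_tr {c : Ω} (hc : c ≠ C.a) : ∃ x ∈ C.P, x • C.b = c := C.D.tr c hc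
theorem P_free {x : G} (hx : x ∈ C.P) {c : Ω} (hc : c ≠ C.a) (h : x • c = c) : x = 1 := C.D.free x hx c hc h
theorem P_comm {x y : G} (hx : x ∈ C.P) (hy : y ∈ C.P) : x * y = y * x := C.D.comm x hx y hy

theorem P_uniq {x y : G} (hx : x ∈ C.P) (hy : y ∈ C.P) {c : Ω} (hc : c ≠ C.a) (h : x • c = y • c) : x = y := by
  have h3 : (y⁻¹ * x) • c = c := by
    rw [mul_smul, h, inv_smul_smul]
  have h4 := C.P_free (C.P.mul_mem (C.P.inv_mem hy) hx) hc h3
  have : x = y * (y⁻¹ * x) := by group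
  rw [this, h4, mul_one]

theorem P_pow {x : G} (hx : x ∈ C.P) : x ^ (p ^ 2) = 1 := by
  have h3 := pow_card_eq_one' (x := (⟨x, hx⟩ : C.P))
  rw [C.P_card] at h3
  exact congrArg Subtype.val h3

theorem P_ne_of_ne_one {x : G} (hx : x ∈ C.P) (h1 : x ≠ 1) {c : Ω} (hc : c ≠ C.a) : x • c ≠ c :=
  fun h => h1 (C.P_free hx hc h)

theorem mem_K_of_P {x : G} (hx : x ∈ C.P) (h : C.B C.b (x • C.b)) : x ∈ C.K := by
  refine ⟨C.P_fix hx, fun c hc => ?_⟩
  obtain ⟨z, hz, rfl⟩ := C.P_tr hc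
  have h3 := C.B_act (C.P_fix hz) h
  rw [← mul_smul, C.P_comm hx hz, mul_smul]
  exact h3

/-- The block stabiliser in the regular subgroup. -/
def P0 : Subgroup G := C.P ⊓ C.K

theorem P0_P {y : G} (hy : y ∈ C.P0) : y ∈ C.P := hy.1
theorem P0_K {y : G} (hy : y ∈ C.P0) : y ∈ C.K := hy.2
theorem P0_fix {y : G} (hy : y ∈ C.P0) : y • C.a = C.a := C.P_fix hy.1

theorem mem_P0 {y : G} (hy : y ∈ C.P) (h : C.B C.b (y • C.b)) : y ∈ C.P0 := ⟨hy, C.mem_K_of_P hy h⟩

theorem P0_B {y : G} (hy : y ∈ C.P0) : C.B C.b (y • C.b) := C.K_B hy.2 C.hba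

theorem P0_tr {c : Ω} (h : C.B C.b c) : ∃ y ∈ C.P0, y • C.b = c := by
  obtain ⟨x, hx, rfl⟩ := C.P_tr (C.B_ne' h)
  exact ⟨x, C.mem_P0 hx h, rfl⟩

theorem P0_card : Nat.card C.P0 = p := by
  have h1 := card_eq_orbit_mul C.P0 C.b
  have horb : orbit C.P0 C.b = {c | C.S.R C.a C.b c} := by
    ext d
    rw [mem_orbit_sub]
    constructor
    · rintro ⟨g, hg, rfl⟩
      exact C.P0_B hg
    · intro hd
      exact C.P0_tr hd
  have hbot : C.P0 ⊓ stabilizer G C.b = ⊥ := by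
    rw [Subgroup.eq_bot_iff_forall]
    rintro x ⟨hx, hx2⟩
    exact C.P_free hx.1 C.hba hx2
  rw [horb, hbot, ncard_class C.S C.hba] at h1
  simpa using h1

theorem P0_pow {y : G} (hy : y ∈ C.P0) : y ^ p = 1 := by
  have h3 := pow_card_eq_one' (x := (⟨y, hy⟩ : C.P0))
  rw [C.P0_card] at h3
  exact congrArg Subtype.val h3

theorem P0_free {y : G} (hy : y ∈ C.P0) (h : y • C.b = C.b) : y = 1 := C.P_free hy.1 C.hba h

/-- The two-point stabiliser has order coprime to `p`. -/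
theorem H_eq_one {h : G} (h1 : h • C.a = C.a) (h2 : h • C.b = C.b) {n : ℕ} (hn : h ^ (p ^ n) = 1) : h = 1 := by
  have hd := orderOf_dvd_of_pow_eq_one hn
  have hc := C.D.cop h h1 h2
  have h3 : orderOf h ∣ 1 := by
    have h4 : Nat.Coprime (orderOf h) (p ^ n) := Nat.Coprime.pow_right n hc
    have := Nat.Coprime.eq_one_of_dvd h4 hd
    rw [this]
  exact orderOf_eq_one_iff.mp (Nat.dvd_one.mp h3)

/-- A power formula modulo a normalised subgroup. -/
theorem pow_mod (N : Subgroup G) {t : G} (ht : ∀ y ∈ N, t * y * t⁻¹ ∈ N) {y : G} (hy : y ∈ N) (n : ℕ) :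
    ∃ y' ∈ N, (y * t) ^ n = y' * t ^ n := by
  have hpow : ∀ m : ℕ, ∀ z ∈ N, t ^ m * z * (t ^ m)⁻¹ ∈ N := by
    intro m
    induction m with
    | zero =>
      intro z hz
      simpa using hz
    | succ m ih =>
      intro z hz
      have := ih _ (ht z hz)
      rw [pow_succ, mul_inv_rev]
      convert this using 1
      group
  induction n with
  | zero => exact ⟨1, N.one_mem, by simp⟩
  | succ n ih =>
    obtain ⟨y', hy', e⟩ := ih
    refine ⟨y' * (t ^ n * y * (t ^ n)⁻¹), N.mul_mem hy' (hpow n y hy), ?_⟩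
    rw [pow_succ, e, pow_succ]
    group

/-- The points other than `a`. -/
abbrev Pts : Type _ := {y : Ω // y ≠ C.a}

/-- The block relation as a setoid. -/
def blkSetoid : Setoid C.Pts where
  r y z := C.B y.1 z.1
  iseqv := ⟨fun y => C.B_refl y.2, fun h => C.B_symm h, fun h h' => C.B_trans h h'⟩

/-- The blocks at `a`. -/
abbrev Blk : Type _ := Quotient C.blkSetoid

/-- The class of a point. -/
def blk (c : C.Pts) : C.Blk := Quotient.mk C.blkSetoid c

theorem blk_eq {c d : C.Pts} : C.blk c = C.blk d ↔ C.B c.1 d.1 := Quotient.eq (r := C.blkSetoid)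

noncomputable instance : Fintype C.Blk := Fintype.ofFinite _

/-- Action of the point stabiliser on points. -/
def ptsAct (g : stabilizer G C.a) (y : C.Pts) : C.Pts := ⟨g.1 • y.1, C.ne_a g.2 y.2⟩

/-- Action of the point stabiliser on blocks. -/
noncomputable def blkMap (g : stabilizer G C.a) : C.Blk → C.Blk :=
  Quotient.lift (fun y => C.blk (C.ptsAct g y)) (by
    intro y z h
    apply C.blk_eq.mpr
    exact C.B_act g.2 h)

theorem blkMap_blk (g : stabilizer G C.a) (y : C.Pts) : C.blkMap g (C.blk y) = C.blk (C.ptsAct g y) := rfl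

theorem blk_surj (β : C.Blk) : ∃ y, C.blk y = β := Quotient.exists_rep β

/-- The permutation representation on blocks. -/
noncomputable def φ : stabilizer G C.a →* Equiv.Perm C.Blk where
  toFun g :=
    { toFun := C.blkMap g
      invFun := C.blkMap g⁻¹
      left_inv := by
        intro β
        obtain ⟨y, rfl⟩ := C.blk_surj β
        rw [blkMap_blk, blkMap_blk]
        congr 1
        apply Subtype.ext
        simp [ptsAct]
      right_inv := by
        intro β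
        obtain ⟨y, rfl⟩ := C.blk_surj β
        rw [blkMap_blk, blkMap_blk]
        congr 1
        apply Subtype.ext
        simp [ptsAct] }
  map_one' := by
    ext β
    obtain ⟨y, rfl⟩ := C.blk_surj β
    show C.blkMap 1 (C.blk y) = C.blk y
    rw [blkMap_blk]
    congr 1
    apply Subtype.ext
    simp [ptsAct]
  map_mul' := by
    intro g h
    ext β
    obtain ⟨y, rfl⟩ := C.blk_surj β
    show C.blkMap (g * h) (C.blk y) = C.blkMap g (C.blkMap h (C.blk y))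
    rw [blkMap_blk, blkMap_blk, blkMap_blk]
    congr 1
    apply Subtype.ext
    simp [ptsAct, mul_smul]

theorem φ_blk (g : stabilizer G C.a) (y : C.Pts) : C.φ g (C.blk y) = C.blk (C.ptsAct g y) := rfl

theorem φ_eq_iff (g g' : stabilizer G C.a) : C.φ g = C.φ g' ↔ ∀ c, c ≠ C.a → C.B (g.1 • c) (g'.1 • c) := by
  constructor
  · intro h c hc
    have h3 := DFunLike.congr_fun h (C.blk ⟨c, hc⟩)
    rw [φ_blk, φ_blk, blk_eq] at h3
    exact h3
  · intro h
    ext β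
    obtain ⟨y, rfl⟩ := C.blk_surj β
    rw [φ_blk, φ_blk, blk_eq]
    exact h y.1 y.2

theorem φ_eq_one_iff (g : stabilizer G C.a) : C.φ g = 1 ↔ g.1 ∈ C.K := by
  have h3 := C.φ_eq_iff g 1
  rw [map_one] at h3
  rw [h3]
  constructor
  · intro h
    refine C.mem_K g.2 (fun c hc => ?_)
    exact C.B_symm (by simpa using h c hc)
  · intro h c hc
    simpa using C.B_symm (C.K_B h hc)

/-- Each block has `p` points, so that there are `p` blocks. -/
theorem card_Blk : Fintype.card C.Blk = p := by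
  have hpts : Fintype.card C.Pts = p ^ 2 := by
    rw [Fintype.card_subtype_compl, Fintype.card_subtype_eq, C.hΩ]
    simp
  have h3 := Finset.card_eq_sum_card_fiberwise (s := (Finset.univ : Finset C.Pts)) (t := (Finset.univ : Finset C.Blk))
    (f := C.blk) (fun _ _ => Finset.mem_univ _)
  have hfib : ∀ β ∈ (Finset.univ : Finset C.Blk),
      (Finset.univ.filter (fun y => C.blk y = β)).card = p := by
    intro β _
    obtain ⟨y₀, rfl⟩ := C.blk_surj β
    refine Eq.trans ?_ (C.S.card (x := C.a) (y := y₀.1) y₀.2)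
    refine Finset.card_nbij' (fun y => y.1) (fun z => if h : z ≠ C.a then ⟨z, h⟩ else y₀) ?_ ?_ ?_ ?_
    · intro y hy
      simp only [Finset.coe_filter, Finset.mem_univ, true_and, Set.mem_setOf_eq] at hy ⊢
      exact C.B_symm (C.blk_eq.mp hy)
    · intro z hz
      simp only [Finset.coe_filter, Finset.mem_univ, true_and, Set.mem_setOf_eq] at hz ⊢
      have hz2 : z ≠ C.a := C.S.ne' hz
      rw [dif_pos hz2]
      exact C.blk_eq.mpr (C.B_symm hz)
    · intro y _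
      simp [y.2]
    · intro z hz
      simp only [Finset.coe_filter, Finset.mem_univ, true_and, Set.mem_setOf_eq] at hz
      simp [C.S.ne' hz]
  rw [Finset.sum_congr rfl hfib, Finset.sum_const, Finset.card_univ, Finset.card_univ, hpts, smul_eq_mul] at h3
  have hp0 : 0 < p := C.hp.pos
  have h4 : p * p = Fintype.card C.Blk * p := by
    rw [← h3]
    ring
  exact (Nat.eq_of_mul_eq_mul_right hp0 h4).symm

theorem P_le_stab : C.P ≤ stabilizer G C.a := fun x hx => C.P_fix hx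

theorem P_move {c d : Ω} (hc : c ≠ C.a) (hd : d ≠ C.a) : ∃ x ∈ C.P, x • c = d := by
  obtain ⟨x₁, hx₁, rfl⟩ := C.P_tr hc
  obtain ⟨x₂, hx₂, rfl⟩ := C.P_tr hd
  exact ⟨x₂ * x₁⁻¹, C.P.mul_mem hx₂ (C.P.inv_mem hx₁), by simp [mul_smul]⟩

theorem P_isP : IsPGroup p C.P := by
  apply IsPGroup.of_card (n := 2)
  exact C.P_card

theorem P0_move {c d : Ω} (hc : C.B C.b c) (hd : C.B C.b d) : ∃ y ∈ C.P0, y • c = d := by
  obtain ⟨y₁, hy₁, rfl⟩ := C.P0_tr hc
  obtain ⟨y₂, hy₂, rfl⟩ := C.P0_tr hd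
  exact ⟨y₂ * y₁⁻¹, C.P0.mul_mem hy₂ (C.P0.inv_mem hy₁), by simp [mul_smul]⟩

/-- The dichotomy at the level of blocks. -/
theorem dich_G : (∀ c d, c ≠ C.a → d ≠ C.a → ¬ C.B C.b c → ¬ C.B C.b d →
      ∃ h : G, h • C.a = C.a ∧ h • C.b = C.b ∧ C.B (h • c) d) ∨
    (∀ g : G, g • C.a = C.a → ∀ x ∈ C.P, ∃ x' ∈ C.P, ∀ c, c ≠ C.a → C.B ((g * x * g⁻¹) • c) (x' • c)) := by
  haveI : Fact p.Prime := ⟨C.hp⟩
  let Q : Subgroup (stabilizer G C.a) := C.P.subgroupOf (stabilizer G C.a)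
  have hQg : IsPGroup p Q :=
    C.P_isP.of_equiv (Subgroup.subgroupOfEquivOfLe C.P_le_stab).symm
  have hQt : ∀ β β', ∃ q ∈ Q, C.φ q β = β' := by
    intro β β'
    obtain ⟨⟨c, hc⟩, rfl⟩ := C.blk_surj β
    obtain ⟨⟨d, hd⟩, rfl⟩ := C.blk_surj β'
    obtain ⟨x, hx, hxc⟩ := C.P_move hc hd
    refine ⟨⟨x, C.P_fix hx⟩, hx, ?_⟩
    rw [φ_blk, blk_eq]
    show C.B (x • c) d
    rw [hxc]
    exact C.B_refl hd
  rcases dichotomy C.card_Blk C.φ Q hQg hQt with hl | hr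
  · left
    intro c d hc hd hbc hbd
    have h3 : C.blk ⟨C.b, C.hba⟩ ≠ C.blk ⟨c, hc⟩ := fun h => hbc (C.blk_eq.mp h)
    have h4 : C.blk ⟨C.b, C.hba⟩ ≠ C.blk ⟨d, hd⟩ := fun h => hbd (C.blk_eq.mp h)
    obtain ⟨l, hl1, hl2⟩ := hl _ _ _ _ h3 h4
    rw [φ_blk, blk_eq] at hl1 hl2
    have hl1' : C.B (l.1 • C.b) C.b := hl1
    have hl2' : C.B (l.1 • c) d := hl2
    obtain ⟨y, hy, hyb⟩ := C.P0_tr (C.B_symm hl1')
    refine ⟨y⁻¹ * l.1, ?_, ?_, ?_⟩
    · rw [mul_smul, l.2]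
      exact C.inv_fix (C.P0_fix hy)
    · rw [mul_smul, ← hyb, inv_smul_smul]
    · rw [mul_smul]
      have hyi : y⁻¹ ∈ C.K := C.K.inv_mem (C.P0_K hy)
      exact C.B_trans (C.B_symm (C.K_B hyi (C.ne_a l.2 hc))) hl2'
  · right
    intro g hg x hx
    obtain ⟨q', hq', e⟩ := hr ⟨g, hg⟩ ⟨x, C.P_fix hx⟩ hx
    refine ⟨q'.1, hq', fun c hc => ?_⟩
    exact (C.φ_eq_iff _ _).mp e c hc

/-- The points of the block of `b`. -/
abbrev B0 : Type _ := {c : Ω // C.B C.b c}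

theorem card_B0 : Fintype.card C.B0 = p := by
  rw [Fintype.card_subtype]
  exact C.S.card C.hba

theorem K_B0 {k : G} (hk : k ∈ C.K) {c : Ω} (hc : C.B C.b c) : C.B C.b (k • c) :=
  C.B_trans hc (C.K_B hk (C.B_ne' hc))

/-- The representation of the kernel on the block of `b`. -/
def φK : C.K →* Equiv.Perm C.B0 where
  toFun k :=
    { toFun := fun c => ⟨k.1 • c.1, C.K_B0 k.2 c.2⟩
      invFun := fun c => ⟨k.1⁻¹ • c.1, C.K_B0 (C.K.inv_mem k.2) c.2⟩
      left_inv := by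
        intro c
        apply Subtype.ext
        simp
      right_inv := by
        intro c
        apply Subtype.ext
        simp }
  map_one' := by
    ext c
    simp
  map_mul' := by
    intro m n
    ext c
    simp [mul_smul]

theorem φK_apply (k : C.K) (c : C.B0) : ((C.φK k c : C.B0) : Ω) = k.1 • c.1 := rfl

theorem dich_K : (∀ c d c' d', C.B C.b c → C.B C.b d → C.B C.b c' → C.B C.b d' → c ≠ d → c' ≠ d' →
      ∃ k ∈ C.K, k • c = c' ∧ k • d = d') ∨
    (∀ k ∈ C.K, ∀ y ∈ C.P0, ∃ y' ∈ C.P0, ∀ c, C.B C.b c → (k * y * k⁻¹) • c = y' • c) := by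
  haveI : Fact p.Prime := ⟨C.hp⟩
  have hle : C.P0 ≤ C.K := inf_le_right
  let Q : Subgroup C.K := C.P0.subgroupOf C.K
  have hQg : IsPGroup p Q := by
    have : IsPGroup p C.P0 := C.P_isP.to_le inf_le_left
    exact this.of_equiv (Subgroup.subgroupOfEquivOfLe hle).symm
  have hQt : ∀ β β', ∃ q ∈ Q, C.φK q β = β' := by
    rintro ⟨c, hc⟩ ⟨d, hd⟩
    obtain ⟨x, hx, hxc⟩ := C.P0_move hc hd
    refine ⟨⟨x, hle hx⟩, hx, ?_⟩
    apply Subtype.ext
    exact hxc
  rcases dichotomy C.card_B0 C.φK Q hQg hQt with hl | hr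
  · left
    intro c d c' d' hc hd hc' hd' hcd hcd'
    obtain ⟨l, h3, h4⟩ := hl ⟨c, hc⟩ ⟨d, hd⟩ ⟨c', hc'⟩ ⟨d', hd'⟩ (fun h => hcd (congrArg Subtype.val h))
      (fun h => hcd' (congrArg Subtype.val h))
    exact ⟨l.1, l.2, congrArg Subtype.val h3, congrArg Subtype.val h4⟩
  · right
    intro k hk y hy
    obtain ⟨q', hq', e⟩ := hr ⟨k, hk⟩ ⟨y, hle hy⟩ hy
    refine ⟨q'.1, hq', fun c hc => ?_⟩
    have h3 := DFunLike.congr_fun e ⟨c, hc⟩
    exact congrArg Subtype.val h3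

end Ctx

end Cfsg.Agent.Lib.Deg2p.Setup
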