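/-
Degree `p ^ 2 + 1`: if the group on the blocks and the kernel on a block are both affine,
the regular subgroup is normal in the point stabiliser.
-/
import Cfsg.Agent.Lib.Deg2p.Setup

set_option autoImplicit false
set_option linter.unusedSectionVars false
set_option linter.style.haveILetI false
set_option linter.unusedVariables false

namespace Cfsg.Agent.Lib.Deg2p.Setup.Ctx

open MulAction Finset Cfsg.Agent.Lib.Deg2p.Basic Cfsg.Agent.Lib.Deg2p.Reg Cfsg.Agent.Lib.Deg2p.Wit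
open scoped Classical Pointwise

variable {G Ω : Type*} [Group G] [Finite G] [Fintype Ω] [MulAction G Ω] [FaithfulSMul G Ω] {p : ℕ}
variable (C : Ctx G Ω p)

theorem eq_one_of_fix {u : G} (h : ∀ c : Ω, u • c = c) : u = 1 := by
  apply FaithfulSMul.eq_of_smul_eq_smul (α := Ω)
  intro c
  rw [one_smul, h]

theorem smul_pow_fix {g : G} {c : Ω} (h : g • c = c) (n : ℕ) : g ^ n • c = c := by
  induction n with
  | zero => simp
  | succ n ih => rw [pow_succ, mul_smul, h, ih]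

theorem exists_move_b {c : Ω} (hc : c ≠ C.a) : ∃ g : G, g • C.a = C.a ∧ g • c = C.b :=
  C.h2 (Ne.symm hc) C.hab

section StepII

variable (hAffK : ∀ k ∈ C.K, ∀ y ∈ C.P0, ∃ y' ∈ C.P0, ∀ c, C.B C.b c → (k * y * k⁻¹) • c = y' • c)
include hAffK

/-- (1) `P₀` is normal in the kernel. -/
theorem P0_norm_K {k y : G} (hk : k ∈ C.K) (hy : y ∈ C.P0) : k * y * k⁻¹ ∈ C.P0 := by
  obtain ⟨y', hy', e'⟩ := hAffK k hk y hy
  set u := y'⁻¹ * (k * y * k⁻¹) with hu
  have hblock : ∀ z ∈ C.P, ∃ w ∈ C.P0, ∀ e, C.B (z • C.b) e → u • e = w • e := by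
    intro z hz
    have hzi : z⁻¹ ∈ C.P := C.P.inv_mem hz
    have hk' : z⁻¹ * k * z ∈ C.K := by
      have := C.K_conj (C.P_fix hzi) hk
      simpa using this
    obtain ⟨y'', hy'', e''⟩ := hAffK _ hk' y hy
    refine ⟨y'⁻¹ * y'', C.P0.mul_mem (C.P0.inv_mem hy') hy'', fun e he => ?_⟩
    have hc₀ : C.B C.b (z⁻¹ • e) := by
      have := C.B_act (C.P_fix hzi) he
      simpa using this
    have h3 := e'' _ hc₀
    have hcomm : y * z = z * y := C.P_comm (C.P0_P hy) hz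
    have h4 : z * (z⁻¹ * k * z * y * (z⁻¹ * k * z)⁻¹) = k * y * k⁻¹ * z := by
      have : z * (z⁻¹ * k * z * y * (z⁻¹ * k * z)⁻¹) = k * (z * y) * z⁻¹ * k⁻¹ * z := by group
      rw [this, ← hcomm]
      group
    have h5 : (k * y * k⁻¹) • e = y'' • e := by
      have h6 : e = z • (z⁻¹ • e) := by simp
      conv_lhs => rw [h6]
      rw [← mul_smul, ← h4, mul_smul, h3]
      rw [← mul_smul, C.P_comm hz (C.P0_P hy''), mul_smul, smul_inv_smul]
    rw [hu, mul_smul, h5, mul_smul]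
  have hua : u • C.a = C.a := by
    rw [hu, mul_smul, mul_smul, mul_smul, C.inv_fix (C.K_fix hk), C.P0_fix hy, C.K_fix hk,
      C.inv_fix (C.P0_fix hy')]
  have hub : u • C.b = C.b := by
    rw [hu, mul_smul, e' _ (C.B_refl C.hba), inv_smul_smul]
  have hup : u ^ p = 1 := by
    apply eq_one_of_fix (Ω := Ω)
    intro c
    by_cases hc : c = C.a
    · rw [hc]
      exact smul_pow_fix hua p
    · obtain ⟨z, hz, rfl⟩ := C.P_tr hc
      obtain ⟨w, hw, hw2⟩ := hblock z hz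
      have hind : ∀ n : ℕ, u ^ n • (z • C.b) = w ^ n • (z • C.b) := by
        intro n
        induction n with
        | zero => simp
        | succ n ih =>
          rw [pow_succ', mul_smul, ih, hw2, pow_succ', mul_smul]
          exact C.K_B (C.K.pow_mem (C.P0_K hw) n) hc
      rw [hind, C.P0_pow hw, one_smul]
  have hu1 : u = 1 := C.H_eq_one hua hub (n := 1) (by simpa using hup)
  have : k * y * k⁻¹ = y' := by
    rw [hu] at hu1
    have h3 := congrArg (fun v => y' * v) hu1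
    simpa using h3
  rw [this]
  exact hy'

/-- (2) `P₀` is normal in the point stabiliser. -/
theorem P0_norm {g y : G} (hg : g • C.a = C.a) (hy : y ∈ C.P0) : g * y * g⁻¹ ∈ C.P0 := by
  have hy₁ : g * y * g⁻¹ ∈ C.K := C.K_conj hg (C.P0_K hy)
  obtain ⟨y₂, hy₂, hy₂b⟩ := C.P0_tr (C.K_B0 hy₁ (C.B_refl C.hba))
  set t := y₂⁻¹ * (g * y * g⁻¹) with ht
  have hy₁e : g * y * g⁻¹ = y₂ * t := by
    rw [ht]
    group
  have htK : t ∈ C.K := C.K.mul_mem (C.K.inv_mem (C.P0_K hy₂)) hy₁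
  have htb : t • C.b = C.b := by
    rw [ht, mul_smul, ← hy₂b, inv_smul_smul]
  obtain ⟨y₃, hy₃, e₃⟩ := pow_mod C.P0 (t := t) (fun z hz => C.P0_norm_K hAffK htK hz) hy₂ p
  have hone : (y₂ * t) ^ p = 1 := by
    rw [← hy₁e, conj_pow, C.P0_pow hy]
    simp
  rw [hone] at e₃
  have ht1 : t ^ p = y₃⁻¹ := by
    have : y₃ * t ^ p = 1 := e₃.symm
    exact eq_inv_of_mul_eq_one_right this
  have htp : t ^ p = 1 := by
    have h3 : y₃⁻¹ ∈ C.P0 := C.P0.inv_mem hy₃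
    rw [← ht1] at h3
    apply C.P0_free h3
    exact smul_pow_fix htb p
  have ht2 : t = 1 := C.H_eq_one (C.K_fix htK) htb (n := 1) (by simpa using htp)
  rw [hy₁e, ht2, mul_one]
  exact hy₂

/-- (3) The centraliser of `P₀` in the kernel is `P₀`. -/
theorem K_cent {z : G} (hz : z ∈ C.K) (hc : ∀ y ∈ C.P0, z * y = y * z) : z ∈ C.P0 := by
  obtain ⟨y₀, hy₀, hy₀b⟩ := C.P0_tr (C.K_B0 hz (C.B_refl C.hba))
  set w := y₀⁻¹ * z with hw
  have hwK : w ∈ C.K := C.K.mul_mem (C.K.inv_mem (C.P0_K hy₀)) hz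
  have hwb : w • C.b = C.b := by
    rw [hw, mul_smul, ← hy₀b, inv_smul_smul]
  have hwc : ∀ y ∈ C.P0, w * y = y * w := by
    intro y hy
    have h3 : y₀⁻¹ * y = y * y₀⁻¹ := C.P_comm (C.P.inv_mem (C.P0_P hy₀)) (C.P0_P hy)
    rw [hw, mul_assoc, hc y hy, ← mul_assoc, h3, mul_assoc]
  have hkey : ∀ g : G, g • C.a = C.a → (g * w * g⁻¹) • C.b = C.b := by
    intro g hg
    have hw' : g * w * g⁻¹ ∈ C.K := C.K_conj hg hwK
    obtain ⟨y₃', hy₃', hy₃b⟩ := C.P0_tr (C.K_B0 hw' (C.B_refl C.hba))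
    set y₃ := y₃'⁻¹ with hy₃
    have hy₃0 : y₃ ∈ C.P0 := C.P0.inv_mem hy₃'
    set v := y₃ * (g * w * g⁻¹) with hv
    have hvb : v • C.b = C.b := by
      rw [hv, mul_smul, ← hy₃b, hy₃, inv_smul_smul]
    have hcomm : Commute y₃ (g * w * g⁻¹) := by
      have h3 : g⁻¹ * y₃ * g ∈ C.P0 := by
        have := C.P0_norm hAffK (C.inv_fix hg) hy₃0
        simpa using this
      have h4 := hwc _ h3
      show y₃ * (g * w * g⁻¹) = (g * w * g⁻¹) * y₃
      have h5 : g * w * g⁻¹ * y₃ = g * (w * (g⁻¹ * y₃ * g)) * g⁻¹ := by group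
      have h6 : y₃ * (g * w * g⁻¹) = g * ((g⁻¹ * y₃ * g) * w) * g⁻¹ := by group
      rw [h5, h6, h4]
    set m := orderOf w with hm
    have hvm : v ^ m = y₃ ^ m := by
      rw [hv, hcomm.mul_pow, conj_pow, hm, pow_orderOf_eq_one]
      simp
    have hy₃m : y₃ ^ m = 1 := by
      have h3 : y₃ ^ m ∈ C.P0 := C.P0.pow_mem hy₃0 m
      apply C.P0_free h3
      rw [← hvm]
      exact smul_pow_fix hvb m
    have hco : Nat.Coprime m p := C.D.cop w (C.K_fix hwK) hwb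
    have hy₃1 : y₃ = 1 := by
      have h3 : orderOf y₃ ∣ m := orderOf_dvd_of_pow_eq_one hy₃m
      have h4 : orderOf y₃ ∣ p := orderOf_dvd_of_pow_eq_one (C.P0_pow hy₃0)
      have h5 : orderOf y₃ ∣ Nat.gcd m p := Nat.dvd_gcd h3 h4
      rw [hco] at h5
      exact orderOf_eq_one_iff.mp (Nat.dvd_one.mp h5)
    rw [hv, hy₃1, one_mul] at hvb
    exact hvb
  have hw1 : w = 1 := by
    apply eq_one_of_fix (Ω := Ω)
    intro c
    by_cases hca : c = C.a
    · rw [hca]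
      exact C.K_fix hwK
    · obtain ⟨g, hg1, hg2⟩ := C.exists_move_b hca
      have h3 := hkey g hg1
      have h4 : (g * w * g⁻¹) • (g • c) = g • c := by
        rw [hg2]
        exact h3
      rw [mul_smul, mul_smul, inv_smul_smul] at h4
      exact smul_left_cancel g h4
  have : z = y₀ := by
    rw [hw] at hw1
    have h3 := congrArg (fun v => y₀ * v) hw1
    simpa using h3
  rw [this]
  exact hy₀

/-- (4) The kernel normalises the regular subgroup. -/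
theorem K_norm_P {k x : G} (hk : k ∈ C.K) (hx : x ∈ C.P) : k * x * k⁻¹ ∈ C.P := by
  have hz : k * x * k⁻¹ * x⁻¹ ∈ C.K := by
    have h3 := C.K_conj (C.P_fix hx) (C.K.inv_mem hk)
    have h4 := C.K.mul_mem hk h3
    convert h4 using 1
    group
  have hc : ∀ y ∈ C.P0, (k * x * k⁻¹ * x⁻¹) * y = y * (k * x * k⁻¹ * x⁻¹) := by
    intro y hy
    have hy' : k⁻¹ * y * k ∈ C.P0 := by
      have := C.P0_norm_K hAffK (C.K.inv_mem hk) hy
      simpa using this
    set y' := k⁻¹ * y * k with hy'e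
    have e1 : x⁻¹ * y = y * x⁻¹ := C.P_comm (C.P.inv_mem hx) (C.P0_P hy)
    have e2 : k⁻¹ * y = y' * k⁻¹ := by
      rw [hy'e]
      group
    have e3 : x * y' = y' * x := C.P_comm hx (C.P0_P hy')
    have e4 : k * y' = y * k := by
      rw [hy'e]
      group
    calc k * x * k⁻¹ * x⁻¹ * y = k * x * k⁻¹ * (x⁻¹ * y) := by group
      _ = k * x * k⁻¹ * (y * x⁻¹) := by rw [e1]
      _ = k * x * (k⁻¹ * y) * x⁻¹ := by group
      _ = k * x * (y' * k⁻¹) * x⁻¹ := by rw [e2]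
      _ = k * (x * y') * k⁻¹ * x⁻¹ := by group
      _ = k * (y' * x) * k⁻¹ * x⁻¹ := by rw [e3]
      _ = (k * y') * x * k⁻¹ * x⁻¹ := by group
      _ = (y * k) * x * k⁻¹ * x⁻¹ := by rw [e4]
      _ = y * (k * x * k⁻¹ * x⁻¹) := by group
  have h3 := C.K_cent hAffK hz hc
  have h4 := C.P.mul_mem (C.P0_P h3) hx
  simpa using h4

/-- Step II. -/
theorem stepII
    (hAffG : ∀ g : G, g • C.a = C.a → ∀ x ∈ C.P, ∃ x' ∈ C.P, ∀ c, c ≠ C.a → C.B ((g * x * g⁻¹) • c) (x' • c))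
    {g x : G} (hg : g • C.a = C.a) (hx : x ∈ C.P) : g * x * g⁻¹ ∈ C.P := by
  obtain ⟨x', hx', e'⟩ := hAffG g hg x hx
  set k := x'⁻¹ * (g * x * g⁻¹) with hk
  have hge : g * x * g⁻¹ = x' * k := by
    rw [hk]
    group
  have hgfix : (g * x * g⁻¹) • C.a = C.a := by
    rw [mul_smul, mul_smul, C.inv_fix hg, C.P_fix hx, hg]
  have hkK : k ∈ C.K := by
    refine C.mem_K ?_ (fun c hc => ?_)
    · rw [hk, mul_smul, hgfix]
      exact C.inv_fix (C.P_fix hx')
    · have h3 := C.B_act (C.inv_fix (C.P_fix hx')) (e' c hc)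
      rw [inv_smul_smul] at h3
      rw [hk, mul_smul]
      exact C.B_symm h3
  -- `k` is a `p`-element
  obtain ⟨x₁, hx₁, e₁⟩ := pow_mod C.P (t := k) (fun z hz => C.K_norm_P hAffK hkK hz) hx' (p ^ 2)
  have hone : (x' * k) ^ (p ^ 2) = 1 := by
    rw [← hge, conj_pow, C.P_pow hx]
    simp
  rw [hone] at e₁
  have hk2 : k ^ (p ^ 2) = x₁⁻¹ := eq_inv_of_mul_eq_one_right e₁.symm
  have hk4 : k ^ (p ^ 4) = 1 := by
    have : p ^ 4 = p ^ 2 * p ^ 2 := by ring
    rw [this, pow_mul, hk2]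
    exact C.P_pow (C.P.inv_mem hx₁)
  obtain ⟨y₀, hy₀, hy₀b⟩ := C.P0_tr (C.K_B0 hkK (C.B_refl C.hba))
  obtain ⟨y₃, hy₃, e₃⟩ := pow_mod C.P0 (t := k) (fun z hz => C.P0_norm_K hAffK hkK hz)
    (C.P0.inv_mem hy₀) (p ^ 4)
  rw [hk4, mul_one] at e₃
  have htb : (y₀⁻¹ * k) • C.b = C.b := by
    rw [mul_smul, ← hy₀b, inv_smul_smul]
  have hta : (y₀⁻¹ * k) • C.a = C.a := by
    rw [mul_smul, C.K_fix hkK]
    exact C.inv_fix (C.P0_fix hy₀)
  have hy₃1 : y₃ = 1 := by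
    apply C.P0_free hy₃
    rw [← e₃]
    exact smul_pow_fix htb _
  rw [hy₃1] at e₃
  have ht1 := C.H_eq_one hta htb e₃
  have hky : k = y₀ := by
    have h3 := congrArg (fun v => y₀ * v) ht1
    simpa using h3
  rw [hge, hky]
  exact C.P.mul_mem hx' (C.P0_P hy₀)

end StepII

end Cfsg.Agent.Lib.Deg2p.Setup.Ctx
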