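/-
Degree `p ^ 2 + 1`: the regular subgroup cannot be normal in the point stabiliser.
-/
import Cfsg.Agent.Lib.Deg2p.StepII

set_option autoImplicit false
set_option linter.unusedSectionVars false
set_option linter.style.haveILetI false
set_option linter.unusedVariables false

namespace Cfsg.Agent.Lib.Deg2p.Setup.Ctx

open MulAction Finset Cfsg.Agent.Lib.Deg2p.Basic Cfsg.Agent.Lib.Deg2p.Reg Cfsg.Agent.Lib.Deg2p.Wit
open scoped Classical Pointwise

variable {G Ω : Type*} [Group G] [Finite G] [Fintype Ω] [MulAction G Ω] [FaithfulSMul G Ω] {p : ℕ}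
variable (C : Ctx G Ω p)

theorem half_exists (C : Ctx G Ω p) (hodd : p ≠ 2) : ∃ k : ℕ, 2 * k = p ^ 2 + 1 := by
  rcases C.hp.eq_two_or_odd' with h | h
  · exact absurd h hodd
  · have h3 : Odd (p ^ 2) := h.pow
    obtain ⟨r, hr⟩ := h3
    exact ⟨r + 1, by omega⟩

theorem P_sq_root {k : ℕ} (hk : 2 * k = p ^ 2 + 1) {x : G} (hx : x ∈ C.P) : x ^ k * x ^ k = x := by
  rw [← pow_add, show k + k = p ^ 2 + 1 by omega, pow_succ, C.P_pow hx, one_mul]

theorem P_sq_one {k : ℕ} (hk : 2 * k = p ^ 2 + 1) {x : G} (hx : x ∈ C.P) (h : x * x = 1) : x = 1 := by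
  have h3 : x ^ (2 * k) = 1 := by
    rw [pow_mul, pow_two, h, one_pow]
  rw [hk, pow_succ, C.P_pow hx, one_mul] at h3
  exact h3

/-- An element of the two-point stabiliser centralising `P` is trivial. -/
theorem cent_one {h : G} (h1 : h • C.a = C.a) (h2 : h • C.b = C.b) (hc : ∀ x ∈ C.P, h * x * h⁻¹ = x) : h = 1 := by
  apply eq_one_of_fix (Ω := Ω)
  intro c
  by_cases hca : c = C.a
  · rw [hca, h1]
  · obtain ⟨x, hx, rfl⟩ := C.P_tr hca
    have h3 := hc x hx
    have h4 : h * x = x * h := mul_inv_eq_iff_eq_mul.mp h3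
    rw [← mul_smul, h4, mul_smul, h2]

/-- No element of the two-point stabiliser inverts `P`. -/
theorem no_invert {h : G} (h1 : h • C.a = C.a) (h2 : h • C.b = C.b) (hi : ∀ x ∈ C.P, h * x * h⁻¹ = x⁻¹) : False := by
  refine C.S.no_sym_at C.p2 C.hΩ C.h2 C.a ?_
  intro c d hR hd
  have hc : c ≠ C.a := Ne.symm (C.S.ne hR)
  obtain ⟨x, hx, rfl⟩ := C.P_tr hc
  obtain ⟨z, hz, rfl⟩ := C.P_move (C.ne_a (C.P_fix hx) C.hba) hd
  have h3 : C.S.R C.b C.a (z • C.b) := by
    have h4 := C.S.inv x⁻¹ hR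
    have e : x⁻¹ * z * x = z := by
      rw [mul_assoc, C.P_comm hz hx]
      group
    have e2 : x⁻¹ • z • x • C.b = z • C.b := by
      rw [← mul_smul, ← mul_smul, e]
    rw [C.inv_fix (C.P_fix hx), inv_smul_smul, e2] at h4
    exact h4
  have h4 : C.S.R C.b C.a (z⁻¹ • C.b) := by
    have h5 := C.S.inv h h3
    rw [h1, h2] at h5
    have h6 : h * z = z⁻¹ * h := by
      rw [← hi z hz]
      group
    rw [← mul_smul, h6, mul_smul, h2] at h5
    exact h5
  have h5 := C.S.inv (z * x) h4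
  have e3 : (z * x) • z⁻¹ • C.b = x • C.b := by
    rw [← mul_smul, C.P_comm hz hx]
    congr 1
    group
  rw [C.P_fix (C.P.mul_mem hz hx), e3, mul_smul] at h5
  exact h5

/-- An involution of the two-point stabiliser. -/
structure IsI (u : G) : Prop where
  fa : u • C.a = C.a
  fb : u • C.b = C.b
  sq : u * u = 1
  ne : u ≠ 1

section StepIV

variable (hn : ∀ {g x : G}, g • C.a = C.a → x ∈ C.P → g * x * g⁻¹ ∈ C.P)

/-- The centraliser of `u` in `P`. -/
def Cu (u : G) : Subgroup G where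
  carrier := {x | x ∈ C.P ∧ u * x * u⁻¹ = x}
  mul_mem' := by
    rintro x y ⟨hx, hx2⟩ ⟨hy, hy2⟩
    refine ⟨C.P.mul_mem hx hy, ?_⟩
    have : u * (x * y) * u⁻¹ = (u * x * u⁻¹) * (u * y * u⁻¹) := by group
    rw [this, hx2, hy2]
  one_mem' := ⟨C.P.one_mem, by simp⟩
  inv_mem' := by
    rintro x ⟨hx, hx2⟩
    refine ⟨C.P.inv_mem hx, ?_⟩
    have : u * x⁻¹ * u⁻¹ = (u * x * u⁻¹)⁻¹ := by group
    rw [this, hx2]

/-- The elements of `P` inverted by `u`. -/
def Iu (u : G) : Subgroup G where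
  carrier := {x | x ∈ C.P ∧ u * x * u⁻¹ = x⁻¹}
  mul_mem' := by
    rintro x y ⟨hx, hx2⟩ ⟨hy, hy2⟩
    refine ⟨C.P.mul_mem hx hy, ?_⟩
    have : u * (x * y) * u⁻¹ = (u * x * u⁻¹) * (u * y * u⁻¹) := by group
    rw [this, hx2, hy2, mul_inv_rev, ← mul_inv_rev, ← mul_inv_rev, C.P_comm hx hy]
  one_mem' := ⟨C.P.one_mem, by simp⟩
  inv_mem' := by
    rintro x ⟨hx, hx2⟩
    refine ⟨C.P.inv_mem hx, ?_⟩
    have : u * x⁻¹ * u⁻¹ = (u * x * u⁻¹)⁻¹ := by group
    rw [this, hx2]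

variable {C}

theorem IsI.inv_eq {u : G} (hu : C.IsI u) : u⁻¹ = u := by
  exact inv_eq_of_mul_eq_one_left hu.sq

theorem IsI.cc {u : G} (hu : C.IsI u) (x : G) : u * (u * x * u⁻¹) * u⁻¹ = x := by
  rw [hu.inv_eq]
  have : u * (u * x * u) * u = (u * u) * x * (u * u) := by group
  rw [this, hu.sq]
  simp

include hn in
theorem cu_mem {u : G} (hu : C.IsI u) {x : G} (hx : x ∈ C.P) : x * (u * x * u⁻¹) ∈ C.Cu u := by
  have hx' := hn hu.fa hx
  refine ⟨C.P.mul_mem hx hx', ?_⟩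
  have : u * (x * (u * x * u⁻¹)) * u⁻¹ = (u * x * u⁻¹) * (u * (u * x * u⁻¹) * u⁻¹) := by group
  rw [this, hu.cc, C.P_comm hx' hx]

include hn in
theorem iu_mem {u : G} (hu : C.IsI u) {x : G} (hx : x ∈ C.P) : x * (u * x * u⁻¹)⁻¹ ∈ C.Iu u := by
  have hx' := hn hu.fa hx
  refine ⟨C.P.mul_mem hx (C.P.inv_mem hx'), ?_⟩
  have : u * (x * (u * x * u⁻¹)⁻¹) * u⁻¹ = (u * x * u⁻¹) * (u * (u * x * u⁻¹) * u⁻¹)⁻¹ := by group
  rw [this, hu.cc, mul_inv_rev, inv_inv, C.P_comm hx' (C.P.inv_mem hx)]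

theorem card_between {L : Subgroup G} (hL : L ≤ C.P) (h1 : L ≠ ⊥) (h2 : ∃ x ∈ C.P, x ∉ L) : Nat.card L = p := by
  have hd : Nat.card L ∣ Nat.card C.P := Subgroup.card_dvd_of_le hL
  rw [C.P_card] at hd
  obtain ⟨i, hi, hi2⟩ := (Nat.dvd_prime_pow C.hp).mp hd
  interval_cases i
  · exfalso
    apply h1
    rw [pow_zero] at hi2
    exact Subgroup.card_eq_one.mp hi2
  · simpa using hi2
  · exfalso
    obtain ⟨x, hx, hx2⟩ := h2
    apply hx2
    have : L = C.P := by
      apply Subgroup.eq_of_le_of_card_ge hL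
      rw [hi2, C.P_card]
    rw [this]
    exact hx

include hn in
theorem card_Cu {u : G} (hu : C.IsI u) : Nat.card (C.Cu u) = p := by
  refine card_between (L := C.Cu u) (fun x hx => hx.1) ?_ ?_
  · intro hbot
    apply C.no_invert hu.fa hu.fb
    intro x hx
    have h3 := cu_mem hn hu hx
    rw [hbot, Subgroup.mem_bot] at h3
    exact (inv_eq_of_mul_eq_one_right h3).symm
  · by_contra hcon
    push_neg at hcon
    apply hu.ne
    apply C.cent_one hu.fa hu.fb
    intro x hx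
    exact (hcon x hx).2

include hn in
theorem card_Iu {u : G} (hu : C.IsI u) : Nat.card (C.Iu u) = p := by
  refine card_between (L := C.Iu u) (fun x hx => hx.1) ?_ ?_
  · intro hbot
    apply hu.ne
    apply C.cent_one hu.fa hu.fb
    intro x hx
    have h3 := iu_mem hn hu hx
    rw [hbot, Subgroup.mem_bot] at h3
    have h4 := mul_inv_eq_one.mp h3
    exact h4.symm
  · by_contra hcon
    push_neg at hcon
    exact C.no_invert hu.fa hu.fb (fun x hx => (hcon x hx).2)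

include hn in
theorem P0_inv {u : G} (h1 : u • C.a = C.a) (h2 : u • C.b = C.b) {y : G} (hy : y ∈ C.P0) : u * y * u⁻¹ ∈ C.P0 := by
  refine C.mem_P0 (hn h1 (C.P0_P hy)) ?_
  have h3 := C.B_act h1 (C.P0_B hy)
  rw [h2] at h3
  have : (u * y * u⁻¹) • C.b = u • y • C.b := by
    rw [mul_smul, mul_smul]
    congr 2
    rw [inv_smul_eq_iff]
    exact h2.symm
  rw [this]
  exact h3

theorem P0_ne_one : ∃ y ∈ C.P0, y ≠ 1 := by
  have h3 : C.P0 ≠ ⊥ := by
    intro h
    have h4 := C.P0_card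
    rw [h, Subgroup.card_bot] at h4
    have := C.p2
    omega
  obtain ⟨⟨y, hy⟩, hy1⟩ := (Subgroup.ne_bot_iff_exists_ne_one).mp h3
  exact ⟨y, hy, fun h => hy1 (Subtype.ext h)⟩

theorem P0_le_of_mem {L : Subgroup G} {y : G} (hy : y ∈ C.P0) (hyL : y ∈ L) (hy1 : y ≠ 1) : C.P0 ≤ L := by
  have hd : Nat.card ↥(C.P0 ⊓ L) ∣ Nat.card C.P0 := Subgroup.card_dvd_of_le inf_le_left
  rw [C.P0_card] at hd
  rcases (Nat.dvd_prime C.hp).mp hd with h3 | h3
  · exfalso
    have h4 := Subgroup.card_eq_one.mp h3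
    have h5 : y ∈ C.P0 ⊓ L := ⟨hy, hyL⟩
    rw [h4, Subgroup.mem_bot] at h5
    exact hy1 h5
  · have h4 : C.P0 ⊓ L = C.P0 := by
      apply Subgroup.eq_of_le_of_card_ge inf_le_left
      rw [h3, C.P0_card]
    exact inf_eq_left.mp h4

/-- The action on `P₀` and on `P / P₀`. -/
def Act (C : Ctx G Ω p) (g : G) (ε δ : ℤ) : Prop :=
  (∀ y ∈ C.P0, g * y * g⁻¹ = y ^ ε) ∧ (∀ x ∈ C.P, (g * x * g⁻¹) * (x ^ δ)⁻¹ ∈ C.P0)

include hn in
theorem act_of_inv (hodd : p ≠ 2) {u : G} (hu : C.IsI u) : C.Act u 1 (-1) ∨ C.Act u (-1) 1 := by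
  obtain ⟨k, hk⟩ := C.half_exists hodd
  obtain ⟨y₀, hy₀, hy₀1⟩ := P0_ne_one (C := C)
  set r := y₀ ^ k with hr
  have hr0 : r ∈ C.P0 := C.P0.pow_mem hy₀ k
  have hr2 : r * r = y₀ := C.P_sq_root hk (C.P0_P hy₀)
  have hrP : r ∈ C.P := C.P0_P hr0
  have hσ : u * r * u⁻¹ ∈ C.P0 := P0_inv hn hu.fa hu.fb hr0
  have hσP : u * r * u⁻¹ ∈ C.P := C.P0_P hσ
  have hprod : (r * (u * r * u⁻¹)) * (r * (u * r * u⁻¹)⁻¹) = y₀ := by
    have h3 : r * (u * r * u⁻¹) * (r * (u * r * u⁻¹)⁻¹) = (r * r) * ((u * r * u⁻¹) * (u * r * u⁻¹)⁻¹) := by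
      rw [mul_assoc r (u * r * u⁻¹), ← mul_assoc (u * r * u⁻¹) r, C.P_comm hσP hrP]
      simp [mul_assoc]
    rw [h3, hr2]
    simp
  by_cases hc : r * (u * r * u⁻¹) = 1
  · -- the inverted case
    right
    have hi : r * (u * r * u⁻¹)⁻¹ ≠ 1 := by
      intro h
      rw [hc, h] at hprod
      exact hy₀1 (by simpa using hprod.symm)
    have hle : C.P0 ≤ C.Iu u :=
      P0_le_of_mem (C.P0.mul_mem hr0 (C.P0.inv_mem hσ)) (iu_mem hn hu hrP) hi
    have heq : C.P0 = C.Iu u := by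
      apply Subgroup.eq_of_le_of_card_ge hle
      rw [card_Iu hn hu, C.P0_card]
    constructor
    · intro y hy
      rw [zpow_neg_one]
      exact (hle hy).2
    · intro x hx
      rw [heq, zpow_one]
      have h3 := iu_mem hn hu hx
      have h4 := (C.Iu u).inv_mem h3
      have h5 : (x * (u * x * u⁻¹)⁻¹)⁻¹ = (u * x * u⁻¹) * x⁻¹ := by group
      rwa [h5] at h4
  · -- the centralised case
    left
    have hle : C.P0 ≤ C.Cu u :=
      P0_le_of_mem (C.P0.mul_mem hr0 hσ) (cu_mem hn hu hrP) hc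
    have heq : C.P0 = C.Cu u := by
      apply Subgroup.eq_of_le_of_card_ge hle
      rw [card_Cu hn hu, C.P0_card]
    constructor
    · intro y hy
      rw [zpow_one]
      exact (hle hy).2
    · intro x hx
      rw [heq, zpow_neg_one, inv_inv, C.P_comm (hn hu.fa hx) hx]
      exact cu_mem hn hu hx

/-- Composition. -/
theorem Act.comp (hn' : ∀ {y : G}, y ∈ C.P0 → ∀ {g : G}, g • C.a = C.a → g • C.b = C.b → g * y * g⁻¹ ∈ C.P0)
    {g g' : G} (h1 : g • C.a = C.a) (h2 : g • C.b = C.b) {ε δ ε' δ' : ℤ}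
    (hA : C.Act g ε δ) (hA' : C.Act g' ε' δ') : C.Act (g * g') (ε * ε') (δ * δ') := by
  constructor
  · intro y hy
    have : g * g' * y * (g * g')⁻¹ = g * (g' * y * g'⁻¹) * g⁻¹ := by group
    rw [this, hA'.1 y hy, ← conj_zpow, hA.1 y hy, zpow_mul]
  · intro x hx
    have e : g * g' * x * (g * g')⁻¹ = g * (g' * x * g'⁻¹) * g⁻¹ := by group
    have hy₁ := hA'.2 x hx
    set y₁ := (g' * x * g'⁻¹) * (x ^ δ')⁻¹ with hy₁e
    have e1 : g' * x * g'⁻¹ = y₁ * x ^ δ' := by
      rw [hy₁e]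
      group
    have hy₂ := hA.2 x hx
    set y₂ := (g * x * g⁻¹) * (x ^ δ)⁻¹ with hy₂e
    have e2 : g * x * g⁻¹ = y₂ * x ^ δ := by
      rw [hy₂e]
      group
    have hcomm : Commute y₂ (x ^ δ) := C.P_comm (C.P0_P hy₂) (C.P.zpow_mem hx δ)
    have e3 : g * (y₁ * x ^ δ') * g⁻¹ = (g * y₁ * g⁻¹) * (g * x * g⁻¹) ^ δ' := by
      rw [conj_zpow]
      group
    rw [e, e1, e3, e2, hcomm.mul_zpow, ← zpow_mul]
    have e4 : g * y₁ * g⁻¹ * (y₂ ^ δ' * x ^ (δ * δ')) * (x ^ (δ * δ'))⁻¹ = g * y₁ * g⁻¹ * y₂ ^ δ' := by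
      group
    rw [e4]
    exact C.P0.mul_mem (hn' hy₁ h1 h2) (C.P0.zpow_mem hy₂ δ')

/-- Unipotent elements are trivial. -/
theorem act_one {t : G} (h1 : t • C.a = C.a) (h2 : t • C.b = C.b) (hA : C.Act t 1 1) : t = 1 := by
  have hpow : t ^ p = 1 := by
    apply C.cent_one (smul_pow_fix h1 p) (smul_pow_fix h2 p)
    intro x hx
    have hy := hA.2 x hx
    rw [zpow_one] at hy
    set w := t * x * t⁻¹ * x⁻¹ with hw
    have ht : ∀ n : ℕ, t ^ n * x * (t ^ n)⁻¹ = w ^ n * x := by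
      intro n
      induction n with
      | zero => simp
      | succ n ih =>
        have e1 : t * w * t⁻¹ = w := by
          have := hA.1 w hy
          rwa [zpow_one] at this
        have e2 : t ^ (n + 1) * x * (t ^ (n + 1))⁻¹ = t * (t ^ n * x * (t ^ n)⁻¹) * t⁻¹ := by
          rw [pow_succ']
          group
        rw [e2, ih]
        have e3 : t * (w ^ n * x) * t⁻¹ = (t * w * t⁻¹) ^ n * (t * x * t⁻¹) := by
          rw [conj_pow]
          group
        rw [e3, e1]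
        have e4 : t * x * t⁻¹ = w * x := by
          rw [hw]
          group
        rw [e4, ← mul_assoc, ← pow_succ]
    rw [ht p, C.P0_pow hy, one_mul]
  exact C.H_eq_one h1 h2 (n := 1) (by simpa using hpow)

include hn in
/-- The unique involution. -/
theorem inv_unique (hodd : p ≠ 2) {u v : G} (hu : C.IsI u) (hv : C.IsI v) : u = v := by
  have hn' : ∀ {y : G}, y ∈ C.P0 → ∀ {g : G}, g • C.a = C.a → g • C.b = C.b → g * y * g⁻¹ ∈ C.P0 :=
    fun hy _ h1 h2 => P0_inv hn h1 h2 hy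
  obtain ⟨k, hk⟩ := C.half_exists hodd
  have hta : (u * v) • C.a = C.a := by rw [mul_smul, hv.fa, hu.fa]
  have htb : (u * v) • C.b = C.b := by rw [mul_smul, hv.fb, hu.fb]
  have hsame : ∀ {ε δ : ℤ}, ε * ε = 1 → δ * δ = 1 → C.Act u ε δ → C.Act v ε δ → u = v := by
    intro ε δ he hd h3 h4
    have h5 := Act.comp hn' hu.fa hu.fb h3 h4
    rw [he, hd] at h5
    have h6 := act_one hta htb h5
    have h7 : u = v⁻¹ := eq_inv_of_mul_eq_one_left h6
    rw [h7, hv.inv_eq]
  have hmixed : ∀ {ε δ : ℤ}, C.Act (u * v) (-1) (-1) → False := by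
    intro ε δ hA
    have hA2 := Act.comp hn' hta htb hA hA
    have hsq : (u * v) * (u * v) = 1 := by
      apply act_one _ _ (by simpa using hA2)
      · rw [mul_smul, hta, hta]
      · rw [mul_smul, htb, htb]
    obtain ⟨y₀, hy₀, hy₀1⟩ := P0_ne_one (C := C)
    have hne : u * v ≠ 1 := by
      intro h
      have h3 := hA.1 y₀ hy₀
      rw [h] at h3
      simp only [one_mul, inv_one, mul_one, zpow_neg_one] at h3
      apply hy₀1
      apply C.P_sq_one hk (C.P0_P hy₀)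
      nth_rw 1 [h3]
      simp
    have hI : C.IsI (u * v) := ⟨hta, htb, hsq, hne⟩
    rcases act_of_inv hn hodd hI with h3 | h3
    · have h4 := h3.1 y₀ hy₀
      have h5 := hA.1 y₀ hy₀
      rw [h4] at h5
      simp only [zpow_one, zpow_neg_one] at h5
      apply hy₀1
      apply C.P_sq_one hk (C.P0_P hy₀)
      nth_rw 1 [h5]
      simp
    · -- then `x ^ 2 ∈ P₀`, so `P ≤ P₀`
      have hle : C.P ≤ C.P0 := by
        intro x hx
        have hr : x ^ k ∈ C.P := C.P.pow_mem hx k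
        have h4 := h3.2 _ hr
        have h5 := hA.2 _ hr
        simp only [zpow_one, zpow_neg_one, inv_inv] at h4 h5
        have h6 := C.P0.mul_mem (C.P0.inv_mem h4) h5
        set z := u * v * x ^ k * (u * v)⁻¹ with hz
        have e : (z * (x ^ k)⁻¹)⁻¹ * (z * x ^ k) = x ^ k * x ^ k := by
          group
        rw [e, C.P_sq_root hk hx] at h6
        exact h6
      have h4 : Nat.card C.P ≤ Nat.card C.P0 := Subgroup.card_le_of_le hle
      rw [C.P_card, C.P0_card] at h4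
      have := C.p2
      nlinarith
  rcases act_of_inv hn hodd hu with h3 | h3 <;> rcases act_of_inv hn hodd hv with h4 | h4
  · exact hsame (by norm_num) (by norm_num) h3 h4
  · exfalso
    have h5 := Act.comp hn' hu.fa hu.fb h3 h4
    simp only [mul_neg, mul_one, neg_mul, one_mul] at h5
    exact hmixed (ε := 0) (δ := 0) h5
  · exfalso
    have h5 := Act.comp hn' hu.fa hu.fb h3 h4
    simp only [mul_neg, mul_one, neg_mul, one_mul] at h5
    exact hmixed (ε := 0) (δ := 0) h5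
  · exact hsame (by norm_num) (by norm_num) h3 h4

include hn in
/-- The number of fixed points of an involution. -/
theorem card_fix {u : G} (hu : C.IsI u) : (Finset.univ.filter (fun c : Ω => u • c = c)).card = p + 1 := by
  haveI : Fintype (C.Cu u) := Fintype.ofFinite _
  have hset : Finset.univ.filter (fun c : Ω => u • c = c) =
      insert C.a ((Finset.univ : Finset (C.Cu u)).image (fun x => x.1 • C.b)) := by
    ext c
    simp only [Finset.mem_filter, Finset.mem_univ, true_and, Finset.mem_insert, Finset.mem_image]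
    constructor
    · intro h
      by_cases hca : c = C.a
      · exact Or.inl hca
      right
      obtain ⟨x, hx, rfl⟩ := C.P_tr hca
      refine ⟨⟨x, hx, ?_⟩, rfl⟩
      apply C.P_uniq (hn hu.fa hx) hx C.hba
      have : (u * x * u⁻¹) • C.b = u • x • C.b := by
        rw [mul_smul, mul_smul]
        congr 2
        rw [inv_smul_eq_iff]
        exact hu.fb.symm
      rw [this, h]
    · rintro (rfl | ⟨⟨x, hx, hx2⟩, rfl⟩)
      · exact hu.fa
      · have : (u * x * u⁻¹) • C.b = u • x • C.b := by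
          rw [mul_smul, mul_smul]
          congr 2
          rw [inv_smul_eq_iff]
          exact hu.fb.symm
        rw [← this]
        show (u * x * u⁻¹) • C.b = x • C.b
        rw [hx2]
  rw [hset, Finset.card_insert_of_notMem, Finset.card_image_of_injective, Finset.card_univ,
    ← Nat.card_eq_fintype_card, card_Cu hn hu]
  · rintro ⟨x, hx⟩ ⟨y, hy⟩ h
    apply Subtype.ext
    exact C.P_uniq hx.1 hy.1 C.hba h
  · intro h
    obtain ⟨x, _, hx⟩ := Finset.mem_image.mp h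
    exact C.ne_a (C.P_fix x.2.1) C.hba hx

/-- Transport to all pairs. -/
theorem exists_conj {x y : Ω} (hxy : x ≠ y) : ∃ g : G, g • C.a = x ∧ g • C.b = y := C.h2 C.hab hxy

/-- Conjugates of involutions. -/
theorem isI_conj {x y : Ω} {g w : G} (hg1 : g • C.a = x) (hg2 : g • C.b = y) (h1 : w • x = x) (h2 : w • y = y)
    (h3 : w * w = 1) (h4 : w ≠ 1) : C.IsI (g⁻¹ * w * g) := by
  constructor
  · rw [mul_smul, mul_smul, hg1, h1, ← hg1, inv_smul_smul]
  · rw [mul_smul, mul_smul, hg2, h2, ← hg2, inv_smul_smul]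
  · have : g⁻¹ * w * g * (g⁻¹ * w * g) = g⁻¹ * (w * w) * g := by group
    rw [this, h3]
    group
  · intro h
    apply h4
    have : w = g * (g⁻¹ * w * g) * g⁻¹ := by group
    rw [this, h]
    group

include hn in
/-- Step IV. -/
theorem stepIV (hodd : p ≠ 2) {u : G} (hu : C.IsI u) : False := by
  -- uniqueness for all pairs
  have huniq : ∀ {x y : Ω}, x ≠ y → ∀ {w w' : G}, w • x = x → w • y = y → w * w = 1 → w ≠ 1 →
      w' • x = x → w' • y = y → w' * w' = 1 → w' ≠ 1 → w = w' := by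
    intro x y hxy w w' h1 h2 h3 h4 h5 h6 h7 h8
    obtain ⟨g, hg1, hg2⟩ := C.exists_conj hxy
    have h9 := inv_unique hn hodd (isI_conj hg1 hg2 h1 h2 h3 h4) (isI_conj hg1 hg2 h5 h6 h7 h8)
    have h10 := congrArg (fun z => g * z * g⁻¹) h9
    simpa [mul_assoc] using h10
  have hex : ∀ {x y : Ω}, x ≠ y → ∃ w : G, w • x = x ∧ w • y = y ∧ w * w = 1 ∧ w ≠ 1 := by
    intro x y hxy
    obtain ⟨g, hg1, hg2⟩ := C.exists_conj hxy
    refine ⟨g * u * g⁻¹, ?_, ?_, ?_, ?_⟩
    · rw [mul_smul, mul_smul, ← hg1, inv_smul_smul, hu.fa]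
    · rw [mul_smul, mul_smul, ← hg2, inv_smul_smul, hu.fb]
    · have : g * u * g⁻¹ * (g * u * g⁻¹) = g * (u * u) * g⁻¹ := by group
      rw [this, hu.sq]
      group
    · intro h
      apply hu.ne
      have : u = g⁻¹ * (g * u * g⁻¹) * g := by group
      rw [this, h]
      group
  have hcard : ∀ {x y : Ω}, x ≠ y → ∀ {w : G}, w • x = x → w • y = y → w * w = 1 → w ≠ 1 →
      (Finset.univ.filter (fun c : Ω => w • c = c)).card = p + 1 := by
    intro x y hxy w h1 h2 h3 h4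
    obtain ⟨g, hg1, hg2⟩ := C.exists_conj hxy
    have h5 := card_fix hn (isI_conj hg1 hg2 h1 h2 h3 h4)
    rw [← h5]
    refine Finset.card_nbij' (fun c => g⁻¹ • c) (fun c => g • c) ?_ ?_ ?_ ?_
    · intro c hc
      simp only [Finset.coe_filter, Finset.mem_univ, true_and, Set.mem_setOf_eq] at hc ⊢
      rw [mul_smul, mul_smul, smul_inv_smul, hc]
    · intro c hc
      simp only [Finset.coe_filter, Finset.mem_univ, true_and, Set.mem_setOf_eq] at hc ⊢
      have := congrArg (fun z => g • z) hc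
      simpa [mul_smul] using this
    · intro c _
      simp
    · intro c _
      simp
  let ℓ : Ω → Ω → Finset Ω := fun x y => Finset.univ.filter
    (fun c => ∀ w : G, w • x = x → w • y = y → w * w = 1 → w ≠ 1 → w • c = c)
  have hℓ : ∀ {x y : Ω}, x ≠ y → ∀ {w : G}, w • x = x → w • y = y → w * w = 1 → w ≠ 1 →
      ℓ x y = Finset.univ.filter (fun c : Ω => w • c = c) := by
    intro x y hxy w h1 h2 h3 h4
    ext c
    simp only [ℓ, Finset.mem_filter, Finset.mem_univ, true_and]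
    constructor
    · intro h
      exact h w h1 h2 h3 h4
    · intro h w' h5 h6 h7 h8
      rw [huniq hxy h5 h6 h7 h8 h1 h2 h3 h4]
      exact h
  refine no_linear_space C.p2 C.hΩ ℓ ?_ ?_ ?_
  · intro x y hxy
    constructor
    · simp only [ℓ, Finset.mem_filter, Finset.mem_univ, true_and]
      intro w h1 _ _ _
      exact h1
    · simp only [ℓ, Finset.mem_filter, Finset.mem_univ, true_and]
      intro w _ h2 _ _
      exact h2
  · intro x y hxy
    obtain ⟨w, h1, h2, h3, h4⟩ := hex hxy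
    rw [hℓ hxy h1 h2 h3 h4]
    exact hcard hxy h1 h2 h3 h4
  · intro x y c d hxy hc hd hcd
    obtain ⟨w, h1, h2, h3, h4⟩ := hex hxy
    have h5 := hℓ hxy h1 h2 h3 h4
    rw [h5] at hc hd
    simp only [Finset.mem_filter, Finset.mem_univ, true_and] at hc hd
    rw [h5, hℓ hcd hc hd h3 h4]

end StepIV

end Cfsg.Agent.Lib.Deg2p.Setup.Ctx
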