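/-
Degree `p ^ 2 + 1`: if the group on the blocks is doubly transitive, the regular subgroup is
normal in the point stabiliser.
-/
import Cfsg.Agent.Lib.Deg2p.StepIV

set_option autoImplicit false
set_option linter.unusedSectionVars false
set_option linter.style.haveILetI false
set_option linter.unusedVariables false

namespace Cfsg.Agent.Lib.Deg2p.Setup.Ctx

open MulAction Finset Cfsg.Agent.Lib.Deg2p.Basic Cfsg.Agent.Lib.Deg2p.Reg Cfsg.Agent.Lib.Deg2p.Wit
open scoped Classical Pointwise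

variable {G Ω : Type*} [Group G] [Finite G] [Fintype Ω] [MulAction G Ω] [FaithfulSMul G Ω] {p : ℕ}
variable (C : Ctx G Ω p)

/-- The points of the class of `a` at `b`, other than `a`. -/
def Tt (d : Ω) : Prop := C.S.R C.b C.a d ∧ d ≠ C.a

/-- A total version of the map to blocks. -/
noncomputable def blkOf (c : Ω) : C.Blk := if h : c ≠ C.a then C.blk ⟨c, h⟩ else C.blk ⟨C.b, C.hba⟩

theorem blkOf_eq {c d : Ω} (hc : c ≠ C.a) (hd : d ≠ C.a) : C.blkOf c = C.blkOf d ↔ C.B c d := by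
  rw [blkOf, blkOf, dif_pos hc, dif_pos hd, blk_eq]

/-- The inverse-closed case is impossible. -/
theorem no_inv_closed (h : ∀ z ∈ C.P, C.S.R C.b C.a (z • C.b) → C.S.R C.b C.a (z⁻¹ • C.b)) : False := by
  refine C.S.no_sym_at C.p2 C.hΩ C.h2 C.a ?_
  intro c d hR hd
  have hc : c ≠ C.a := Ne.symm (C.S.ne hR)
  obtain ⟨x, hx, rfl⟩ := C.P_tr hc
  obtain ⟨z, hz, rfl⟩ := C.P_move (C.ne_a (C.P_fix hx) C.hba) hd
  have h3 : C.S.R C.b C.a (z • C.b) := by
    have h4 := C.S.inv x⁻¹ hR
    have e : x⁻¹ * z * x = z := by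
      rw [mul_assoc, C.P_comm hz hx]
      group
    have e2 : x⁻¹ • z • x • C.b = z • C.b := by
      rw [← mul_smul, ← mul_smul, e]
    rw [C.inv_fix (C.P_fix hx), inv_smul_smul, e2] at h4
    exact h4
  have h4 := h z hz h3
  have h5 := C.S.inv (z * x) h4
  have e3 : (z * x) • z⁻¹ • C.b = x • C.b := by
    rw [← mul_smul, C.P_comm hz hx]
    congr 1
    group
  rw [C.P_fix (C.P.mul_mem hz hx), e3, mul_smul] at h5
  exact h5

section StepI

variable (hHtr : ∀ c d, c ≠ C.a → d ≠ C.a → ¬ C.B C.b c → ¬ C.B C.b d →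
      ∃ h : G, h • C.a = C.a ∧ h • C.b = C.b ∧ C.B (h • c) d)

theorem exists_out : ∃ d, C.Tt d ∧ ¬ C.B C.b d := by
  by_contra hcon
  push_neg at hcon
  exact C.S.no_pair C.p2 C.hΩ C.h2 C.hab (fun c hc hca => hcon c ⟨hc, hca⟩)

theorem Tt_act {h : G} (h1 : h • C.a = C.a) (h2 : h • C.b = C.b) {d : Ω} (hd : C.Tt d) : C.Tt (h • d) := by
  constructor
  · have := C.S.inv h hd.1
    rwa [h1, h2] at this
  · exact C.ne_a h1 hd.2

include hHtr in
theorem Tt_hits {e : Ω} (he : e ≠ C.a) (hbe : ¬ C.B C.b e) : ∃ d, C.Tt d ∧ C.B e d := by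
  obtain ⟨d₀, hd₀, hd₀b⟩ := C.exists_out
  obtain ⟨h, h1, h2, h3⟩ := hHtr d₀ e hd₀.2 he hd₀b hbe
  exact ⟨h • d₀, C.Tt_act h1 h2 hd₀, C.B_symm h3⟩

/-- The finite set of the points of `Tt`. -/
noncomputable def Ts : Finset Ω := (C.S.cls C.b C.a).erase C.a

theorem mem_Ts {d : Ω} : d ∈ C.Ts ↔ C.Tt d := by
  rw [Ts, Finset.mem_erase, C.S.mem_cls, Tt, and_comm]

theorem card_Ts : C.Ts.card = p - 1 := by
  have ha : C.a ∈ C.S.cls C.b C.a := C.S.mem_cls.mpr (C.S.refl C.hab)
  rw [Ts, Finset.card_erase_of_mem ha, Sys.cls, C.S.card C.hab]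

include hHtr in
/-- `Tt` is a transversal of the blocks other than that of `b`. -/
theorem transversal : (∀ d, C.Tt d → ¬ C.B C.b d) ∧ (∀ d d', C.Tt d → C.Tt d' → C.B d d' → d = d') := by
  have hb' : C.blkOf C.b = C.blk ⟨C.b, C.hba⟩ := by
    rw [blkOf, dif_pos C.hba]
  have hsub : (Finset.univ : Finset C.Blk).erase (C.blkOf C.b) ⊆ C.Ts.image C.blkOf := by
    intro β hβ
    have hβ2 := (Finset.mem_erase.mp hβ).1
    obtain ⟨⟨e, he⟩, rfl⟩ := C.blk_surj β
    have hbe : ¬ C.B C.b e := by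
      intro h
      apply hβ2
      rw [hb']
      exact C.blk_eq.mpr (C.B_symm h)
    obtain ⟨d, hd, hed⟩ := C.Tt_hits hHtr he hbe
    refine Finset.mem_image.mpr ⟨d, C.mem_Ts.mpr hd, ?_⟩
    rw [blkOf, dif_pos hd.2]
    exact C.blk_eq.mpr (C.B_symm hed)
  have hcardE : ((Finset.univ : Finset C.Blk).erase (C.blkOf C.b)).card = p - 1 := by
    rw [Finset.card_erase_of_mem (Finset.mem_univ _), Finset.card_univ, C.card_Blk]
  have hle : (C.Ts.image C.blkOf).card ≤ ((Finset.univ : Finset C.Blk).erase (C.blkOf C.b)).card := by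
    rw [hcardE, ← C.card_Ts]
    exact Finset.card_image_le
  have heq := Finset.eq_of_subset_of_card_le hsub hle
  have hinj : Set.InjOn C.blkOf (C.Ts : Set Ω) := by
    apply Finset.card_image_iff.mp
    apply le_antisymm Finset.card_image_le
    rw [← heq, hcardE] at *
    rw [C.card_Ts]
  constructor
  · intro d hd hbd
    have h3 : C.blkOf d ∈ (Finset.univ : Finset C.Blk).erase (C.blkOf C.b) := by
      rw [heq]
      exact Finset.mem_image_of_mem _ (C.mem_Ts.mpr hd)
    apply (Finset.mem_erase.mp h3).1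
    exact (C.blkOf_eq hd.2 C.hba).mpr (C.B_symm hbd)
  · intro d d' hd hd' hB
    exact hinj (C.mem_Ts.mpr hd) (C.mem_Ts.mpr hd') ((C.blkOf_eq hd.2 hd'.2).mpr hB)

/-- The stabiliser of `b` in the kernel. -/
def Ab : Subgroup G := C.K ⊓ stabilizer G C.b

include hHtr in
theorem Ab_fix_Tt {k : G} (hk : k ∈ C.Ab) {d : Ω} (hd : C.Tt d) : k • d = d := by
  have hka := C.K_fix hk.1
  have hkb : k • C.b = C.b := hk.2
  have h3 := C.Tt_act hka hkb hd
  exact ((C.transversal hHtr).2 _ _ hd h3 (C.K_B hk.1 hd.2)).symm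

include hHtr in
theorem Tt_norm {z : G} (hz : z ∈ C.P) (hzb : C.Tt (z • C.b)) : z ∈ Subgroup.normalizer (C.Ab : Set G) := by
  have h3 : z⁻¹ ∈ Subgroup.normalizer (C.Ab : Set G) := by
    apply mem_normalizer_of_conj_le
    intro k hk
    have hk2 := C.Ab_fix_Tt hHtr hk hzb
    refine ⟨?_, ?_⟩
    · have := C.K_conj (C.inv_fix (C.P_fix hz)) hk.1
      exact this
    · show z⁻¹ * k * z⁻¹⁻¹ ∈ stabilizer G C.b
      rw [mem_stabilizer_iff, inv_inv, mul_smul, mul_smul, hk2, inv_smul_smul]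
  simpa using Subgroup.inv_mem _ h3

include hHtr in
/-- The kernel acts semiregularly: `A_b = 1`. -/
theorem Ab_bot {k : G} (hk : k ∈ C.K) (hkb : k • C.b = C.b) : k = 1 := by
  let Z : Subgroup G := C.P ⊓ Subgroup.normalizer (C.Ab : Set G)
  have hZP : Z ≤ C.P := inf_le_left
  have hZT : ∀ z ∈ C.P, C.Tt (z • C.b) → z ∈ Z := fun z hz hzb => ⟨hz, C.Tt_norm hHtr hz hzb⟩
  haveI : Fintype Z := Fintype.ofFinite _
  -- the map to the points
  let f : Z → Ω := fun z => z.1 • C.b
  have hfinj : Function.Injective f := by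
    intro z z' h
    exact Subtype.ext (C.P_uniq (hZP z.2) (hZP z'.2) C.hba h)
  let S' : Finset Ω := insert C.b C.Ts
  have hbTs : C.b ∉ C.Ts := by
    intro h
    exact C.S.ne' (C.mem_Ts.mp h).1 rfl
  have hS' : S'.card = p := by
    have := C.p2
    rw [Finset.card_insert_of_notMem hbTs, C.card_Ts]
    omega
  have hsub : S' ⊆ (Finset.univ : Finset Z).image f := by
    intro d hd
    rcases Finset.mem_insert.mp hd with rfl | hd'
    · exact Finset.mem_image.mpr ⟨1, Finset.mem_univ _, by simp [f]⟩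
    · have hT := C.mem_Ts.mp hd'
      obtain ⟨z, hz, rfl⟩ := C.P_tr hT.2
      exact Finset.mem_image.mpr ⟨⟨z, hZT z hz hT⟩, Finset.mem_univ _, rfl⟩
  have hcardZ : p ≤ Nat.card Z := by
    have h3 := Finset.card_le_card hsub
    rw [hS', Finset.card_image_of_injective _ hfinj, Finset.card_univ] at h3
    rwa [Nat.card_eq_fintype_card]
  have hdvd : Nat.card Z ∣ Nat.card C.P := Subgroup.card_dvd_of_le hZP
  rw [C.P_card] at hdvd
  obtain ⟨i, hi, hi2⟩ := (Nat.dvd_prime_pow C.hp).mp hdvd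
  have hp2 := C.p2
  interval_cases i
  · rw [pow_zero] at hi2
    omega
  · -- the inverse-closed case
    exfalso
    rw [pow_one] at hi2
    have heq : (Finset.univ : Finset Z).image f = S' := by
      symm
      apply Finset.eq_of_subset_of_card_le hsub
      rw [Finset.card_image_of_injective _ hfinj, Finset.card_univ, hS', ← Nat.card_eq_fintype_card, hi2]
    apply C.no_inv_closed
    intro z hz hzb
    have hzT : C.Tt (z • C.b) := ⟨hzb, C.ne_a (C.P_fix hz) C.hba⟩
    have hzZ := hZT z hz hzT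
    have hiZ : z⁻¹ ∈ Z := Z.inv_mem hzZ
    have h3 : f ⟨z⁻¹, hiZ⟩ ∈ S' := by
      rw [← heq]
      exact Finset.mem_image_of_mem _ (Finset.mem_univ _)
    rcases Finset.mem_insert.mp h3 with h4 | h4
    · exfalso
      have h5 : z • C.b = C.b := by
        have h6 : z⁻¹ • C.b = C.b := h4
        rw [inv_smul_eq_iff] at h6
        exact h6.symm
      rw [h5] at hzb
      exact C.S.ne' hzb rfl
    · exact (C.mem_Ts.mp h4).1
  · -- the whole group normalises
    rw [show Nat.card Z = p ^ 2 from hi2] at hcardZ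
    have hZeq : Z = C.P := by
      apply Subgroup.eq_of_le_of_card_ge hZP
      rw [hi2, C.P_card]
    apply eq_one_of_fix (Ω := Ω)
    intro c
    by_cases hca : c = C.a
    · rw [hca]
      exact C.K_fix hk
    · obtain ⟨z, hz, rfl⟩ := C.P_tr hca
      have hzi : z⁻¹ ∈ Z := by
        rw [hZeq]
        exact C.P.inv_mem hz
      have h3 : z⁻¹ * k * z⁻¹⁻¹ ∈ C.Ab :=
        (Subgroup.mem_normalizer_iff.mp hzi.2 k).mp ⟨hk, hkb⟩
      have h4 : (z⁻¹ * k * z⁻¹⁻¹) • C.b = C.b := h3.2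
      rw [inv_inv, mul_smul, mul_smul, inv_smul_eq_iff] at h4
      exact h4

include hHtr in
theorem K_le_P0 {k : G} (hk : k ∈ C.K) : k ∈ C.P0 := by
  obtain ⟨y, hy, hyb⟩ := C.P0_tr (C.K_B0 hk (C.B_refl C.hba))
  have h3 : y⁻¹ * k = 1 := by
    apply C.Ab_bot hHtr (C.K.mul_mem (C.K.inv_mem (C.P0_K hy)) hk)
    rw [mul_smul, ← hyb, inv_smul_smul]
  have : k = y := by
    have h4 := congrArg (fun v => y * v) h3
    simpa using h4
  rw [this]
  exact hy

include hHtr in
/-- The two-point stabiliser is semiregular on the block of `b`. -/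
theorem H_semireg {h : G} (h1 : h • C.a = C.a) (h2 : h • C.b = C.b) {s : Ω} (hs : C.B C.b s) (hsb : s ≠ C.b)
    (hfix : h • s = s) : h = 1 := by
  obtain ⟨y, hy, rfl⟩ := C.P0_tr hs
  have hy1 : y ≠ 1 := by
    rintro rfl
    simp at hsb
  have h3 : h * y * h⁻¹ ∈ C.P0 := C.K_le_P0 hHtr (C.K_conj h1 (C.P0_K hy))
  have h4 : h * y * h⁻¹ = y := by
    apply C.P_uniq (C.P0_P h3) (C.P0_P hy) C.hba
    rw [mul_smul, mul_smul, show h⁻¹ • C.b = C.b by rw [inv_smul_eq_iff]; exact h2.symm, hfix]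
  have hle : C.P0 ≤ Subgroup.centralizer {h} := by
    apply P0_le_of_mem hy _ hy1
    rw [Subgroup.mem_centralizer_singleton_iff]
    exact (mul_inv_eq_iff_eq_mul.mp h4).symm
  have hfixB : ∀ c, C.B C.b c → h • c = c := by
    intro c hc
    obtain ⟨y', hy', rfl⟩ := C.P0_tr hc
    have h5 : y' * h = h * y' := Subgroup.mem_centralizer_singleton_iff.mp (hle hy')
    rw [← mul_smul, ← h5, mul_smul, h2]
  obtain ⟨g, hg1, hg2⟩ := C.h2 C.hab C.hba
  have hgi1 : g⁻¹ • C.b = C.a := by rw [inv_smul_eq_iff]; exact hg1.symm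
  have hgi2 : g⁻¹ • C.a = C.b := by rw [inv_smul_eq_iff]; exact hg2.symm
  set h' := g * h * g⁻¹ with hh'
  have ha' : h' • C.a = C.a := by
    rw [hh', mul_smul, mul_smul, hgi2, h2, hg2]
  have hb' : h' • C.b = C.b := by
    rw [hh', mul_smul, mul_smul, hgi1, h1, hg1]
  have hT : ∀ d, C.Tt d → h' • d = d := by
    intro d hd
    have h5 : C.B C.b (g⁻¹ • d) := by
      have := C.S.inv g⁻¹ hd.1
      rwa [hgi1, hgi2] at this
    rw [hh', mul_smul, mul_smul, hfixB _ h5, smul_inv_smul]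
  have hK : h' ∈ C.K := by
    refine C.mem_K ha' (fun c hc => ?_)
    by_cases hbc : C.B C.b c
    · have h5 := C.B_act ha' hbc
      rw [hb'] at h5
      exact C.B_trans (C.B_symm hbc) h5
    · obtain ⟨d, hd, hcd⟩ := C.Tt_hits hHtr hc hbc
      have h5 := C.B_act ha' hcd
      rw [hT d hd] at h5
      exact C.B_trans hcd (C.B_symm h5)
  have h6 := C.Ab_bot hHtr hK hb'
  have h7 : h = g⁻¹ * h' * g := by
    rw [hh']
    group
  rw [h7, h6]
  group

include hHtr in
/-- Step I. -/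
theorem stepI {g x : G} (hg : g • C.a = C.a) (hx : x ∈ C.P) : g * x * g⁻¹ ∈ C.P := by
  have hp2 := C.p2
  haveI : Fact p.Prime := ⟨C.hp⟩
  let H : Subgroup G := stabilizer G C.a ⊓ stabilizer G C.b
  -- the bound on the order of `H`
  have hHcard : Nat.card H ≤ p - 1 := by
    obtain ⟨s, hs, hsb⟩ : ∃ s, C.B C.b s ∧ s ≠ C.b := by
      have h3 : 1 < (Finset.univ.filter (fun z => C.S.R C.a C.b z)).card := by
        rw [C.S.card C.hba]
        omega
      obtain ⟨s, hs, hsb⟩ := Finset.exists_mem_ne h3 C.b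
      exact ⟨s, (Finset.mem_filter.mp hs).2, hsb⟩
    haveI : Fintype H := Fintype.ofFinite _
    let S₁ : Finset Ω := (Finset.univ.filter (fun z => C.S.R C.a C.b z)).erase C.b
    have hS₁ : S₁.card = p - 1 := by
      rw [Finset.card_erase_of_mem, C.S.card C.hba]
      exact Finset.mem_filter.mpr ⟨Finset.mem_univ _, C.B_refl C.hba⟩
    let f : H → S₁ := fun h => ⟨h.1 • s, by
      have h1 : h.1 • C.a = C.a := h.2.1
      have h2 : h.1 • C.b = C.b := h.2.2
      refine Finset.mem_erase.mpr ⟨?_, Finset.mem_filter.mpr ⟨Finset.mem_univ _, ?_⟩⟩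
      · intro h3
        apply hsb
        rw [← h2] at h3
        exact smul_left_cancel _ h3
      · have h3 := C.B_act h1 hs
        rwa [h2] at h3⟩
    have hfinj : Function.Injective f := by
      intro h h' e
      have e' : h.1 • s = h'.1 • s := congrArg Subtype.val e
      have h3 : h'.1⁻¹ * h.1 = 1 := by
        apply C.H_semireg hHtr _ _ hs hsb
        · rw [mul_smul, e', inv_smul_smul]
        · rw [mul_smul]
          have : h.1 • C.a = C.a := h.2.1
          rw [this]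
          exact C.inv_fix h'.2.1
        · rw [mul_smul]
          have : h.1 • C.b = C.b := h.2.2
          rw [this, inv_smul_eq_iff]
          exact (h'.2.2 : h'.1 • C.b = C.b).symm
      apply Subtype.ext
      have h4 := congrArg (fun v => h'.1 * v) h3
      simpa using h4
    have h3 := Fintype.card_le_of_injective f hfinj
    rw [Fintype.card_coe, hS₁] at h3
    rwa [Nat.card_eq_fintype_card]
  have hHpos : 0 < Nat.card H := Nat.card_pos
  have hHp : Nat.card H < p := by omega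
  have hnp : ¬ p ∣ Nat.card H := fun h => absurd (Nat.le_of_dvd hHpos h) (by omega)
  -- the order of the point stabiliser
  let A := stabilizer G C.a
  have hAcard : Nat.card A = p ^ 2 * Nat.card H := by
    have h3 := card_eq_orbit_mul A C.b
    have horb : orbit A C.b = {d | d ≠ C.a} := by
      ext d
      rw [mem_orbit_sub]
      constructor
      · rintro ⟨g, hg, rfl⟩
        exact C.ne_a hg C.hba
      · intro hd
        obtain ⟨x, hx, hxb⟩ := C.P_tr hd
        exact ⟨x, C.P_fix hx, hxb⟩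
    have hcD : {d : Ω | d ≠ C.a}.ncard = p ^ 2 := by
      have : {d : Ω | d ≠ C.a} = ({C.a} : Set Ω)ᶜ := by
        ext d
        simp
      rw [this, Set.ncard_compl, Set.ncard_singleton, Nat.card_eq_fintype_card, C.hΩ]
      simp
    rw [horb, hcD] at h3
    exact h3
  -- the Sylow subgroup
  let P' : Subgroup A := C.P.subgroupOf A
  have hP'card : Nat.card P' = p ^ 2 := by
    have e : Nat.card P' = Nat.card C.P := Nat.card_congr (Subgroup.subgroupOfEquivOfLe C.P_le_stab).toEquiv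
    rw [e, C.P_card]
  have hP'g : IsPGroup p P' := by
    apply IsPGroup.of_card (n := 2)
    exact hP'card
  obtain ⟨T, hT⟩ := hP'g.exists_le_sylow
  have hTeq : P' = T.1 := by
    apply Subgroup.eq_of_le_of_card_ge hT
    rw [hP'card]
    obtain ⟨j, hj⟩ := IsPGroup.iff_card.mp T.2
    have hd : Nat.card T.1 ∣ Nat.card A := Subgroup.card_subgroup_dvd_card _
    rw [hj, hAcard] at hd
    have hco : Nat.Coprime (p ^ j) (Nat.card H) :=
      Nat.Coprime.pow_left _ ((Nat.Prime.coprime_iff_not_dvd C.hp).mpr hnp)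
    have hd2 := hco.dvd_of_dvd_mul_right hd
    rw [hj]
    exact Nat.le_of_dvd (pow_pos C.hp.pos 2) hd2
  have hindex : T.1.index = Nat.card H := by
    have h3 := Subgroup.card_mul_index T.1
    have e : Nat.card T.1 = p ^ 2 := by
      rw [← hTeq]
      exact hP'card
    rw [e, hAcard] at h3
    exact Nat.eq_of_mul_eq_mul_left (pow_pos C.hp.pos 2) h3
  have hn1 : Nat.card (Sylow p A) = 1 := by
    have h3 := T.card_dvd_index
    rw [hindex] at h3
    have h4 : Nat.card (Sylow p A) < p := lt_of_le_of_lt (Nat.le_of_dvd hHpos h3) hHp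
    have h5 := card_sylow_modEq_one p A
    have h6 : Nat.card (Sylow p A) % p = 1 % p := h5
    rw [Nat.mod_eq_of_lt h4, Nat.mod_eq_of_lt (by omega : 1 < p)] at h6
    exact h6
  have hsub : Subsingleton (Sylow p A) := (Nat.card_eq_one_iff_unique.mp hn1).1
  have hxT : (⟨x, C.P_fix hx⟩ : A) ∈ T.1 := by
    rw [← hTeq]
    exact hx
  have h3 : (⟨g, hg⟩ : A) • T = T := Subsingleton.elim _ _
  have h4 : (⟨g, hg⟩ : A) * ⟨x, C.P_fix hx⟩ * (⟨g, hg⟩ : A)⁻¹ ∈ ((⟨g, hg⟩ : A) • T).1 := by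
    rw [Sylow.coe_subgroup_smul]
    exact Subgroup.mem_map_of_mem _ hxT
  rw [h3, ← hTeq] at h4
  exact h4

end StepI

end Cfsg.Agent.Lib.Deg2p.Setup.Ctx
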