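/-
Degree `p ^ 2 + 1`: the group on the blocks is affine, and the kernel is doubly transitive on a block:
this is impossible.
-/
import Cfsg.Agent.Lib.Deg2p.StepI

set_option autoImplicit false
set_option linter.unusedSectionVars false
set_option linter.style.haveILetI false
set_option linter.unusedVariables false

namespace Cfsg.Agent.Lib.Deg2p.Setup.Ctx

open MulAction Finset Cfsg.Agent.Lib.Deg2p.Basic Cfsg.Agent.Lib.Deg2p.Reg Cfsg.Agent.Lib.Deg2p.Wit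
open scoped Classical Pointwise

/-- An involution normalising a regular cyclic group of prime degree and fixing a point inverts it. -/
theorem invert_abs {B : Type*} [Fintype B] {p : ℕ} (hp : p.Prime) (hα : Fintype.card B = p)
    (N : Subgroup (Equiv.Perm B)) (hNcomm : ∀ m ∈ N, ∀ n ∈ N, m * n = n * m)
    (hNt : ∀ β β', ∃ n ∈ N, n β = β') (τ : Equiv.Perm B) (hτ : τ ≠ 1) (hτ2 : τ * τ = 1) (β₀ : B)
    (hβ : τ β₀ = β₀) (hτN : ∀ n ∈ N, τ * n * τ⁻¹ ∈ N) {n : Equiv.Perm B} (hn : n ∈ N) :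
    τ * n * τ⁻¹ = n⁻¹ := by
  -- `N` has order `p`
  have hcard : Nat.card N = p := by
    rw [← hα, ← Nat.card_eq_fintype_card]
    apply Nat.card_congr
    refine Equiv.ofBijective (fun m : N => m.1 β₀) ⟨?_, ?_⟩
    · intro m m' h
      have h' : m.1 β₀ = m'.1 β₀ := h
      apply Subtype.ext
      ext β
      obtain ⟨z, hz, rfl⟩ := hNt β₀ β
      have e1 : m.1 (z β₀) = (m.1 * z) β₀ := rfl
      have e2 : m'.1 (z β₀) = (m'.1 * z) β₀ := rfl
      rw [e1, e2, hNcomm _ m.2 _ hz, hNcomm _ m'.2 _ hz, Equiv.Perm.mul_apply, Equiv.Perm.mul_apply, h']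
    · intro β
      obtain ⟨z, hz, rfl⟩ := hNt β₀ β
      exact ⟨⟨z, hz⟩, rfl⟩
  set n' := τ * n * τ⁻¹ with hn'
  have hn'N : n' ∈ N := hτN n hn
  set w := n * n' with hw
  have hτi : τ⁻¹ = τ := inv_eq_of_mul_eq_one_left hτ2
  have hwcomm : τ * w = w * τ := by
    have e : τ * n' = n * τ := by
      rw [hn', hτi]
      have : τ * (τ * n * τ) = (τ * τ) * n * τ := by group
      rw [this, hτ2, one_mul]
    have e2 : n' * τ = τ * n := by
      rw [hn']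
      group
    rw [hw]
    calc τ * (n * n') = (τ * n) * n' := by group
      _ = (n' * τ) * n' := by rw [e2]
      _ = n' * (τ * n') := by group
      _ = n' * (n * τ) := by rw [e]
      _ = (n' * n) * τ := by group
      _ = (n * n') * τ := by rw [hNcomm _ hn'N _ hn]
  by_cases hw1 : w = 1
  · exact eq_inv_of_mul_eq_one_right hw1
  · exfalso
    apply hτ
    have hwN : w ∈ N := N.mul_mem hn hn'N
    have hd : Nat.card ↥(N ⊓ Subgroup.centralizer {τ}) ∣ Nat.card N := Subgroup.card_dvd_of_le inf_le_left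
    rw [hcard] at hd
    have hwm : w ∈ N ⊓ Subgroup.centralizer {τ} :=
      ⟨hwN, Subgroup.mem_centralizer_singleton_iff.mpr hwcomm.symm⟩
    have hL : N ⊓ Subgroup.centralizer {τ} = N := by
      rcases (Nat.dvd_prime hp).mp hd with h3 | h3
      · exfalso
        have h4 := Subgroup.card_eq_one.mp h3
        rw [h4, Subgroup.mem_bot] at hwm
        exact hw1 hwm
      · apply Subgroup.eq_of_le_of_card_ge inf_le_left
        rw [h3, hcard]
    ext β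
    obtain ⟨z, hz, rfl⟩ := hNt β₀ β
    have hzc : z ∈ N ⊓ Subgroup.centralizer {τ} := by
      rw [hL]
      exact hz
    have h3 : z * τ = τ * z := Subgroup.mem_centralizer_singleton_iff.mp hzc.2
    have e1 : τ (z β₀) = (τ * z) β₀ := rfl
    rw [e1, ← h3, Equiv.Perm.mul_apply, hβ]
    rfl

variable {G Ω : Type*} [Group G] [Finite G] [Fintype Ω] [MulAction G Ω] [FaithfulSMul G Ω] {p : ℕ}
variable (C : Ctx G Ω p)

section StepIII

variable (hAffG : ∀ g : G, g • C.a = C.a → ∀ x ∈ C.P, ∃ x' ∈ C.P, ∀ c, c ≠ C.a → C.B ((g * x * g⁻¹) • c) (x' • c))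
variable (hK2 : ∀ c d c' d', C.B C.b c → C.B C.b d → C.B C.b c' → C.B C.b d' → c ≠ d → c' ≠ d' →
      ∃ k ∈ C.K, k • c = c' ∧ k • d = d')
variable {h : G} (hh1 : h • C.a = C.a) (hh2 : h • C.b = C.b) (hh3 : h ∉ C.K) (hh4 : h * h ∈ C.K)

include hAffG hh1 hh2 hh3 hh4 in
/-- `h` acts on the blocks by inversion. -/
theorem h_inverts {x : G} (hx : x ∈ C.P) {c : Ω} (hc : c ≠ C.a) : C.B ((h * x * h⁻¹) • c) (x⁻¹ • c) := by
  haveI : Fact p.Prime := ⟨C.hp⟩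
  let A := stabilizer G C.a
  let hA : A := ⟨h, hh1⟩
  let N : Subgroup (Equiv.Perm C.Blk) := (C.P.subgroupOf A).map C.φ
  have hτ1 : C.φ hA ≠ 1 := by
    intro h1
    exact hh3 ((C.φ_eq_one_iff hA).mp h1)
  have hτ2 : C.φ hA * C.φ hA = 1 := by
    rw [← map_mul]
    exact (C.φ_eq_one_iff _).mpr hh4
  have hNc : ∀ m ∈ N, ∀ n ∈ N, m * n = n * m := by
    rintro _ ⟨m, hm, rfl⟩ _ ⟨n, hn, rfl⟩
    rw [← map_mul, ← map_mul]
    congr 1
    apply Subtype.ext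
    exact C.P_comm hm hn
  have hNt : ∀ β β', ∃ n ∈ N, n β = β' := by
    intro β β'
    obtain ⟨⟨c, hc⟩, rfl⟩ := C.blk_surj β
    obtain ⟨⟨d, hd⟩, rfl⟩ := C.blk_surj β'
    obtain ⟨z, hz, hzc⟩ := C.P_move hc hd
    refine ⟨C.φ ⟨z, C.P_fix hz⟩, ⟨⟨z, C.P_fix hz⟩, hz, rfl⟩, ?_⟩
    rw [φ_blk, blk_eq]
    show C.B (z • c) d
    rw [hzc]
    exact C.B_refl hd
  have hβ : C.φ hA (C.blk ⟨C.b, C.hba⟩) = C.blk ⟨C.b, C.hba⟩ := by
    rw [φ_blk, blk_eq]
    show C.B (h • C.b) C.b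
    rw [hh2]
    exact C.B_refl C.hba
  have hτN : ∀ n ∈ N, C.φ hA * n * (C.φ hA)⁻¹ ∈ N := by
    rintro _ ⟨m, hm, rfl⟩
    obtain ⟨x', hx', e⟩ := hAffG h hh1 m.1 hm
    refine ⟨⟨x', C.P_fix hx'⟩, hx', ?_⟩
    rw [← map_inv, ← map_mul, ← map_mul]
    apply (C.φ_eq_iff _ _).mpr
    intro c hc
    exact C.B_symm (e c hc)
  let mx : A := ⟨x, C.P_fix hx⟩
  have hkey := invert_abs C.hp C.card_Blk N hNc hNt (C.φ hA) hτ1 hτ2 _ hβ hτN (n := C.φ mx) ⟨mx, hx, rfl⟩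
  rw [← map_inv, ← map_inv, ← map_mul, ← map_mul] at hkey
  exact (C.φ_eq_iff _ _).mp hkey c hc

include hAffG hh1 hh2 hh3 hh4 in
theorem swap_aux {e e₁ e₂ : G} (he : e ∈ C.P) (he₁ : e₁ ∈ C.P) (he₂ : e₂ ∈ C.P) (hee : e * e = e₁ * e₂) :
    C.B (e₂ • C.b) ((e * h * e⁻¹) • (e₁ • C.b)) := by
  have hn : e⁻¹ * e₁ ∈ C.P := C.P.mul_mem (C.P.inv_mem he) he₁
  have h3 := C.h_inverts hAffG hh1 hh2 hh3 hh4 hn C.hba
  have h4 := C.B_act (C.P_fix he) h3
  have e1 : e • (h * (e⁻¹ * e₁) * h⁻¹) • C.b = (e * h * e⁻¹) • e₁ • C.b := by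
    have e3 : h⁻¹ • C.b = C.b := by
      rw [inv_smul_eq_iff]
      exact hh2.symm
    simp only [mul_smul, e3]
  have e2 : e • (e⁻¹ * e₁)⁻¹ • C.b = e₂ • C.b := by
    rw [← mul_smul]
    congr 1
    have : e * (e⁻¹ * e₁)⁻¹ = e * (e₁⁻¹ * e) := by group
    rw [this, C.P_comm (C.P.inv_mem he₁) he, ← mul_assoc, hee, C.P_comm he₁ he₂]
    group
  rw [e1, e2] at h4
  exact C.B_symm h4

include hAffG hh1 hh2 hh3 hh4 in
/-- Swapping two blocks. -/
theorem swap_blocks (hodd : p ≠ 2) {c d : Ω} (hc : c ≠ C.a) (hd : d ≠ C.a) :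
    ∃ y : G, y • C.a = C.a ∧ C.B d (y • c) ∧ C.B c (y • d) := by
  obtain ⟨k, hk⟩ := C.half_exists hodd
  obtain ⟨e₁, he₁, rfl⟩ := C.P_tr hc
  obtain ⟨e₂, he₂, rfl⟩ := C.P_tr hd
  have hm : e₁ * e₂ ∈ C.P := C.P.mul_mem he₁ he₂
  have he : (e₁ * e₂) ^ k ∈ C.P := C.P.pow_mem hm k
  have hee := C.P_sq_root hk hm
  set e := (e₁ * e₂) ^ k with hedef
  refine ⟨e * h * e⁻¹, ?_, ?_, ?_⟩
  · rw [mul_smul, mul_smul, C.inv_fix (C.P_fix he), hh1, C.P_fix he]
  · exact C.swap_aux hAffG hh1 hh2 hh3 hh4 he he₁ he₂ hee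
  · exact C.swap_aux hAffG hh1 hh2 hh3 hh4 he he₂ he₁ (by rw [hee, C.P_comm he₁ he₂])

include hK2 in
/-- The kernel is doubly transitive on each block. -/
theorem K2_all {c c₁ c₂ c₁' c₂' : Ω} (hc : c ≠ C.a) (h1 : C.B c c₁) (h2 : C.B c c₂) (h3 : C.B c c₁') (h4 : C.B c c₂')
    (h5 : c₁ ≠ c₂) (h6 : c₁' ≠ c₂') : ∃ k ∈ C.K, k • c₁ = c₁' ∧ k • c₂ = c₂' := by
  obtain ⟨z, hz, rfl⟩ := C.P_tr hc
  have hzi : z⁻¹ • C.a = C.a := C.inv_fix (C.P_fix hz)
  have hb : ∀ {e : Ω}, C.B (z • C.b) e → C.B C.b (z⁻¹ • e) := by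
    intro e he
    have := C.B_act hzi he
    simpa using this
  obtain ⟨k, hk, e1, e2⟩ := hK2 _ _ _ _ (hb h1) (hb h2) (hb h3) (hb h4)
    (fun h => h5 (smul_left_cancel _ h)) (fun h => h6 (smul_left_cancel _ h))
  refine ⟨z * k * z⁻¹, C.K_conj (C.P_fix hz) hk, ?_, ?_⟩
  · rw [mul_smul, mul_smul, e1, smul_inv_smul]
  · rw [mul_smul, mul_smul, e2, smul_inv_smul]

include hK2 in
theorem K1_all {c c₁ c₁' : Ω} (hc : c ≠ C.a) (h1 : C.B c c₁) (h3 : C.B c c₁') :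
    ∃ k ∈ C.K, k • c₁ = c₁' := by
  have hp2 := C.p2
  have hcard : 1 < (C.S.cls C.a c).card := by
    rw [Sys.cls, C.S.card hc]
    omega
  obtain ⟨d, hd, hd1⟩ := Finset.exists_mem_ne hcard c₁
  obtain ⟨d', hd', hd1'⟩ := Finset.exists_mem_ne hcard c₁'
  obtain ⟨k, hk, e1, _⟩ := C.K2_all hK2 hc h1 (C.S.mem_cls.mp hd) h3 (C.S.mem_cls.mp hd') (Ne.symm hd1) (Ne.symm hd1')
  exact ⟨k, hk, e1⟩

include hAffG hK2 hh1 hh2 hh3 hh4 in
/-- Step III. -/
theorem stepIII (hodd : p ≠ 2) : False := by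
  refine C.S.no_sym_at C.p2 C.hΩ C.h2 C.a ?_
  intro c d hR hd
  have hc : c ≠ C.a := Ne.symm (C.S.ne hR)
  have hdc : d ≠ c := C.S.ne' hR
  have hfixK : ∀ k ∈ C.K, ∀ r e, C.S.R r C.a e → C.S.R (k • r) C.a (k • e) := by
    intro k hk r e h
    have := C.S.inv k h
    rwa [C.K_fix hk] at this
  by_cases hBcd : C.B c d
  · obtain ⟨k, hk, e1, e2⟩ := C.K2_all hK2 hc (C.B_refl hc) hBcd hBcd (C.B_refl hc) (Ne.symm hdc) hdc
    have := hfixK k hk _ _ hR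
    rwa [e1, e2] at this
  -- the two blocks
  let Cc : Finset Ω := C.S.cls C.a c
  let Dd : Finset Ω := C.S.cls C.a d
  have hCc : ∀ {e}, e ∈ Cc ↔ C.B c e := C.S.mem_cls
  have hDd : ∀ {e}, e ∈ Dd ↔ C.B d e := C.S.mem_cls
  have hcC : c ∈ Cc := hCc.mpr (C.B_refl hc)
  have hdD : d ∈ Dd := hDd.mpr (C.B_refl hd)
  have hcardC : Cc.card = p := C.S.card hc
  have hcardD : Dd.card = p := C.S.card hd
  have hinvC : ∀ {x : Ω}, x ≠ C.a → ∀ k ∈ C.K, ∀ e, C.B x e → C.B x (k • e) := by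
    intro x hx k hk e he
    exact C.B_trans he (C.K_B hk (C.B_ne' he))
  have hoddp : Odd p := C.hp.eq_two_or_odd'.resolve_left hodd
  -- counting
  let A : Ω → Ω → Prop := fun r e => C.S.R r C.a e
  let A' : Ω → Ω → Prop := fun r e => C.S.R e C.a r
  have hinvk : ∀ k ∈ C.K, ∀ r e, A (k • r) (k • e) ↔ A r e := by
    intro k hk r e
    refine ⟨fun h => ?_, hfixK k hk r e⟩
    have := hfixK k⁻¹ (C.K.inv_mem hk) _ _ h
    simpa using this
  set c₀ := (Dd.filter (A c)).card with hc₀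
  have hrow : ∀ r ∈ Cc, (Dd.filter (A r)).card = c₀ := by
    intro r hr
    obtain ⟨k, hk, e1⟩ := C.K1_all hK2 hc (C.B_refl hc) (hCc.mp hr)
    rw [hc₀]
    refine Finset.card_nbij' (fun e => k⁻¹ • e) (fun e => k • e) ?_ ?_ ?_ ?_
    · intro e he
      simp only [Finset.coe_filter, Set.mem_setOf_eq] at he ⊢
      refine ⟨hDd.mpr (hinvC hd k⁻¹ (C.K.inv_mem hk) e (hDd.mp he.1)), ?_⟩
      rw [← hinvk k hk, e1, smul_inv_smul]
      exact he.2
    · intro e he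
      simp only [Finset.coe_filter, Set.mem_setOf_eq] at he ⊢
      refine ⟨hDd.mpr (hinvC hd k hk e (hDd.mp he.1)), ?_⟩
      rw [← e1, hinvk k hk]
      exact he.2
    · intro e _
      simp
    · intro e _
      simp
  have hcount : ∑ r ∈ Cc, (Dd.filter (A r)).card = ∑ e ∈ Dd, (Cc.filter (fun r => A r e)).card :=
    Finset.sum_card_bipartiteAbove_eq_sum_card_bipartiteBelow _
  have hcol1 : ∀ e ∈ Dd, (Cc.filter (fun r => A r e)).card = (Cc.filter (fun r => A r d)).card := by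
    intro e he
    obtain ⟨k, hk, e1⟩ := C.K1_all hK2 hd (hDd.mp he) (C.B_refl hd)
    refine Finset.card_nbij' (fun r => k • r) (fun r => k⁻¹ • r) ?_ ?_ ?_ ?_
    · intro r hr
      simp only [Finset.coe_filter, Set.mem_setOf_eq] at hr ⊢
      refine ⟨hCc.mpr (hinvC hc k hk r (hCc.mp hr.1)), ?_⟩
      rw [← e1, hinvk k hk]
      exact hr.2
    · intro r hr
      simp only [Finset.coe_filter, Set.mem_setOf_eq] at hr ⊢
      refine ⟨hCc.mpr (hinvC hc k⁻¹ (C.K.inv_mem hk) r (hCc.mp hr.1)), ?_⟩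
      rw [← hinvk k hk, smul_inv_smul, e1]
      exact hr.2
    · intro r _
      simp
    · intro r _
      simp
  have hcol : ∀ e ∈ Dd, (Cc.filter (fun r => A r e)).card = c₀ := by
    rw [Finset.sum_congr rfl hrow, Finset.sum_congr rfl hcol1, Finset.sum_const, Finset.sum_const, hcardC,
      hcardD, smul_eq_mul, smul_eq_mul] at hcount
    have h3 := Nat.eq_of_mul_eq_mul_left C.hp.pos hcount
    intro e he
    rw [hcol1 e he, h3]
  obtain ⟨y, hy, hy1, hy2⟩ := C.swap_blocks hAffG hh1 hh2 hh3 hh4 hodd hc hd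
  have hyi : y⁻¹ • C.a = C.a := C.inv_fix hy
  -- `y` interchanges the two blocks
  have hyC : ∀ {r}, C.B c r → C.B d (y • r) := by
    intro r hr
    exact C.B_trans hy1 (C.B_act hy hr)
  have hyD : ∀ {r}, C.B d r → C.B c (y • r) := by
    intro r hr
    exact C.B_trans hy2 (C.B_act hy hr)
  have hyiC : ∀ {r}, C.B c r → C.B d (y⁻¹ • r) := by
    intro r hr
    have h3 : C.B (y • d) r := C.B_trans (C.B_symm hy2) hr
    have h4 := C.B_act hyi h3
    rwa [inv_smul_smul] at h4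
  have hyiD : ∀ {r}, C.B d r → C.B c (y⁻¹ • r) := by
    intro r hr
    have h3 : C.B (y • c) r := C.B_trans (C.B_symm hy1) hr
    have h4 := C.B_act hyi h3
    rwa [inv_smul_smul] at h4
  have hrow' : ∀ r ∈ Cc, (Dd.filter (A' r)).card = c₀ := by
    intro r hr
    have hyr : y • r ∈ Dd := hDd.mpr (hyC (hCc.mp hr))
    rw [← hcol _ hyr]
    refine Finset.card_nbij' (fun e => y • e) (fun e => y⁻¹ • e) ?_ ?_ ?_ ?_
    · intro e he
      simp only [Finset.coe_filter, Set.mem_setOf_eq] at he ⊢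
      refine ⟨hCc.mpr (hyD (hDd.mp he.1)), ?_⟩
      have := C.S.inv y he.2
      rwa [hy] at this
    · intro e he
      simp only [Finset.coe_filter, Set.mem_setOf_eq] at he ⊢
      refine ⟨hDd.mpr (hyiC (hCc.mp he.1)), ?_⟩
      have := C.S.inv y⁻¹ he.2
      rwa [hyi, inv_smul_smul] at this
    · intro e _
      simp
    · intro e _
      simp
  have hh0 : 0 < c₀ := by
    apply Finset.card_pos.mpr
    exact ⟨d, Finset.mem_filter.mpr ⟨hdD, hR⟩⟩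
  have hh1' : c₀ < p := by
    have hsub : Dd.filter (A c) ⊆ (C.S.cls c C.a).erase C.a := by
      intro e he
      have he' := Finset.mem_filter.mp he
      refine Finset.mem_erase.mpr ⟨C.B_ne' (hDd.mp he'.1), C.S.mem_cls.mpr he'.2⟩
    have h3 := Finset.card_le_card hsub
    have ha : C.a ∈ C.S.cls c C.a := C.S.mem_cls.mpr (C.S.refl (Ne.symm hc))
    rw [Finset.card_erase_of_mem ha, Sys.cls, C.S.card (Ne.symm hc)] at h3
    have := C.p2
    omega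
  have hfin := Cfsg.Agent.Lib.Deg2p.Uniq.u_lemma C.K Cc Dd
    (fun k hk e he => hCc.mpr (hinvC hc k hk e (hCc.mp he)))
    (fun k hk e he => hDd.mpr (hinvC hd k hk e (hDd.mp he)))
    (fun c₁ h1 c₂ h2 c₁' h3 c₂' h4 h5 h6 =>
      C.K2_all hK2 hc (hCc.mp h1) (hCc.mp h2) (hCc.mp h3) (hCc.mp h4) h5 h6)
    (fun c₁ h1 c₂ h2 c₁' h3 c₂' h4 h5 h6 =>
      C.K2_all hK2 hd (hDd.mp h1) (hDd.mp h2) (hDd.mp h3) (hDd.mp h4) h5 h6)
    hoddp hcardC hcardD A A'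
    (fun k hk r e h => hfixK k hk r e h)
    (fun k hk r e h => hfixK k hk e r h)
    hrow hrow' hh0 hh1' hcC hdD
  exact hfin.mp hR

end StepIII

end Cfsg.Agent.Lib.Deg2p.Setup.Ctx
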