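/-
Doubly transitive groups of degree `p ^ 2 + 1`: the main theorem.
-/
import Cfsg.Agent.Lib.Deg2p.StepIII

set_option autoImplicit false
set_option linter.unusedSectionVars false
set_option linter.style.haveILetI false
set_option linter.unusedVariables false

namespace Cfsg.Agent.Lib.Deg2p.Setup.Ctx

open MulAction Finset Cfsg.Agent.Lib.Deg2p.Basic Cfsg.Agent.Lib.Deg2p.Reg Cfsg.Agent.Lib.Deg2p.Wit
open scoped Classical Pointwise

/-- Passing to the last element outside a subgroup in a chain of squares. -/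
theorem exists_last {G : Type*} [Group G] (L : Subgroup G) {t : G} (ht : t ∉ L) {n : ℕ} (hn : t ^ (2 ^ n) ∈ L) :
    ∃ j : ℕ, t ^ (2 ^ j) ∉ L ∧ t ^ (2 ^ j) * t ^ (2 ^ j) ∈ L := by
  induction n with
  | zero =>
    exfalso
    apply ht
    simpa using hn
  | succ n ih =>
    by_cases h : t ^ (2 ^ n) ∈ L
    · exact ih h
    · refine ⟨n, h, ?_⟩
      have e : t ^ (2 ^ n) * t ^ (2 ^ n) = t ^ (2 ^ (n + 1)) := by
        rw [← pow_add]
        congr 1
        ring
      rw [e]
      exact hn

variable {G Ω : Type*} [Group G] [Finite G] [Fintype Ω] [MulAction G Ω] [FaithfulSMul G Ω] {p : ℕ}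
variable (C : Ctx G Ω p)

/-- The two elements supplied by the Sylow `2`-subgroups. -/
theorem exists_elts (hodd : p ≠ 2) :
    (∃ h : G, h • C.a = C.a ∧ h • C.b = C.b ∧ h ∉ C.K ∧ h * h ∈ C.K) ∧ ∃ u : G, C.IsI u := by
  have hoddp : Odd p := C.hp.eq_two_or_odd'.resolve_left hodd
  obtain ⟨q, hq⟩ := hoddp
  have hp2 := C.p2
  have hcard4 : Fintype.card Ω % 4 = 2 := by
    rw [C.hΩ, hq]
    have : (2 * q + 1) ^ 2 + 1 = 4 * (q ^ 2 + q) + 2 := by ring
    rw [this]
    omega
  have hcard2 : 2 < Fintype.card Ω := by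
    rw [C.hΩ]
    nlinarith
  obtain ⟨T, hTg, hTf, hTx⟩ := exists_fix_two hcard4 hcard2 C.h2 C.hab
  -- a point in a different block
  obtain ⟨c, hc, hbc⟩ : ∃ c, c ≠ C.a ∧ ¬ C.B C.b c := by
    by_contra hcon
    push_neg at hcon
    have h3 : (Finset.univ.erase C.a : Finset Ω) ⊆ Finset.univ.filter (fun z => C.S.R C.a C.b z) := by
      intro z hz
      exact Finset.mem_filter.mpr ⟨Finset.mem_univ _, hcon z (Finset.mem_erase.mp hz).1⟩
    have h4 := Finset.card_le_card h3
    rw [C.S.card C.hba, Finset.card_erase_of_mem (Finset.mem_univ _), Finset.card_univ, C.hΩ] at h4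
    simp only [Nat.add_sub_cancel] at h4
    nlinarith
  have hTK : ¬ T ≤ C.K := by
    intro hle
    obtain ⟨e, he, hef⟩ := exists_fix_odd hTg (C.S.cls C.a c)
      (fun t ht e he => C.S.mem_cls.mpr (C.B_trans (C.S.mem_cls.mp he)
        (C.K_B (hle ht) (C.B_ne' (C.S.mem_cls.mp he)))))
      (by
        have : (C.S.cls C.a c).card = p := C.S.card hc
        rw [this, hq]
        exact ⟨q, rfl⟩)
    have he' : C.B c e := C.S.mem_cls.mp he
    rcases hTx e hef with h3 | h3
    · exact C.B_ne' he' h3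
    · apply hbc
      rw [h3] at he'
      exact C.B_symm he'
  obtain ⟨t, htT, htK⟩ := Set.not_subset.mp hTK
  obtain ⟨n, hn⟩ := hTg ⟨t, htT⟩
  have hn' : t ^ (2 ^ n) = 1 := by
    have := congrArg Subtype.val hn
    simpa using this
  constructor
  · obtain ⟨j, h3, h4⟩ := exists_last C.K htK (n := n) (by rw [hn']; exact C.K.one_mem)
    have h5 := T.pow_mem htT (2 ^ j)
    exact ⟨_, (hTf _ h5).1, (hTf _ h5).2, h3, h4⟩
  · have ht1 : t ∉ (⊥ : Subgroup G) := by
      intro h
      apply htK
      rw [Subgroup.mem_bot.mp h]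
      exact C.K.one_mem
    obtain ⟨j, h3, h4⟩ := exists_last ⊥ ht1 (n := n) (by rw [hn']; exact Subgroup.one_mem _)
    have h5 := T.pow_mem htT (2 ^ j)
    refine ⟨_, (hTf _ h5).1, (hTf _ h5).2, Subgroup.mem_bot.mp h4, fun h => h3 (Subgroup.mem_bot.mpr h)⟩

/-- The case of odd `p`. -/
theorem main_odd (C : Ctx G Ω p) (hodd : p ≠ 2) : False := by
  obtain ⟨⟨h, hh1, hh2, hh3, hh4⟩, u, hu⟩ := C.exists_elts hodd
  rcases C.dich_G with hHtr | hAffG
  · exact stepIV (fun hg hx => C.stepI hHtr hg hx) hodd hu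
  · rcases C.dich_K with hK2 | hAffK
    · exact C.stepIII hAffG hK2 hh1 hh2 hh3 hh4 hodd
    · exact stepIV (fun hg hx => C.stepII hAffK hAffG hg hx) hodd hu

/-- The case `p = 2`. -/
theorem main_two (C : Ctx G Ω p) (hp2 : p = 2) : Nat.card G = 20 := by
  subst hp2
  have hH : ∀ h : G, h • C.a = C.a → h • C.b = C.b → h = 1 := by
    intro h h1 h2
    -- the third point
    have hcard : 1 < (Finset.univ.filter (fun z => C.S.R C.a C.b z)).card := by
      rw [C.S.card C.hba]
      omega
    obtain ⟨s, hs, hsb⟩ := Finset.exists_mem_ne hcard C.b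
    have hs' : C.B C.b s := (Finset.mem_filter.mp hs).2
    have hfixs : h • s = s := by
      have h3 : h • s ∈ Finset.univ.filter (fun z => C.S.R C.a C.b z) := by
        refine Finset.mem_filter.mpr ⟨Finset.mem_univ _, ?_⟩
        have h4 := C.B_act h1 hs'
        rwa [h2] at h4
      have h5 : h • s ≠ C.b := by
        intro h6
        apply hsb
        rw [← h2] at h6
        exact smul_left_cancel _ h6
      have hc2 := C.S.card (x := C.a) (y := C.b) C.hba
      obtain ⟨x, y, hxy, hxyset⟩ := Finset.card_eq_two.mp hc2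
      have hbm : C.b ∈ ({x, y} : Finset Ω) := by
        rw [← hxyset]
        exact Finset.mem_filter.mpr ⟨Finset.mem_univ _, C.B_refl C.hba⟩
      rw [hxyset] at h3 hs
      simp only [Finset.mem_insert, Finset.mem_singleton] at h3 hs hbm
      rcases hbm with rfl | rfl <;> rcases hs with rfl | rfl <;> rcases h3 with h7 | h7 <;> simp_all
    have hsa : s ≠ C.a := C.B_ne' hs'
    have hset : (({C.a, C.b, s} : Finset Ω)).card = 3 := by
      rw [Finset.card_insert_of_notMem, Finset.card_insert_of_notMem, Finset.card_singleton]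
      · simpa using Ne.symm hsb
      · simp [C.hab, Ne.symm hsa]
    have hrest : (Finset.univ \ ({C.a, C.b, s} : Finset Ω)).card = 2 := by
      rw [Finset.card_sdiff_of_subset (Finset.subset_univ _), hset, Finset.card_univ, C.hΩ]
      norm_num
    obtain ⟨x, y, hxy, hxyset⟩ := Finset.card_eq_two.mp hrest
    have hpres : ∀ d, d ∉ ({C.a, C.b, s} : Finset Ω) → h • d ∉ ({C.a, C.b, s} : Finset Ω) := by
      intro d hd h3
      apply hd
      simp only [Finset.mem_insert, Finset.mem_singleton] at h3 ⊢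
      rcases h3 with h4 | h4 | h4
      · left
        rw [← h1] at h4
        exact smul_left_cancel _ h4
      · right; left
        rw [← h2] at h4
        exact smul_left_cancel _ h4
      · right; right
        rw [← hfixs] at h4
        exact smul_left_cancel _ h4
    have hmem : ∀ d, d ∉ ({C.a, C.b, s} : Finset Ω) ↔ d = x ∨ d = y := by
      intro d
      have h3 : d ∈ Finset.univ \ ({C.a, C.b, s} : Finset Ω) ↔ d = x ∨ d = y := by
        rw [hxyset]
        simp
      rw [← h3]
      simp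
    have hhx : h • x ∉ ({C.a, C.b, s} : Finset Ω) := hpres x ((hmem x).mpr (Or.inl rfl))
    have hhy : h • y ∉ ({C.a, C.b, s} : Finset Ω) := hpres y ((hmem y).mpr (Or.inr rfl))
    have hsq : h ^ (2 ^ 1) = 1 := by
      apply eq_one_of_fix (Ω := Ω)
      intro d
      rw [pow_one, pow_two, mul_smul]
      by_cases hd : d ∈ ({C.a, C.b, s} : Finset Ω)
      · simp only [Finset.mem_insert, Finset.mem_singleton] at hd
        rcases hd with rfl | rfl | rfl
        · rw [h1, h1]
        · rw [h2, h2]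
        · rw [hfixs, hfixs]
      · rcases (hmem d).mp hd with rfl | rfl
        · rcases (hmem _).mp hhx with h3 | h3
          · rw [h3, h3]
          · have h4 : h • y ≠ y := by
              intro h5
              rw [← h5] at h3
              exact hxy (smul_left_cancel _ h3)
            rcases (hmem _).mp hhy with h5 | h5
            · rw [h3, h5]
            · exact absurd h5 h4
        · rcases (hmem _).mp hhy with h3 | h3
          · have h4 : h • x ≠ x := by
              intro h5
              rw [← h5] at h3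
              exact hxy (smul_left_cancel _ h3).symm
            rcases (hmem _).mp hhx with h5 | h5
            · exact absurd h5 h4
            · rw [h3, h5]
          · rw [h3, h3]
    exact C.H_eq_one h1 h2 hsq
  have hbot : stabilizer G C.a ⊓ stabilizer G C.b = ⊥ := by
    rw [Subgroup.eq_bot_iff_forall]
    rintro h ⟨h1, h2⟩
    exact hH h h1 h2
  rw [card_G_eq C.h2 C.hab, hbot, C.hΩ]
  simp

end Cfsg.Agent.Lib.Deg2p.Setup.Ctx

namespace Cfsg.Agent.Lib.Deg2p.Main

open MulAction Finset Cfsg.Agent.Lib.Deg2p.Basic Cfsg.Agent.Lib.Deg2p.Reg Cfsg.Agent.Lib.Deg2p.Wit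
  Cfsg.Agent.Lib.Deg2p.Setup
open scoped Classical Pointwise

/-- The main theorem. -/
theorem main {G Ω : Type*} [Group G] [Finite G] [Fintype Ω] [MulAction G Ω] [FaithfulSMul G Ω] (p : ℕ)
    (hp : p.Prime) (hΩ : Fintype.card Ω = p ^ 2 + 1) (h2 : IsMultiplyPretransitive G Ω 2) (a : Ω) :
    IsPreprimitive ↥(stabilizer G a) ↥(SubMulAction.ofStabilizer G a) ∨ (p = 2 ∧ Nat.card G = 20) := by
  have h2' : ∀ {a b c d : Ω}, a ≠ b → c ≠ d → ∃ g : G, g • a = c ∧ g • b = d :=
    is_two_pretransitive_iff.mp h2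
  by_contra hcon
  push_neg at hcon
  obtain ⟨hnp, h20⟩ := hcon
  obtain ⟨S⟩ := exists_sys hp hΩ h2' a hnp
  have h1c : 1 < Fintype.card Ω := by
    rw [hΩ]
    have := hp.two_le
    nlinarith
  obtain ⟨b, hab⟩ : ∃ b, a ≠ b := by
    obtain ⟨u, v, huv⟩ := Fintype.exists_pair_of_one_lt_card h1c
    by_cases hu : a = u
    · exact ⟨v, hu ▸ huv⟩
    · exact ⟨u, hu⟩
  obtain ⟨D⟩ := exists_reg S hp hΩ h2' hab
  let C : Ctx G Ω p := ⟨S, a, b, D, hp, hΩ, h2'⟩
  by_cases hp2 : p = 2
  · exact h20 hp2 (Ctx.main_two C hp2)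
  · exact Ctx.main_odd C hp2

end Cfsg.Agent.Lib.Deg2p.Main
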